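import Mathlib

/-!
Class-equation data of a finite group: rational classes, their orders, numbers of classes,
automiser orders, centraliser orders and the power relation, and the abstract list of constraints.
-/

set_option autoImplicit false

namespace H56.K

open Finset

/-- Abstract data for a group with `K` classes: `m` non-trivial rational classes, group order `n`. -/
structure Mod (K : ℕ) where
  m : ℕ
  n : ℕ
  o : ℕ → ℕ
  t : ℕ → ℕ
  e : ℕ → ℕ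
  c : ℕ → ℕ
  A : ℕ → ℕ → Prop
  srt : ∀ i j, i < j → j < m → o i < o j ∨ (o i = o j ∧ (t i < t j ∨ (t i = t j ∧ c j ≤ c i)))
  o2 : ∀ i < m, 2 ≤ o i
  oc : ∀ i < m, o i ∣ c i
  c5 : ∀ i < m, 5 ≤ c i
  te : ∀ i < m, t i * e i = Nat.totient (o i)
  cen : ∀ i < m, c i * e i ∣ n
  Ao : ∀ y < m, ∀ x < m, A y x → o x ∣ o y
  Au : ∀ y < m, ∀ x < m, ∀ x' < m, A y x → A y x' → o x = o x' → x = x'
  Ar : ∀ y < m, A y y
  Ae : ∀ y < m, ∀ d, d ∣ o y → 1 < d → ∃ x < m, A y x ∧ o x = d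
  Atr : ∀ z < m, ∀ y < m, ∀ x < m, A z y → A y x → A z x
  Ac : ∀ y < m, ∀ x < m, A y x → c y ∣ c x
  At : ∀ y < m, ∀ x < m, A y x → t x ∣ t y
  Ace : ∀ y < m, ∀ x < m, A y x → c y * e y ∣ c x * e x
  st : ∑ i ∈ range m, t i + 1 = K
  mass : ∑ i ∈ range m, (t i : ℚ) / c i + 1 / n = 1
  sec : ∀ x < m, ∀ s : Finset ℕ, (∀ y, y ∈ s ↔ y < m ∧ A y x ∧ Nat.Coprime (o y / o x) (o x)) →
    ∀ r, r ∣ c x → Nat.Coprime r (o x) → r ∣ ∑ y ∈ s, t y / t x * (c x / c y)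
  sy : ∀ x < m, ∀ q j, Nat.Prime q → ¬ q ∣ o x → q ^ (j + 1) ∣ c x →
    ∃ y < m, y ≠ x ∧ A y x ∧ q ^ (j + 1) ∣ c y
  nl : ∀ q j, Nat.Prime q → q ^ (j + 1) ∣ n → ∃ y < m, q ^ (j + 1) ∣ c y
  tw : ∀ y < m, ∀ y' < m, ∀ z < m, ∀ q, y ≠ y' → o y = o y' → Nat.Prime q → o y = q * o z →
    ¬ q ∣ o z → A y z → A y' z → q * q ∣ c y
  tw0 : ∀ y < m, ∀ y' < m, y ≠ y' → o y = o y' → Nat.Prime (o y) → o y * o y ∣ c y
  one : ∀ y < m, Nat.Prime (o y) → e y = 1 → o y * o y ∣ c y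
  two : ∃ i < m, o i = 2
  ee : ∀ x < m, Nat.Prime (o x) → 1 < e x → ∃ y < m, o y = e x
  bf : (∑ i ∈ (range m).filter (fun i => o i = 2), (1 : ℚ) / c i) ^ 2 * n ≤ K
  np3 : 3 ≤ (((range m).image o).filter Nat.Prime).card
  k3 : (((range m).image o).filter Nat.Prime).card = 3 →
    ∀ x < m, Nat.Prime (o x) → ¬ o x * o x ∣ c x → c x = o x
  n0 : 1093 ≤ n
  l1 : ∀ i < m, Nat.Prime (o i) → 2 < o i → c i = o i → e i = 2 →
    (∀ j < m, Nat.Prime (o j) → o j ≤ 7 ∨ o j = o i) →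
    n ∈ [4080, 7800, 9828, 265680, 6920643600, 20160]
  l2 : (∀ i < m, ∀ j < m, o i = 2 → o j = 2 → i = j) → ∀ i < m, o i = 6 → c i = 6 →
    n ∈ [5616, 7920, 175560]
  l3 : (∀ i < m, IsPrimePow (o i)) → n = 2448 ∨
    (n = 20160 ∧ ∀ i < m, o i ≠ 8 ∧ (o i = 4 → 16 ∣ c i ∧ ¬ 32 ∣ c i)) ∨
    (n = 29120 ∧ ∀ i < m, o i = 4 → e i = 1) ∨ n = 32537600
  l4 : n = 7920 → ∀ i < m, (o i = 2 → c i = 48) ∧ (o i = 4 → e i = 2)

variable {G : Type*} [Group G]

/-- order of the centraliser -/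
noncomputable def cc (x : G) : ℕ := Nat.card (Subgroup.centralizer ({x} : Set G))
/-- order of the normaliser of the cyclic subgroup -/
noncomputable def nn (x : G) : ℕ := Nat.card (Subgroup.normalizer ((Subgroup.zpowers x : Subgroup G) : Set G))
/-- order of the automiser of the cyclic subgroup -/
noncomputable def ee (x : G) : ℕ := nn x / cc x
/-- number of classes in the rational class -/
noncomputable def tt (x : G) : ℕ := Nat.totient (orderOf x) / ee x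
/-- the cyclic subgroups generated by `x` and `y` are conjugate -/
def RC (x y : G) : Prop := ∃ h : G, Subgroup.zpowers (h * x * h⁻¹) = Subgroup.zpowers y
/-- `x` is rationally conjugate to a power of `y` -/
def Pw (y x : G) : Prop := ∃ j : ℕ, RC (y ^ j) x

/-- representatives of the non-trivial rational classes -/
structure Reps (g : ℕ → G) (m : ℕ) : Prop where
  ne : ∀ i < m, g i ≠ 1
  ex : ∀ x : G, x ≠ 1 → ∃ i < m, RC x (g i)
  inj : ∀ i < m, ∀ j < m, RC (g i) (g j) → i = j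

end H56.K
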