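import Mathlib.Data.Nat.Notation

/-!
A search over class-equation data (orders, numbers of classes in a rational class, centraliser
orders, power relation), written for kernel evaluation.
-/

set_option autoImplicit false

namespace H56.K

/-- nodes: order, number of classes, automiser order, bit, ancestor mask, a divisor of the
centraliser order, section numerator, a divisor of the normaliser order, primes of the order -/
inductive NL : Type
  | nil : NL
  | cons (o t e b an cm S Nm : ℕ) (ps : List ℕ) (tl : NL) : NL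

noncomputable section

def frc {α : Type} (x : ℕ) (f : ℕ → α) : α :=
  Nat.rec (motive := fun _ => α) (f 0) (fun k _ => f k) (Nat.succ x)
def sel {α : Type} (c : Bool) (a b : α) : α := Bool.rec b a c
def lm (a b : ℕ) : ℕ := Nat.mul (Nat.div a (Nat.gcd a b)) b
def up (t c : ℕ) : ℕ := Nat.succ (Nat.div (Nat.mul 1000000 t) c)
def rup (cm cur : ℕ) : ℕ := Nat.mul (Nat.div (Nat.add cur (Nat.sub cm 1)) cm) cm
def mx (a b : ℕ) : ℕ := sel (Nat.ble a b) b a
def mn (a b : ℕ) : ℕ := sel (Nat.ble a b) a b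

/-- scaled mass bound, all nodes -/
def mg (cur : ℕ) (L : NL) : ℕ :=
  NL.rec (motive := fun _ => ℕ) 0
    (fun _ t _ _ _ cm _ _ _ _ ih => Nat.add (up t (rup cm cur)) ih) L

/-- scaled mass bound with the involution part capped -/
def ms (cap cur : ℕ) (L : NL) : ℕ :=
  NL.rec (motive := fun _ => ℕ) 0
    (fun o t _ _ _ cm _ _ _ tl ih => sel (Nat.beq o 2)
      (frc (Nat.add (up t (rup cm cur)) (mg cur tl)) fun s => mn cap s)
      (Nat.add (up t (rup cm cur)) ih)) L

/-- a divisor prime to `o` -/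
def strip (o : ℕ) (f : ℕ) : ℕ → ℕ :=
  Nat.rec (motive := fun _ => ℕ → ℕ) (fun _ => 1)
    (fun _ ih r => frc (Nat.gcd r o) fun g => sel (Nat.beq g 1) r (frc (Nat.div r g) ih)) f

/-- all multiples of `c` by powers of `p`, up to `hi` -/
def gloop (hi p : ℕ) (k : ℕ → Bool) (f : ℕ) : ℕ → Bool :=
  Nat.rec (motive := fun _ => ℕ → Bool) (fun _ => false)
    (fun _ jh c => sel (Nat.ble c hi) (sel (k c) (frc (Nat.mul c p) jh) false) true) f

/-- all multiples of `c` by products of members of `ps`, up to `hi` -/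
def gen (hi : ℕ) (k : ℕ → Bool) (ps : List ℕ) : ℕ → Bool :=
  List.rec (motive := fun _ => ℕ → Bool) k (fun p _ ih => gloop hi p ih 200) ps

/-- remove the node with bit `bx` and update its ancestors -/
def upd (ox tx bx ax c ce : ℕ) (L : NL) : (NL → Bool) → Bool :=
  NL.rec (motive := fun _ => (NL → Bool) → Bool) (fun k => k NL.nil)
    (fun o t e b an cm S Nm ps _ ih k => ih fun r =>
      sel (Nat.beq b bx) (k r) (sel (Nat.beq (Nat.land b ax) 0) (k (NL.cons o t e b an cm S Nm ps r))
        (frc (lm cm c) fun cm' => frc (lm Nm ce) fun Nm' =>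
          frc (Nat.add (Nat.mul S (Nat.div cm' cm))
            (sel (Nat.beq (Nat.gcd (Nat.div ox o) o) 1) (Nat.mul (Nat.div tx t) (Nat.div cm' c)) 0))
            fun S' => k (NL.cons o t e b an cm' S' Nm' ps r)))) L

/-- the type of the recursive call of the second phase -/
abbrev D2 := NL → ℕ → ℕ → ℕ → ℕ → ℕ → ℕ → List (ℕ × ℕ × ℕ) → Bool

/-- one candidate value -/
def cand (th : Bool) (ih : D2) (L : NL) (T a lc cur bl iv : ℕ) (As : List (ℕ × ℕ × ℕ))
    (o t e b an cm S Nm r c : ℕ) : Bool :=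
  sel (sel (Nat.beq c cur) (Nat.ble bl b) false) true
    (frc (Nat.mul c e) fun ce => sel (Nat.beq (Nat.mod ce Nm) 0)
      (sel (Nat.beq (Nat.mod (Nat.succ (Nat.mul S (Nat.div c cm))) r) 0)
        (sel (sel th (sel (Nat.beq an 0) (sel (Nat.beq c o) false
            (sel (Nat.beq (Nat.mod c (Nat.mul o o)) 0) false true)) false) false) true
          (frc (lm lc ce) fun l2 => frc (Nat.mul a (Nat.div l2 lc)) fun a2 =>
            frc (Nat.mul t (Nat.div l2 c)) fun d => sel (Nat.ble a2 d) true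
              (frc (Nat.sub a2 d) fun a3 => frc (Nat.sub T t) fun T' =>
                frc (sel (Nat.beq o 2) (Nat.add iv (Nat.div 1000000 c)) iv) fun iv' =>
                  upd o t b an c ce L fun L' => ih L' T' a3 l2 c b iv' ((o, e, c) :: As))))
        true) true)

/-- choose the next node -/
def scan (th : Bool) (ih : D2) (L : NL) (T a lc cur bl iv : ℕ) (As : List (ℕ × ℕ × ℕ)) (hi : ℕ)
    (R : NL) : ℕ → ℕ → ℕ → Bool :=
  NL.rec (motive := fun _ => ℕ → ℕ → ℕ → Bool) (fun _ _ _ => true)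
    (fun o t e b an cm S Nm ps _ jh U po pt =>
      sel (sel (Nat.beq (Nat.land b U) 0) (sel (sel (Nat.beq o po) (Nat.beq t pt) false) true
        (frc (strip o 60 cm) fun r => gen hi (fun c => sel (Nat.ble cur c)
          (cand th ih L T a lc cur bl iv As o t e b an cm S Nm r c) true) ps cm))
        true) (frc (Nat.lor U an) fun U' => jh U' o t) false) R

/-- second phase -/
def dfs (K cap : ℕ) (fin : ℕ → List (ℕ × ℕ × ℕ) → Bool) (th : Bool) (f : ℕ) : D2 :=
  Nat.rec (motive := fun _ => D2) (fun _ _ _ _ _ _ _ _ => false)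
    (fun _ ih L T a lc cur bl iv As => frc (mx 1093 lc) fun nlo =>
      sel (Nat.ble (Nat.mul nlo (Nat.mul iv iv)) (Nat.mul K 1000000000000))
        (sel (Nat.beq T 0) (sel (Nat.beq a 1) (sel (Nat.ble 1093 lc) (fin lc As) true) true)
          (sel (Nat.ble (Nat.mul a 1000000) (Nat.mul lc (Nat.add (ms (Nat.sub cap iv) cur L) (up 1 nlo))))
            (frc (Nat.div (Nat.mul (Nat.succ T) lc) a) fun hi =>
              scan th ih L T a lc cur bl iv As hi L 0 0 0) true)) true) f

/-- number of distinct orders of nodes without ancestors -/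
def np (L : NL) : ℕ → ℕ :=
  NL.rec (motive := fun _ => ℕ → ℕ) (fun _ => 0)
    (fun o _ _ _ an _ _ _ _ _ ih po => sel (Nat.beq an 0) (sel (Nat.beq o po) (ih o) (Nat.succ (ih o))) (ih o)) L

def start (K cap : ℕ) (fin : ℕ → List (ℕ × ℕ × ℕ) → Bool) (L : NL) : Bool :=
  frc (np L 0) fun n => sel (Nat.ble 3 n)
    (dfs K cap fin (Nat.beq n 3) 12 L (Nat.sub K 1) 1 1 5 1000000 0 []) true

/-- product of the squares attached to shared parents -/
def twf (an : ℕ) (tw : List (ℕ × ℕ)) : ℕ :=
  List.rec (motive := fun _ => ℕ) 1 (fun x _ ih => Prod.rec (motive := fun _ => ℕ)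
    (fun q b => sel (Nat.beq (Nat.land an b) b) (lm q ih) ih) x) tw

/-- update the old nodes when a node is added -/
def add (ox ax : ℕ) (tw : List (ℕ × ℕ)) (L : NL) : (ℕ → NL → Bool) → Bool :=
  NL.rec (motive := fun _ => (ℕ → NL → Bool) → Bool) (fun k => k ox NL.nil)
    (fun o t e b an cm S Nm ps _ ih k => ih fun cx r =>
      sel (Nat.beq o ox) (frc (twf an tw) fun g => frc (lm cm g) fun cm' => frc (lm cx g) fun cx' =>
          k cx' (NL.cons o t e b an cm' S Nm ps r))
        (sel (Nat.beq (Nat.land b ax) 0) (k cx (NL.cons o t e b an cm S Nm ps r))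
          (frc (lm cm ox) fun cm' => k cx (NL.cons o t e b an cm' S Nm ps r)))) L

/-- two members of the mask with the same order -/
def dup (ax : ℕ) (L : NL) : ℕ → Bool :=
  NL.rec (motive := fun _ => ℕ → Bool) (fun _ => false)
    (fun o _ _ b _ _ _ _ _ _ ih po => sel (Nat.beq (Nat.land b ax) 0) (ih po)
      (sel (Nat.beq o po) true (ih o))) L

/-- all nodes of order `d` -/
def par1 (d t : ℕ) (k : ℕ → ℕ → Bool) (L : NL) : Bool :=
  NL.rec (motive := fun _ => Bool) true
    (fun o t' _ b an _ _ _ _ _ ih => sel (Nat.ble d o)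
      (sel (sel (Nat.beq o d) (sel (Nat.beq (Nat.mod t t') 0) (k b an) true) true) ih false) true) L

/-- choose a parent for each prime -/
def pars (L : NL) (o t : ℕ) (k : ℕ → List (ℕ × ℕ) → Bool) (ps : List ℕ) : ℕ → List (ℕ × ℕ) → Bool :=
  List.rec (motive := fun _ => ℕ → List (ℕ × ℕ) → Bool) k
    (fun q _ ih ax tw => frc (Nat.div o q) fun d => par1 d t (fun b an =>
      frc (Nat.lor ax (Nat.lor b an)) fun ax' =>
        sel (Nat.beq (Nat.mod d q) 0) (ih ax' tw) (frc (Nat.mul q q) fun q2 => ih ax' ((q2, b) :: tw))) L) ps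

/-- `k 1 ∧ … ∧ k n` -/
def rng (k : ℕ → Bool) (n : ℕ) : Bool :=
  Nat.rec (motive := fun _ => Bool) true (fun j ih => sel (frc (Nat.succ j) k) ih false) n

abbrev D1 := NL → ℕ → ℕ → ℕ → ℕ → ℕ → Bool

/-- the hash used to split the search -/
def hs (h o t ax : ℕ) : ℕ :=
  Nat.mod (Nat.add (Nat.mul h 3701) (Nat.add (Nat.mul ax 103) (Nat.add (Nat.mul o 11) t))) 1000003

/-- a composite order `o` with totient `ph` -/
def comp (ih : D1) (L : NL) (rem lo lt nb h o ph : ℕ) (ps : List ℕ) : Bool :=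
  rng (fun t => sel (Nat.beq (Nat.mod ph t) 0) (sel (sel (Nat.beq o lo) (Nat.ble lt t) true)
    (frc (Nat.div ph t) fun e => pars L o t (fun ax tw => sel (dup ax L 0) true
      (add o ax tw L fun cx r => frc (Nat.sub rem t) fun rem' => frc (Nat.mul nb 2) fun nb' =>
        frc (hs h o t ax) fun h' => ih (NL.cons o t e nb ax cx 0 1 ps r) rem' o t nb' h')) ps 0 [])
    true) true) rem

/-- table of small primes -/
def isP (n : ℕ) : Bool := sel (Nat.ble n 255) (Nat.beq (Nat.land (Nat.shiftRight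
  3622934801701902697686555901643181168549895964810913375391936802953324275884 n) 1) 1) true

/-- prime orders `t * e + 1` -/
def prm (ih : D1) (L : NL) (s rem lo lt nb h e : ℕ) : Bool :=
  rng (fun t => frc (Nat.succ (Nat.mul t e)) fun o => sel (Nat.ble lo o) (sel (isP o)
    (sel (sel (Nat.beq o lo) (Nat.ble lt t) true)
      (sel (Nat.ble 1000000 (Nat.add s (up rem (mx 5 o))))
      (frc (Nat.mul o o) fun q2 => add o 0 [(q2, 0)] L fun cx r =>
        frc (sel (Nat.beq e 1) q2 cx) fun cx' => frc (Nat.sub rem t) fun rem' =>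
          frc (Nat.mul nb 2) fun nb' => frc (hs h o t 0) fun h' =>
            ih (NL.cons o t e nb 0 cx' 0 1 [o] r) rem' o t nb' h') true)
      true) true) true) rem

/-- the primes `q` not above the least prime `mf` of `a` -/
def qs (ih : D1) (L : NL) (s rem lo lt nb h a ph mf : ℕ) (ps : List ℕ) (R : NL) : ℕ → Bool :=
  NL.rec (motive := fun _ => ℕ → Bool) (fun _ => true)
    (fun q _ _ _ an _ _ _ _ _ jh po => sel (sel (Nat.ble q mf) (sel (Nat.beq an 0) (sel (Nat.beq q po) true
      (frc (Nat.mul a q) fun o => sel (Nat.ble lo o) (sel (Nat.ble 1000000 (Nat.add s (up rem (mx 5 o))))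
        (sel (Nat.beq q mf) (frc (Nat.mul ph q) fun ph' => comp ih L rem lo lt nb h o ph' ps)
          (frc (Nat.mul ph (Nat.sub q 1)) fun ph' => comp ih L rem lo lt nb h o ph' (q :: ps))) true) true))
      true) true) (jh q) false) R

def hd (ps : List ℕ) : ℕ := List.rec (motive := fun _ => ℕ) 0 (fun p _ _ => p) ps

/-- the orders present -/
def ords (ih : D1) (L : NL) (s rem lo lt nb h : ℕ) (R : NL) : ℕ → Bool :=
  NL.rec (motive := fun _ => ℕ → Bool) (fun _ => true)
    (fun a t e _ _ _ _ _ ps _ jh po => sel (sel (Nat.beq a po) true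
      (sel (prm ih L s rem lo lt nb h a) (frc (Nat.mul t e) fun ph => frc (hd ps) fun mf =>
        qs ih L s rem lo lt nb h a ph mf ps L 0) false)) (jh a) false) R

/-- first phase -/
def ph1 (K cap : ℕ) (fin : ℕ → List (ℕ × ℕ × ℕ) → Bool) (ok : ℕ → ℕ → Bool) (f : ℕ) : D1 :=
  Nat.rec (motive := fun _ => D1) (fun _ _ _ _ _ _ => false)
    (fun _ ih L rem lo lt nb h => sel (ok nb h)
      (frc (Nat.add (ms cap 5 L) 916) fun s => sel (Nat.ble 1000000 (Nat.add s (up rem (mx 5 lo))))
        (sel (Nat.beq rem 0) (start K cap fin L)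
          (sel (prm ih L s rem lo lt nb h 1) (ords ih L s rem lo lt nb h L 0) false)) true) true) f

/-- the leaf test -/
def fin (K n : ℕ) (As : List (ℕ × ℕ × ℕ)) : Bool :=
  (As.any (fun x => x.1 ∈ [3, 5, 7, 11, 13, 17, 19, 23] && x.2.1 == 2 && x.2.2 == x.1 &&
      As.all (fun y => y.1 == x.1 || y.1 ∈ [2, 3, 4, 5, 6, 7, 8, 9, 10, 12, 14, 15, 16, 18])) &&
    !(n ∈ [4080, 7800, 9828, 265680, 6920643600, 20160])) ||
  (As.countP (fun x => x.1 == 2) == 1 && As.any (fun x => x.1 == 6 && x.2.2 == 6) &&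
    !(n ∈ [5616, 7920, 175560])) ||
  (As.all (fun x => x.1 ∈ [2, 3, 4, 5, 7, 8, 9, 11, 13, 16, 17, 19, 23, 25, 27]) &&
    (!(n ∈ [2448, 20160, 29120, 32537600]) ||
      (n == 20160 && (K == 10 || As.any (fun x => x.1 == 8 || (x.1 == 4 && (x.2.2 % 16 != 0 || x.2.2 % 32 == 0))))) ||
      (n == 29120 && (K == 11 || As.any (fun x => x.1 == 4 && x.2.1 != 1))))) ||
  (n == 7920 && (K == 10 || As.any (fun x => (x.1 == 2 && x.2.2 != 48) || (x.1 == 4 && x.2.1 != 2)))) ||
  (n == 2520 && K == 10) || (n == 2448 && K == 11)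

/-- splitting by residues of the hash at given depths -/
def okl (l : List (ℕ × ℕ × ℕ)) (nb h : ℕ) : Bool :=
  List.rec (motive := fun _ => Bool) true (fun x _ ih => Prod.rec (motive := fun _ => Bool)
    (fun B y => Prod.rec (motive := fun _ => Bool) (fun N j =>
      sel (Nat.beq nb B) (Nat.beq (Nat.mod h N) j) ih) y) x) l

def run (K cap : ℕ) (ok : ℕ → ℕ → Bool) : Bool :=
  ph1 K cap (fin K) ok 12 (NL.cons 2 1 1 1 0 4 0 1 [2] NL.nil) (Nat.sub K 2) 2 1 2 0

end

end H56.K
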