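import Cfsg.Agent.Lib.K11.Defs

/-! Rational classes: basic facts. -/

set_option autoImplicit false
set_option linter.unusedSectionVars false

namespace H56.K

open Finset

variable {G : Type*} [Group G] [Finite G]

namespace GA

open Subgroup

omit [Finite G] in
theorem zp_cj (h x : G) : zpowers (h * x * h⁻¹) = (zpowers x).map (MulAut.conj h).toMonoidHom := by
  rw [MonoidHom.map_zpowers]; rfl

omit [Finite G] in
theorem zp_cj_congr (h : G) {x y : G} (e : zpowers x = zpowers y) :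
    zpowers (h * x * h⁻¹) = zpowers (h * y * h⁻¹) := by rw [zp_cj, zp_cj, e]

omit [Finite G] in
theorem cent_zp (x : G) : centralizer ((zpowers x : Subgroup G) : Set G) = centralizer {x} := by
  rw [zpowers_eq_closure, centralizer_closure]

omit [Finite G] in
theorem rc_of_eq {x y : G} (e : zpowers x = zpowers y) : RC x y := ⟨1, by simpa using e⟩

omit [Finite G] in
theorem ord_cj (h x : G) : orderOf (h * x * h⁻¹) = orderOf x :=
  (MulAut.conj h).orderOf_eq x

theorem ord_eq {x y : G} (e : zpowers x = zpowers y) : orderOf x = orderOf y := by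
  rw [← Nat.card_zpowers, e, Nat.card_zpowers]

theorem pow_of_mem {x y : G} (h : x ∈ zpowers y) : ∃ j : ℕ, y ^ j = x :=
  mem_powers_iff_mem_zpowers.2 h

theorem zp_eq_of_ord {x y : G} (h : x ∈ zpowers y) (e : orderOf x = orderOf y) :
    zpowers x = zpowers y :=
  eq_of_le_of_card_ge (zpowers_le.2 h) (by rw [Nat.card_zpowers, Nat.card_zpowers, e])

theorem zp_pow {y : G} {j : ℕ} (h : Nat.Coprime j (orderOf y)) : zpowers (y ^ j) = zpowers y :=
  zp_eq_of_ord (pow_mem (mem_zpowers y) j) h.symm.orderOf_pow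

theorem zp_uniq {y : G} {i j : ℕ} (e : orderOf (y ^ i) = orderOf (y ^ j)) :
    zpowers (y ^ i) = zpowers (y ^ j) := by
  have k : ∀ i j : ℕ, orderOf (y ^ i) = orderOf (y ^ j) → y ^ i ∈ zpowers (y ^ j) := fun i j e => by
    rw [orderOf_pow, orderOf_pow] at e
    have e' : (orderOf y).gcd i = (orderOf y).gcd j := by
      have h1 := Nat.div_mul_cancel (Nat.gcd_dvd_left (orderOf y) i)
      have h2 := Nat.div_mul_cancel (Nat.gcd_dvd_left (orderOf y) j)
      rw [e] at h1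
      exact Nat.eq_of_mul_eq_mul_left (Nat.div_pos (Nat.le_of_dvd (orderOf_pos y)
        (Nat.gcd_dvd_left _ _)) (Nat.gcd_pos_of_pos_left _ (orderOf_pos y))) (h1.trans h2.symm)
    obtain ⟨c, hc⟩ := Nat.gcd_dvd_right (orderOf y) i
    have h3 : y ^ (orderOf y).gcd j = (y ^ j) ^ (orderOf y).gcdB j := by
      rw [← zpow_natCast, Nat.gcd_eq_gcd_ab, zpow_add, zpow_mul, zpow_mul, zpow_natCast,
        pow_orderOf_eq_one, one_zpow, one_mul, zpow_natCast]
    rw [hc, e', pow_mul, h3]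
    exact pow_mem (zpow_mem (mem_zpowers _) _) c
  exact zp_eq_of_ord (k i j e) e

omit [Finite G] in
theorem cc_cj (h x : G) : cc (h * x * h⁻¹) = cc x := by
  have : centralizer ({h * x * h⁻¹} : Set G) =
      (centralizer ({x} : Set G)).map (MulAut.conj h).toMonoidHom := by
    ext g
    rw [Subgroup.mem_map_equiv, mem_centralizer_singleton_iff, mem_centralizer_singleton_iff]
    simp only [MulAut.conj_symm_apply]
    constructor
    · intro e
      calc h⁻¹ * g * h * x = h⁻¹ * (g * (h * x * h⁻¹)) * h := by group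
        _ = _ := by rw [e]; group
    · intro e
      calc g * (h * x * h⁻¹) = h * (h⁻¹ * g * h * x) * h⁻¹ := by group
        _ = _ := by rw [e]; group
  rw [cc, cc, this, card_map_of_injective (MulAut.conj h).injective]

omit [Finite G] in
theorem nn_cj (h x : G) : nn (h * x * h⁻¹) = nn x := by
  rw [nn, nn, zp_cj, ← map_equiv_normalizer_eq, card_map_of_injective (MulAut.conj h).injective]

omit [Finite G] in
theorem cent_le (x : G) :
    centralizer ({x} : Set G) ≤ normalizer ((zpowers x : Subgroup G) : Set G) := by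
  rw [← cent_zp]; exact centralizer_le_normalizer _

theorem exists_cj {y x : G} (h : Pw y x) : ∃ g : G, ∃ j : ℕ, (g * y * g⁻¹) ^ j = x := by
  obtain ⟨j, g, e⟩ := h
  obtain ⟨k, hk⟩ := pow_of_mem (e ▸ mem_zpowers x : x ∈ zpowers (g * y ^ j * g⁻¹))
  exact ⟨g, j * k, by rw [pow_mul, conj_pow, hk]⟩

end GA

open GA

omit [Finite G] in
theorem RC.refl (x : G) : RC x x := rc_of_eq rfl
omit [Finite G] in
theorem RC.symm {x y : G} (h : RC x y) : RC y x := by
  obtain ⟨g, e⟩ := h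
  exact ⟨g⁻¹, (zp_cj_congr g⁻¹ e.symm).trans (by congr 1; group)⟩
omit [Finite G] in
theorem RC.trans {x y z : G} (h : RC x y) (h' : RC y z) : RC x z := by
  obtain ⟨g, e⟩ := h
  obtain ⟨k, e'⟩ := h'
  exact ⟨k * g, Eq.trans (by congr 1; group) ((zp_cj_congr k e).trans e')⟩
omit [Finite G] in
theorem RC.of_isConj {x y : G} (h : IsConj x y) : RC x y := by
  obtain ⟨g, e⟩ := isConj_iff.1 h
  exact ⟨g, by rw [e]⟩
theorem rc_iff {x y : G} : RC x y ↔ ∃ j : ℕ, Nat.Coprime j (orderOf y) ∧ IsConj x (y ^ j) := by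
  constructor
  · rintro ⟨g, e⟩
    obtain ⟨j, hj⟩ := pow_of_mem (e ▸ Subgroup.mem_zpowers _ : g * x * g⁻¹ ∈ Subgroup.zpowers y)
    refine ⟨j, ?_, isConj_iff.2 ⟨g, hj.symm⟩⟩
    have h1 := ord_eq e
    rw [← hj, orderOf_pow] at h1
    exact Nat.Coprime.symm ((Nat.div_eq_self.1 h1).resolve_left (orderOf_pos y).ne')
  · rintro ⟨j, hj, e⟩
    exact (RC.of_isConj e).trans (rc_of_eq (zp_pow hj))
theorem RC.ord {x y : G} (h : RC x y) : orderOf x = orderOf y := by
  obtain ⟨g, e⟩ := h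
  rw [← ord_eq e, ord_cj]
theorem RC.cc_eq {x y : G} (h : RC x y) : cc x = cc y := by
  obtain ⟨g, e⟩ := h
  rw [← cc_cj g, cc, cc, ← cent_zp, e, cent_zp]
theorem RC.nn_eq {x y : G} (h : RC x y) : nn x = nn y := by
  obtain ⟨g, e⟩ := h
  rw [← nn_cj g, nn, nn, e]
theorem RC.ee_eq {x y : G} (h : RC x y) : ee x = ee y := by rw [ee, ee, h.cc_eq, h.nn_eq]
theorem RC.tt_eq {x y : G} (h : RC x y) : tt x = tt y := by rw [tt, tt, h.ord, h.ee_eq]
theorem cc_pos (x : G) : 0 < cc x := Nat.card_pos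
theorem ord_dvd_cc (x : G) : orderOf x ∣ cc x :=
  Subgroup.orderOf_dvd_natCard _ (Subgroup.mem_centralizer_singleton_iff.2 rfl)
theorem cc_mul_ee (x : G) : cc x * ee x = nn x :=
  Nat.mul_div_cancel' (Subgroup.card_dvd_of_le (cent_le x))
theorem nn_dvd_card (x : G) : nn x ∣ Nat.card G := Subgroup.card_subgroup_dvd_card _
theorem tt_mul_ee (x : G) : tt x * ee x = Nat.totient (orderOf x) := by
  refine Nat.div_mul_cancel ?_
  have h1 := (Subgroup.zpowers x).normalizerMonoidHom.ker.card_mul_index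
  rw [Subgroup.index_ker, Subgroup.normalizerMonoidHom_ker, cent_zp,
    Nat.card_congr (Subgroup.subgroupOfEquivOfLe (cent_le x)).toEquiv] at h1
  have h2 : ee x = Nat.card (Subgroup.zpowers x).normalizerMonoidHom.range :=
    Nat.eq_of_mul_eq_mul_left (cc_pos x) ((cc_mul_ee x).trans h1.symm)
  rw [h2, ← Nat.card_zpowers, ← IsCyclic.card_mulAut]
  exact Subgroup.card_subgroup_dvd_card _
omit [Finite G] in
theorem Pw.refl (x : G) : Pw x x := ⟨1, by rw [pow_one]; exact RC.refl x⟩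
theorem Pw.of_rc {y y' x x' : G} (h : Pw y x) (hy : RC y y') (hx : RC x x') : Pw y' x' := by
  obtain ⟨j, h⟩ := h
  obtain ⟨k, -, e⟩ := rc_iff.1 hy
  exact ⟨k * j, (RC.of_isConj (by rw [pow_mul]; exact (e.pow j).symm)).trans (h.trans hx)⟩
theorem Pw.trans {z y x : G} (h : Pw z y) (h' : Pw y x) : Pw z x := by
  obtain ⟨j, h⟩ := h
  obtain ⟨k, e⟩ := h'.of_rc h.symm (RC.refl x)
  exact ⟨j * k, by rwa [pow_mul]⟩
theorem Pw.ord {y x : G} (h : Pw y x) : orderOf x ∣ orderOf y := by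
  obtain ⟨j, h⟩ := h
  rw [← h.ord]; exact orderOf_pow_dvd j
theorem Pw.uniq {y x x' : G} (h : Pw y x) (h' : Pw y x') (ho : orderOf x = orderOf x') : RC x x' := by
  obtain ⟨i, h⟩ := h
  obtain ⟨j, h'⟩ := h'
  exact h.symm.trans ((rc_of_eq (zp_uniq (h.ord.trans (ho.trans h'.ord.symm)))).trans h')
theorem Pw.ex (y : G) {d : ℕ} (hd : d ∣ orderOf y) : ∃ j : ℕ, orderOf (y ^ j) = d :=
  ⟨_, orderOf_pow_orderOf_div (orderOf_pos y).ne' hd⟩
theorem Pw.cc_dvd {y x : G} (h : Pw y x) : cc y ∣ cc x := by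
  obtain ⟨j, h⟩ := h
  rw [← h.cc_eq]
  exact Subgroup.card_dvd_of_le fun g hg => Subgroup.mem_centralizer_singleton_iff.2
    (Commute.pow_right (Subgroup.mem_centralizer_singleton_iff.1 hg) j).eq
theorem Pw.nn_dvd {y x : G} (h : Pw y x) : nn y ∣ nn x := by
  obtain ⟨j, h⟩ := h
  rw [← h.nn_eq]
  refine Subgroup.card_dvd_of_le fun g hg => ?_
  obtain ⟨k, hk⟩ := pow_of_mem ((Subgroup.mem_normalizer_iff.1 hg y).1 (Subgroup.mem_zpowers y))
  refine Subgroup.mem_normalizer_fintype ?_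
  rintro _ ⟨i, rfl⟩
  simp only [← conj_zpow, ← conj_pow, ← hk, ← pow_mul]
  rw [mul_comm, pow_mul]
  exact zpow_mem (pow_mem (Subgroup.mem_zpowers _) k) i
theorem Pw.decomp {y x : G} (h : Pw y x) (hc : Nat.Coprime (orderOf y / orderOf x) (orderOf x)) :
    ∃ u : G, Commute x u ∧ orderOf u = orderOf y / orderOf x ∧ RC y (x * u) := by
  have hd := h.ord
  obtain ⟨g, j, e⟩ := exists_cj h
  have ho : orderOf ((g * y * g⁻¹) ^ orderOf x) = orderOf y / orderOf x := by
    rw [orderOf_pow, ord_cj, Nat.gcd_eq_right hd]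
  have hm : Commute x ((g * y * g⁻¹) ^ orderOf x) := by
    nth_rw 1 [← e]
    exact Commute.pow_pow_self ..
  refine ⟨_, hm, ho, g, (zp_eq_of_ord ?_ ?_).symm⟩
  · nth_rw 1 [← e]
    exact mul_mem (pow_mem (Subgroup.mem_zpowers _) _) (pow_mem (Subgroup.mem_zpowers _) _)
  · rw [hm.orderOf_mul_eq_mul_orderOf_of_coprime (by rw [ho]; exact hc.symm), ho, ord_cj,
      Nat.mul_div_cancel' hd]
theorem pw_mul {x u : G} (h : Commute x u) (hc : Nat.Coprime (orderOf u) (orderOf x)) :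
    Pw (x * u) x ∧ orderOf (x * u) = orderOf u * orderOf x ∧
      Subgroup.centralizer ({x * u} : Set G) =
        Subgroup.centralizer ({x} : Set G) ⊓ Subgroup.centralizer ({u} : Set G) := by
  have e : Subgroup.zpowers ((x * u) ^ orderOf u) = Subgroup.zpowers x := by
    rw [h.mul_pow, pow_orderOf_eq_one, mul_one, zp_pow hc]
  refine ⟨⟨_, rc_of_eq e⟩, by rw [h.orderOf_mul_eq_mul_orderOf_of_coprime hc.symm, mul_comm], ?_⟩
  ext g
  simp only [Subgroup.mem_inf, Subgroup.mem_centralizer_singleton_iff]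
  refine ⟨fun hg => ?_, fun hg => (Commute.mul_right hg.1 hg.2).eq⟩
  obtain ⟨k, hk⟩ := pow_of_mem (e ▸ Subgroup.mem_zpowers x :
    x ∈ Subgroup.zpowers ((x * u) ^ orderOf u))
  have h1 : Commute g x := hk ▸ (Commute.pow_right hg _).pow_right k
  have h2 := h1.inv_right.mul_right hg
  rw [inv_mul_cancel_left] at h2
  exact ⟨h1, h2⟩
theorem exists_reps (G : Type*) [Group G] [Finite G] : ∃ (g : ℕ → G) (m : ℕ), Reps g m ∧
    ∀ i j, i < j → j < m → orderOf (g i) < orderOf (g j) ∨ (orderOf (g i) = orderOf (g j) ∧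
      (tt (g i) < tt (g j) ∨ (tt (g i) = tt (g j) ∧ cc (g j) ≤ cc (g i)))) := by
  let S : Setoid {x : G // x ≠ 1} :=
    ⟨fun a b => RC a.1 b.1, fun a => RC.refl _, RC.symm, RC.trans⟩
  let e := (Finite.equivFin (Quotient S)).symm
  let key : Fin (Nat.card (Quotient S)) → ℕ ×ₗ ℕ ×ₗ ℕᵒᵈ := fun i =>
    toLex (orderOf (e i).out.1, toLex (tt (e i).out.1, OrderDual.toDual (cc (e i).out.1)))
  let e' := (Tuple.sort key).trans e
  refine ⟨fun i => if h : i < Nat.card (Quotient S) then (e' ⟨i, h⟩).out.1 else 1,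
    Nat.card (Quotient S),
    ⟨fun i hi => ?_, fun x hx => ?_, fun i hi j hj h => ?_⟩, fun i j hij hj => ?_⟩
  · rw [dif_pos hi]; exact (e' ⟨i, hi⟩).out.2
  · obtain ⟨⟨i, hi⟩, h⟩ := e'.surjective (Quotient.mk S ⟨x, hx⟩)
    refine ⟨i, hi, ?_⟩
    rw [dif_pos hi, h]
    exact RC.symm (Quotient.mk_out (s := S) ⟨x, hx⟩)
  · rw [dif_pos hi, dif_pos hj] at h
    exact congrArg Fin.val (e'.injective (Quotient.out_equiv_out.1 h))
  · have := Tuple.monotone_sort key (show (⟨i, hij.trans hj⟩ : Fin _) ≤ ⟨j, hj⟩ from hij.le)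
    simp only [dif_pos hj, dif_pos (hij.trans hj)]
    simp only [Function.comp, key, Prod.Lex.toLex_le_toLex, OrderDual.toDual_le_toDual] at this
    exact this

end H56.K
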