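import Cfsg.Agent.Lib.K11.GA

/-! Counting rational classes. -/

set_option autoImplicit false
set_option linter.unusedSectionVars false

namespace H56.K

open Finset

variable {G : Type*} [Group G] [Finite G]

namespace GB

open Subgroup

theorem part {α : Type*} [Finite α] (S : Finset ℕ) (P : ℕ → α → Prop) (Q : α → Prop)
    (h1 : ∀ a, Q a ↔ ∃ i ∈ S, P i a) (h2 : ∀ a, ∀ i ∈ S, ∀ j ∈ S, P i a → P j a → i = j) :
    Nat.card {a // Q a} = ∑ i ∈ S, Nat.card {a // P i a} := by
  classical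
  have := Fintype.ofFinite α
  simp only [Nat.card_eq_fintype_card, Fintype.card_subtype]
  rw [← card_biUnion]
  · congr 1
    ext a
    simp [h1]
  · intro i hi j hj ne
    refine disjoint_left.2 fun a ha hb => ne (h2 a i hi j hj ?_ ?_)
    · simpa using ha
    · simpa using hb

theorem card_ne {α : Type*} [Finite α] (a : α) : Nat.card {b // b ≠ a} + 1 = Nat.card α := by
  classical
  have := Fintype.ofFinite α
  have : 0 < Fintype.card α := Fintype.card_pos_iff.2 ⟨a⟩
  simp only [Nat.card_eq_fintype_card, Fintype.card_subtype_compl, Fintype.card_unique]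
  omega

theorem card_gen (x : G) : Nat.card {w : G // zpowers w = zpowers x} = Nat.totient (orderOf x) := by
  classical
  have := Fintype.ofFinite G
  rw [← IsCyclic.card_orderOf_eq_totient (α := zpowers x) (d := orderOf x) (by rw [Fintype.card_zpowers]), ← Fintype.card_subtype,
    ← Nat.card_eq_fintype_card]
  refine Nat.card_congr ⟨fun w => ⟨⟨w.1, w.2.le (mem_zpowers _)⟩, ?_⟩, fun a => ⟨a.1.1, ?_⟩, fun _ => rfl,
    fun _ => rfl⟩
  · rw [orderOf_mk, ← Nat.card_zpowers, w.2, Nat.card_zpowers]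
  · refine eq_of_le_of_card_ge (zpowers_le.2 a.1.2) ?_
    rw [Nat.card_zpowers, Nat.card_zpowers, orderOf_coe, a.2]

omit [Finite G] in
theorem zp_cj (h x : G) : zpowers (h * x * h⁻¹) = (zpowers x).map (MulAut.conj h).toMonoidHom := by
  rw [MonoidHom.map_zpowers]; rfl

omit [Finite G] in
theorem mem_nz {h x : G} : h ∈ normalizer (zpowers x : Set G) ↔ zpowers (h * x * h⁻¹) = zpowers x := by
  rw [zp_cj, mem_normalizer_iff_map_conj_eq]; rfl

omit [Finite G] in
theorem zp_congr {x y : G} (e : zpowers x = zpowers y) (h : G) :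
    zpowers (h * x * h⁻¹) = zpowers (h * y * h⁻¹) := by rw [zp_cj, zp_cj, e]

theorem card_cls (x : G) : Nat.card {y : G // IsConj x y} * cc x = Nat.card G := by
  have := MulAction.index_stabilizer (ConjAct G) x
  rw [cc, nat_card_centralizer_nat_card_stabilizer, show Nat.card G = Nat.card (ConjAct G) from rfl,
    ← index_mul_card (MulAction.stabilizer (ConjAct G) x), this, ← Nat.card_coe_set_eq]
  congr 1
  exact Nat.card_congr (Equiv.subtypeEquivRight fun y => by rw [ConjAct.mem_orbit_conjAct, isConj_comm])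

end GB

open GB Subgroup

variable {g : ℕ → G} {m : ℕ}

theorem card_rc (x : G) : Nat.card {y : G // RC y x} * cc x = tt x * Nat.card G := by
  have := Fintype.ofFinite {y : G // RC y x}
  have e : Nat.card (G × {w : G // zpowers w = zpowers x}) =
      Nat.card (Σ y : {y : G // RC y x}, {h : G // zpowers (h * y.1 * h⁻¹) = zpowers x}) :=
    Nat.card_congr ⟨fun p => ⟨⟨p.1⁻¹ * p.2.1 * p.1, p.1, by simpa [mul_assoc] using p.2.2⟩, p.1,
      by simpa [mul_assoc] using p.2.2⟩, fun q => ⟨q.2.1, _, q.2.2⟩, fun p => by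
        simp [mul_assoc], fun q => by
        obtain ⟨⟨y, hy⟩, h, hh⟩ := q
        have : h⁻¹ * (h * y * h⁻¹) * h = y := by group
        simp only [Sigma.mk.injEq, this, true_and]
        congr! ⟩
  rw [Nat.card_prod, card_gen, Nat.card_sigma, sum_congr rfl (g := fun _ => nn x) fun y _ => by
    obtain ⟨y, k, hk⟩ := y
    exact Nat.card_congr ((Equiv.mulRight k⁻¹).subtypeEquiv fun h => by
      rw [Equiv.coe_mulRight, mem_nz, ← zp_congr hk]
      congr! 2
      group), sum_const, card_univ, smul_eq_mul, ← Nat.card_eq_fintype_card, ← tt_mul_ee, ← cc_mul_ee] at e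
  have p : 0 < ee x := Nat.pos_of_mul_pos_left ((cc_mul_ee x).symm ▸ (show 0 < nn x from Nat.card_pos))
  exact Nat.eq_of_mul_eq_mul_right p (by linarith)

namespace GB

/-- the classes in a rational class -/
def cl (x : G) (C : ConjClasses G) : Prop := ∃ y, ConjClasses.mk y = C ∧ RC y x

omit [Finite G] in
theorem cl_mk {x y : G} : cl x (ConjClasses.mk y) ↔ RC y x :=
  ⟨fun ⟨_, e, h⟩ => (RC.of_isConj (ConjClasses.mk_eq_mk_iff_isConj.1 e.symm)).trans h, fun h => ⟨y, rfl, h⟩⟩

theorem card_cl (x : G) : Nat.card {C // cl x C} = tt x := by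
  have := Fintype.ofFinite {C // cl x C}
  have e : Nat.card {y : G // RC y x} = Nat.card (Σ C : {C // cl x C}, {y : G // ConjClasses.mk y = C.1}) :=
    Nat.card_congr ⟨fun y => ⟨⟨_, cl_mk.2 y.2⟩, y.1, rfl⟩, fun q => ⟨q.2.1, cl_mk.1 (q.2.2.symm ▸ q.1.2)⟩,
      fun _ => rfl, by rintro ⟨⟨C, _⟩, y, e⟩; obtain rfl : ConjClasses.mk y = C := e; rfl⟩
  have k := card_rc x
  rw [e, Nat.card_sigma, sum_mul, sum_congr rfl (g := fun _ => Nat.card G) fun C _ => by
    obtain ⟨_, y, rfl, hy⟩ := C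
    rw [← hy.cc_eq, ← card_cls y]
    congr 1
    exact Nat.card_congr (Equiv.subtypeEquivRight fun w => by
      rw [ConjClasses.mk_eq_mk_iff_isConj, isConj_comm]), sum_const, card_univ, smul_eq_mul,
    ← Nat.card_eq_fintype_card] at k
  exact Nat.eq_of_mul_eq_mul_right Nat.card_pos k

/-- the power action on the conjugacy classes -/
@[reducible] noncomputable def act (G : Type*) [Group G] [Finite G] :
    MulAction (ZMod (Nat.card G))ˣ (ConjClasses G) where
  smul k := Quotient.map (· ^ k.1.val) fun _ _ h => IsConj.pow _ h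
  one_smul := by
    rintro ⟨w⟩
    refine congrArg ConjClasses.mk ?_
    show w ^ (1 : ZMod (Nat.card G)).val = w
    rw [ZMod.val_one_eq_one_mod, pow_mod_natCard, pow_one]
  mul_smul := by
    rintro k l ⟨w⟩
    refine congrArg ConjClasses.mk ?_
    show w ^ (k.1 * l.1).val = (w ^ l.1.val) ^ k.1.val
    rw [ZMod.val_mul, pow_mod_natCard, ← pow_mul, mul_comm]

theorem index_eq (x : G) : (letI := act G
    (MulAction.stabilizer (ZMod (Nat.card G))ˣ (ConjClasses.mk x)).index) = tt x := by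
  let _ := act G
  rw [MulAction.index_stabilizer, ← Nat.card_coe_set_eq, ← card_cl]
  refine Nat.card_congr (Equiv.subtypeEquivRight fun C => ⟨?_, ?_⟩)
  · rintro ⟨k, rfl⟩
    exact ⟨x ^ k.1.val, rfl, rc_iff.2 ⟨_, (ZMod.val_coe_unit_coprime k).coprime_dvd_right
      (orderOf_dvd_natCard x), IsConj.refl _⟩⟩
  · rintro ⟨y, rfl, hy⟩
    obtain ⟨j, hj, c⟩ := rc_iff.1 hy
    obtain ⟨k, hk⟩ := ZMod.unitsMap_surjective (orderOf_dvd_natCard x) (ZMod.unitOfCoprime j hj)
    refine ⟨k, ConjClasses.mk_eq_mk_iff_isConj.2 ?_⟩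
    have e : x ^ k.1.val = x ^ j := by
      rw [pow_eq_pow_iff_modEq, ← ZMod.natCast_eq_natCast_iff, ZMod.natCast_val]
      exact congrArg Units.val hk
    exact (show IsConj (x ^ k.1.val) y from e ▸ c.symm)

end GB

theorem Pw.tt_dvd {y x : G} (h : Pw y x) : tt x ∣ tt y := by
  obtain ⟨j, hj⟩ := h
  let _ := act G
  rw [← hj.tt_eq, ← index_eq, ← index_eq]
  refine index_dvd_of_le fun k hk => ConjClasses.mk_eq_mk_iff_isConj.2 ?_
  have := (ConjClasses.mk_eq_mk_iff_isConj.1 hk).pow j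
  rwa [← pow_mul, mul_comm, pow_mul] at this

theorem Reps.st (h : Reps g m) : ∑ i ∈ range m, tt (g i) + 1 = Nat.card (ConjClasses G) := by
  rw [← card_ne (ConjClasses.mk (1 : G)), part (range m) (fun i => cl (g i))]
  · simp only [card_cl]
  · rintro ⟨y⟩
    show ConjClasses.mk y ≠ _ ↔ ∃ i ∈ range m, cl (g i) (ConjClasses.mk y)
    simp only [cl_mk, mem_range, Ne, ConjClasses.mk_eq_mk_iff_isConj, isConj_one_left]
    refine ⟨h.ex y, ?_⟩
    rintro ⟨i, hi, e⟩ rfl
    exact h.ne i hi (orderOf_eq_one_iff.1 (by rw [← e.ord, orderOf_one]))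
  · rintro ⟨y⟩ i hi j hj e e'
    exact h.inj i (mem_range.1 hi) j (mem_range.1 hj) ((cl_mk.1 e).symm.trans (cl_mk.1 e'))

namespace GB

theorem card_rc' (x : G) : (Nat.card {y : G // RC y x} : ℚ) = tt x / cc x * Nat.card G := by
  have p : (cc x : ℚ) ≠ 0 := by exact_mod_cast (cc_pos x).ne'
  rw [div_mul_eq_mul_div, eq_div_iff p]
  exact_mod_cast card_rc x

theorem inv_sq_le : Nat.card {u : G // orderOf u = 2} ^ 2 ≤ Nat.card (ConjClasses G) * Nat.card G := by
  classical
  rw [← card_comm_eq_card_conjClasses_mul_card, pow_two, ← Nat.card_prod]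
  let c : G → G := fun w => if e : ∃ u, u * w * u⁻¹ = w⁻¹ then e.choose else 1
  have hc : ∀ u w, u * w * u⁻¹ = w⁻¹ → Commute w ((c w)⁻¹ * u) := fun u w e => by
    have e' : ∃ u, u * w * u⁻¹ = w⁻¹ := ⟨u, e⟩
    have k := e'.choose_spec
    simp only [c, dif_pos e']
    generalize e'.choose = v at k
    show w * (v⁻¹ * u) = v⁻¹ * u * w
    calc w * (v⁻¹ * u) = v⁻¹ * (v * w * v⁻¹) * u := by group
      _ = _ := by rw [k, ← e]; group
  have i : ∀ u : {u : G // orderOf u = 2}, u.1⁻¹ = u.1 := fun u =>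
    inv_eq_of_mul_eq_one_right (by have := pow_orderOf_eq_one u.1; rwa [u.2, pow_two] at this)
  refine Nat.card_le_card_of_injective (fun p => ⟨(p.1.1 * p.2.1, (c (p.1.1 * p.2.1))⁻¹ * p.1.1),
    hc _ _ (by rw [mul_inv_rev, i p.2, ← mul_assoc, inv_eq_iff_mul_eq_one.1 (i p.1), one_mul])⟩)
    fun p q e => ?_
  simp only [Subtype.mk.injEq, Prod.mk.injEq] at e
  obtain ⟨e1, e2⟩ := e
  rw [e1, mul_right_inj] at e2
  rw [e2, mul_right_inj] at e1
  exact Prod.ext (Subtype.ext e2) (Subtype.ext e1)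

end GB

theorem Reps.mass (h : Reps g m) :
    ∑ i ∈ range m, (tt (g i) : ℚ) / cc (g i) + 1 / (Nat.card G : ℚ) = 1 := by
  have e := card_ne (1 : G)
  rw [part (range m) (fun i y => RC y (g i)) _ (fun y => by
    simp only [mem_range]
    refine ⟨h.ex y, ?_⟩
    rintro ⟨i, hi, e⟩ rfl
    exact h.ne i hi (orderOf_eq_one_iff.1 (by rw [← e.ord, orderOf_one]))) fun y i hi j hj e e' =>
      h.inj i (mem_range.1 hi) j (mem_range.1 hj) (e.symm.trans e')] at e
  have e' := congrArg (Nat.cast : ℕ → ℚ) e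
  push_cast at e'
  simp only [card_rc', ← sum_mul] at e'
  have p : (Nat.card G : ℚ) ≠ 0 := by exact_mod_cast Nat.card_pos.ne'
  field_simp
  linarith

theorem Reps.bf (h : Reps g m) :
    (∑ i ∈ (range m).filter (fun i => orderOf (g i) = 2), (1 : ℚ) / cc (g i)) ^ 2 * (Nat.card G : ℚ) ≤
      Nat.card (ConjClasses G) := by
  have e := inv_sq_le (G := G)
  rw [part ((range m).filter fun i => orderOf (g i) = 2) (fun i y => RC y (g i)) _ (fun y => by
    simp only [mem_filter, mem_range]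
    refine ⟨fun e => ?_, fun ⟨i, hi, e⟩ => e.ord.trans hi.2⟩
    obtain ⟨i, hi, k⟩ := h.ex y (by rintro rfl; simp at e)
    exact ⟨i, ⟨hi, k.ord ▸ e⟩, k⟩) fun y i hi j hj e e' =>
      h.inj i (mem_range.1 (mem_filter.1 hi).1) j (mem_range.1 (mem_filter.1 hj).1) (e.symm.trans e')] at e
  have e' := (Nat.cast_le (α := ℚ)).2 e
  push_cast at e'
  rw [sum_congr rfl (g := fun i => (1 : ℚ) / cc (g i) * Nat.card G) fun i hi => by
    have := tt_mul_ee (g i)
    rw [(mem_filter.1 hi).2, Nat.totient_two] at this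
    rw [card_rc', Nat.eq_one_of_mul_eq_one_right this, Nat.cast_one], ← sum_mul, mul_pow, pow_two (_ : ℚ) ,
    pow_two (Nat.card G : ℚ), ← mul_assoc] at e'
  have p : (0 : ℚ) < Nat.card G := by exact_mod_cast Nat.card_pos
  rw [pow_two]
  exact le_of_mul_le_mul_right e' p

end H56.K
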