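import Cfsg.Agent.Lib.K11.GB
import Cfsg.Agent.Lib.FGS.FrobCount

/-! The section count for the class-equation data. -/

set_option autoImplicit false

namespace H56.K

open Finset

variable {G : Type*} [Group G] [Finite G]

namespace GC

theorem exists_part {n : ℕ} (hn : n ≠ 0) (a : ℕ) :
    ∃ D, D ∣ n ∧ Nat.Coprime D a ∧ ∀ d, d ∣ n → Nat.Coprime d a → d ∣ D := by
  obtain ⟨D, hD, hm⟩ := (n.divisors.filter (Nat.Coprime · a)).exists_max_image id
    ⟨1, by simp [hn]⟩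
  rw [mem_filter, Nat.mem_divisors] at hD
  refine ⟨D, hD.1.1, hD.2, fun d h1 h2 => ?_⟩
  have h3 := Nat.lcm_dvd h1 hD.1.1
  have : Nat.lcm d D ≤ D := hm (Nat.lcm d D) (mem_filter.2 ⟨Nat.mem_divisors.2 ⟨h3, hn⟩,
    (h2.mul_left hD.2).coprime_dvd_left (Nat.lcm_dvd_mul d D)⟩)
  exact (Nat.dvd_lcm_left d D).trans (le_antisymm this
    (Nat.le_of_dvd (Nat.pos_of_dvd_of_pos h3 (Nat.pos_of_ne_zero hn)) (Nat.dvd_lcm_right d D))).dvd

theorem rc_pow {w : G} {l : ℕ} (h : Nat.Coprime l (orderOf w)) : RC (w ^ l) w :=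
  rc_iff.2 ⟨l, h, IsConj.refl _⟩

open Classical in
theorem fib_le [Fintype G] {a b k : ℕ} (hc : Nat.Coprime b a) {y x x' : G} (hy : orderOf y = b * a)
    (hx : orderOf x = a) (h : RC x' x) :
    #{w | RC w y ∧ w ^ k = x} ≤ #{w | RC w y ∧ w ^ k = x'} := by
  obtain ⟨j, hj, e⟩ := rc_iff.1 h
  obtain ⟨c, e⟩ := isConj_iff.1 e.symm
  obtain ⟨l, l1, l2⟩ := Nat.chineseRemainder hc 1 j
  have hl : Nat.Coprime l (b * a) := Nat.Coprime.mul_right
    ((Nat.ModEq.gcd_eq l1).trans (Nat.gcd_one_left b))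
    ((Nat.ModEq.gcd_eq l2).trans (hx ▸ hj))
  refine card_le_card_of_injOn (fun w => c * w ^ l * c⁻¹) (fun w hw => ?_) fun w hw w' hw' q => ?_
  · simp only [coe_filter, mem_univ, true_and, Set.mem_setOf_eq] at hw ⊢
    refine ⟨(RC.of_isConj (isConj_iff.2 ⟨c, rfl⟩).symm).trans
      ((rc_pow (by rwa [hw.1.ord, hy])).trans hw.1), ?_⟩
    rw [conj_pow, ← pow_mul, mul_comm l, pow_mul, hw.2, ← e, pow_eq_pow_iff_modEq.2 (hx ▸ l2)]
  · simp only [coe_filter, mem_univ, true_and, Set.mem_setOf_eq] at hw hw'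
    obtain ⟨t, ht⟩ := Nat.exists_eq_succ_of_ne_zero (Nat.totient_pos.2 (hy ▸ orderOf_pos y)).ne'
    have p : ∀ {w : G}, RC w y → (w ^ l) ^ l ^ t = w := fun hw => by
      rw [← pow_mul, ← pow_succ', ← Nat.succ_eq_add_one, ← ht]
      exact (pow_eq_pow_iff_modEq.2 (by rw [hw.ord, hy]; exact Nat.ModEq.pow_totient hl)).trans
        (pow_one _)
    rw [← p hw.1, ← p hw'.1, mul_left_cancel (mul_right_cancel q)]

open Classical in
theorem count [Fintype G] {y x : G} (h : Pw y x)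
    (hc : Nat.Coprime (orderOf y / orderOf x) (orderOf x)) :
    #{z | (Commute x z ∧ Nat.Coprime (orderOf z) (orderOf x)) ∧ RC (x * z) y} =
      tt y / tt x * (cc x / cc y) := by
  have hy := (Nat.div_mul_cancel h.ord).symm
  generalize orderOf y / orderOf x = b at hc hy
  obtain ⟨k, k1, k2⟩ := Nat.chineseRemainder hc 0 1
  obtain ⟨c, rfl⟩ := Nat.modEq_zero_iff_dvd.1 k1
  have b0 : b ≠ 0 := left_ne_zero_of_mul (hy ▸ (orderOf_pos y).ne')
  have e1 : #{z | (Commute x z ∧ Nat.Coprime (orderOf z) (orderOf x)) ∧ RC (x * z) y} =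
      #{w | RC w y ∧ w ^ (b * c) = x} := by
    refine card_bij (fun z _ => x * z) (fun z hz => ?_) (fun _ _ _ _ => mul_left_cancel) fun w hw => ?_
    · simp only [mem_filter, mem_univ, true_and] at hz ⊢
      have : orderOf z = b := Nat.eq_of_mul_eq_mul_right (orderOf_pos x)
        ((pw_mul hz.1.1 hz.1.2).2.1.symm.trans (hz.2.ord.trans hy))
      refine ⟨hz.2, ?_⟩
      rw [hz.1.1.mul_pow, pow_eq_pow_iff_modEq.2 k2, pow_mul z, ← this, pow_orderOf_eq_one]
      simp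
    · simp only [mem_filter, mem_univ, true_and] at hw ⊢
      have cm : Commute x w := hw.2 ▸ Commute.pow_self w _
      refine ⟨x⁻¹ * w, ⟨⟨(Commute.refl x).inv_right.mul_right cm,
        hc.coprime_dvd_left (orderOf_dvd_of_pow_eq_one ?_)⟩, by simpa using hw.1⟩, by simp⟩
      rw [cm.inv_left.mul_pow, inv_pow, inv_mul_eq_one, ← hw.2, ← pow_mul, pow_eq_pow_iff_modEq,
        hw.1.ord, hy, mul_comm _ b]
      simpa using k2.mul_left' (c := b)
  have e2 : #{w | RC w y} = #{x' | RC x' x} * #{w | RC w y ∧ w ^ (b * c) = x} := by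
    rw [card_eq_sum_card_fiberwise (f := fun w => w ^ (b * c)) (t := {x' | RC x' x}) fun w hw => ?_]
    · refine sum_const_nat fun x' hx' => ?_
      have r : RC x' x := (mem_filter.1 hx').2
      rw [filter_filter]
      exact le_antisymm (fib_le hc hy r.ord r.symm) (fib_le hc hy rfl r)
    · simp only [coe_filter, mem_univ, true_and, Set.mem_setOf_eq] at hw ⊢
      have o : orderOf (w ^ b) = orderOf x := by
        rw [orderOf_pow_of_dvd b0 (by rw [hw.ord, hy]; simp), hw.ord, hy,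
          Nat.mul_div_cancel_left _ (Nat.pos_of_ne_zero b0)]
      refine Pw.uniq ⟨_, RC.refl _⟩ (h.of_rc hw.symm (RC.refl x)) ?_
      rw [pow_mul, Nat.Coprime.orderOf_pow, o]
      rw [o]
      exact (Nat.Coprime.coprime_mul_left ((Nat.ModEq.gcd_eq k2).trans (Nat.gcd_one_left _))).symm
  have c1 := card_rc x
  have c2 := card_rc y
  rw [Nat.card_eq_fintype_card, Fintype.card_subtype] at c1 c2
  obtain ⟨τ, hτ⟩ := h.tt_dvd
  obtain ⟨γ, hγ⟩ := h.cc_dvd
  have t0 : 0 < tt x := Nat.pos_of_mul_pos_right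
    (tt_mul_ee x ▸ Nat.totient_pos.2 (orderOf_pos x))
  rw [e1, hτ, hγ, Nat.mul_div_cancel_left _ t0, Nat.mul_div_cancel_left _ (cc_pos y)]
  rw [e2, hτ] at c2
  rw [hγ] at c1
  refine Nat.eq_of_mul_eq_mul_left (mul_pos t0 (Nat.card_pos (α := G))) ?_
  linear_combination (exp := 1) γ * c2 - #{w | RC w y ∧ w ^ (b * c) = x} * c1

end GC

variable {g : ℕ → G} {m : ℕ}

theorem Reps.sec (h : Reps g m) (x : ℕ) (hx : x < m) (s : Finset ℕ)
    (hs : ∀ y, y ∈ s ↔ y < m ∧ Pw (g y) (g x) ∧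
      Nat.Coprime (orderOf (g y) / orderOf (g x)) (orderOf (g x)))
    (r : ℕ) (hr : r ∣ cc (g x)) (hc : Nat.Coprime r (orderOf (g x))) :
    r ∣ ∑ y ∈ s, tt (g y) / tt (g x) * (cc (g x) / cc (g y)) := by
  classical
  have := Fintype.ofFinite G
  obtain ⟨D, h1, h2, h3⟩ := GC.exists_part (cc_pos (g x)).ne' (orderOf (g x))
  refine ((h3 r hr hc).trans (H79.frobenius h1)).trans (dvd_of_eq ?_)
  rw [← sum_congr rfl fun y hy => GC.count ((hs y).1 hy).2.1 ((hs y).1 hy).2.2, ← card_biUnion,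
    ← Fintype.card_coe, ← Nat.card_eq_fintype_card]
  · refine Nat.card_congr (Equiv.ofBijective (fun z => ⟨z.1.1, ?_⟩) ⟨fun z z' e => ?_, fun w => ?_⟩)
    · have c : Commute (g x) z.1.1 := (Subgroup.mem_centralizer_singleton_iff.1 z.1.2).symm
      have o := h2.coprime_dvd_left (orderOf_dvd_of_pow_eq_one (congrArg Subtype.val z.2))
      obtain ⟨p1, p2, -⟩ := pw_mul c o
      obtain ⟨y, hy, e⟩ := h.ex (g x * z.1.1) fun e => h.ne x hx (orderOf_eq_one_iff.1
        (Nat.eq_one_of_mul_eq_one_left (by rw [← p2, e, orderOf_one])))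
      refine mem_biUnion.2 ⟨y, (hs y).2 ⟨hy, p1.of_rc e (RC.refl _), ?_⟩,
        mem_filter.2 ⟨mem_univ _, ⟨c, o⟩, e⟩⟩
      rwa [← e.ord, p2, Nat.mul_div_cancel _ (orderOf_pos _)]
    · exact Subtype.ext (Subtype.ext (Subtype.mk.inj e))
    · obtain ⟨y, -, hw⟩ := mem_biUnion.1 w.2
      obtain ⟨-, ⟨c, o⟩, -⟩ := mem_filter.1 hw
      have hm := Subgroup.mem_centralizer_singleton_iff.2 c.symm.eq
      exact ⟨⟨⟨w.1, hm⟩, Subtype.ext (orderOf_dvd_iff_pow_eq_one.1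
        (h3 _ (Subgroup.orderOf_dvd_natCard _ hm) o))⟩, rfl⟩
  · intro y hy y' hy' n
    refine disjoint_filter.2 fun z _ e e' => n ?_
    exact h.inj y ((hs y).1 hy).1 y' ((hs y').1 hy').1 (e.2.symm.trans e'.2)

end H56.K
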