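import Cfsg.Agent.Lib.K11.Defs
import Cfsg.Agent.Lib.Misc92.L34Par

/-! Elements of order four in `L₃(4)`. -/

set_option autoImplicit false
set_option linter.style.haveILetI false

namespace H56.K

open Finset

namespace GLL

open Subgroup Matrix H92.L34
open scoped MatrixGroups

variable {F : Type*} [Field F]

theorem mul_ent (u v : H10.unitriSL (Fin 3) F) :
    (u * v).1.1 0 1 = u.1.1 0 1 + v.1.1 0 1 ∧ (u * v).1.1 1 2 = u.1.1 1 2 + v.1.1 1 2 ∧
    (u * v).1.1 0 2 = u.1.1 0 2 + v.1.1 0 2 + u.1.1 0 1 * v.1.1 1 2 := by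
  obtain ⟨a1, -, -, a4, a5, -⟩ := mem_U.1 u.2
  obtain ⟨-, -, b3, -, b5, b6⟩ := mem_U.1 v.2
  simp only [Subgroup.coe_mul, Matrix.SpecialLinearGroup.coe_mul, Matrix.mul_apply,
    Fin.sum_univ_three, a1, a4, a5, b3, b5, b6]
  refine ⟨by ring, by ring, by ring⟩

theorem ext3 {u v : H10.unitriSL (Fin 3) F} (h1 : u.1.1 0 1 = v.1.1 0 1) (h2 : u.1.1 1 2 = v.1.1 1 2)
    (h3 : u.1.1 0 2 = v.1.1 0 2) : u = v := by
  refine Subtype.ext (Subtype.ext (Matrix.ext fun i j => ?_))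
  obtain ⟨a1, a2, a3, a4, a5, a6⟩ := mem_U.1 u.2
  obtain ⟨b1, b2, b3, b4, b5, b6⟩ := mem_U.1 v.2
  fin_cases i <;> fin_cases j <;> simp_all

theorem exists_ent (a b c : F) :
    ∃ u : H10.unitriSL (Fin 3) F, u.1.1 0 1 = a ∧ u.1.1 1 2 = c ∧ u.1.1 0 2 = b := by
  obtain ⟨g, hg⟩ := exists_ut a b c
  exact ⟨⟨g, mem_U.2 (by simp [hg])⟩, by simp [hg]⟩

theorem sq_eq_one (h2 : (2 : F) = 0) {u : H10.unitriSL (Fin 3) F} (h : u.1.1 0 1 = 0) : u * u = 1 := by
  obtain ⟨a, b, c⟩ := mul_ent u u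
  refine ext3 (a.trans ?_) (b.trans ?_) (c.trans ?_)
  · simp [h]
  · rw [← two_mul, h2, zero_mul]; simp
  · rw [← two_mul, h2, zero_mul, h]; simp

theorem pow_four (h2 : (2 : F) = 0) (u : H10.unitriSL (Fin 3) F) : u ^ 4 = 1 := by
  rw [show u ^ 4 = (u * u) * (u * u) by simp [pow_succ, mul_assoc]]
  refine sq_eq_one h2 ((mul_ent u u).1.trans ?_)
  rw [← two_mul, h2, zero_mul]

theorem card_cent [Fintype F] (hF : Fintype.card F = 4) {u : H10.unitriSL (Fin 3) F} (hu : u * u ≠ 1) :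
    Nat.card (centralizer ({u} : Set (H10.unitriSL (Fin 3) F))) = 16 := by
  have ha : u.1.1 0 1 ≠ 0 := fun e => hu (sq_eq_one (two hF) e)
  have key : ∀ v : H10.unitriSL (Fin 3) F, v ∈ centralizer ({u} : Set (H10.unitriSL (Fin 3) F)) ↔
      v.1.1 0 1 * u.1.1 1 2 = u.1.1 0 1 * v.1.1 1 2 := fun v => by
    rw [mem_centralizer_singleton_iff]
    obtain ⟨a, b, c⟩ := mul_ent u v
    obtain ⟨a', b', c'⟩ := mul_ent v u
    refine ⟨fun e => ?_, fun e => ext3 ?_ ?_ ?_⟩
    · rw [e, c] at c'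
      linear_combination -c'
    · rw [a, a', add_comm]
    · rw [b, b', add_comm]
    · rw [c, c', e]; ring
  rw [Nat.card_congr (Equiv.ofBijective
    (fun v : centralizer ({u} : Set (H10.unitriSL (Fin 3) F)) => (v.1.1.1 0 1, v.1.1.1 0 2))
    ⟨fun v w e => ?_, fun p => ?_⟩), Nat.card_prod, Nat.card_eq_fintype_card, hF]
  · obtain ⟨e1, e2⟩ := Prod.ext_iff.1 e
    refine Subtype.ext (ext3 e1 (mul_left_cancel₀ ha ?_) e2)
    rw [← (key _).1 v.2, ← (key _).1 w.2]
    exact congrArg (· * _) e1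
  · obtain ⟨v, h1, h2, h3⟩ := exists_ent p.1 p.2 (p.1 * u.1.1 1 2 / u.1.1 0 1)
    exact ⟨⟨v, (key v).2 (by rw [h1, h2]; field_simp)⟩, Prod.ext h1 h3⟩

theorem card_cent_congr {A B : Type*} [Group A] [Group B] (e : A ≃* B) (x : A) :
    Nat.card (centralizer ({x} : Set A)) = Nat.card (centralizer ({e x} : Set B)) :=
  Nat.card_congr (e.toEquiv.subtypeEquiv fun y => by
    rw [mem_centralizer_singleton_iff, mem_centralizer_singleton_iff]
    change _ ↔ e y * e x = e x * e y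
    rw [← map_mul, ← map_mul, e.apply_eq_iff_eq])

theorem exists_equiv {G : Type*} [Group G] [Finite G] [Fintype F] (hF : Fintype.card F = 4)
    (e : G ≃* PSL(3, F)) (S : Sylow 2 G) : Nonempty (S ≃* H10.unitriSL (Fin 3) F) := by
  haveI : CharP F 2 := CharTwo.of_one_ne_zero_of_two_eq_zero one_ne_zero (two hF)
  let f : SL(3, F) →* G := e.symm.toMonoidHom.comp (QuotientGroup.mk' _)
  have hf : Function.Surjective f := e.symm.surjective.comp (QuotientGroup.mk'_surjective _)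
  let T := (H10.unitriSylowSL (Fin 3) F 2).mapSurjective hf
  exact ⟨(S.equiv T).trans (MulEquiv.ofBijective (f.subgroupMap (H10.unitriSL (Fin 3) F))
    ⟨fun a b h => Subtype.ext (eq_of_mk_eq a.2 b.2 (e.symm.injective (congrArg Subtype.val h))),
      f.subgroupMap_surjective _⟩).symm⟩

end GLL

variable {G : Type*} [Group G] [Finite G]

open Subgroup in
theorem l34_four {F : Type} [Field F] [Fintype F] (hF : Fintype.card F = 4)
    (e : G ≃* Matrix.ProjectiveSpecialLinearGroup (Fin 3) F) (x : G) :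
    orderOf x ≠ 8 ∧ (orderOf x = 4 → 16 ∣ cc x ∧ ¬ 32 ∣ cc x) := by
  refine ⟨fun h => ?_, fun h => ?_⟩
  · obtain ⟨S, hS⟩ := (IsPGroup.of_card (p := 2) (n := 3) (G := zpowers x)
      (by rw [Nat.card_zpowers, h]; rfl)).exists_le_sylow
    obtain ⟨φ⟩ := GLL.exists_equiv hF e S
    have h1 : (⟨x, hS (mem_zpowers x)⟩ : S) ^ 4 = 1 :=
      φ.injective (by rw [map_pow, map_one, GLL.pow_four (H92.L34.two hF)])
    have h2 : orderOf x ∣ 4 := orderOf_dvd_of_pow_eq_one (congrArg Subtype.val h1)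
    rw [h] at h2
    omega
  · unfold cc
    set C := centralizer ({x} : Set G)
    let y : C := ⟨x, mem_centralizer_singleton_iff.2 rfl⟩
    obtain ⟨T, hT⟩ := (IsPGroup.of_card (p := 2) (n := 2) (G := zpowers y)
      (by rw [Nat.card_zpowers, ← Subgroup.orderOf_coe, h]; rfl)).exists_le_sylow
    obtain ⟨S, hS⟩ := (T.isPGroup'.map C.subtype).exists_le_sylow
    obtain ⟨φ⟩ := GLL.exists_equiv hF e S
    let z : S := ⟨x, hS ⟨y, hT (mem_zpowers y), rfl⟩⟩
    have h1 : φ z * φ z ≠ 1 := fun e => by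
      have : z ^ 2 = 1 := φ.injective (by rw [map_pow, map_one, pow_two, e])
      have h2 : orderOf x ∣ 2 := orderOf_dvd_of_pow_eq_one (congrArg Subtype.val this)
      rw [h] at h2
      omega
    have h2 := (GLL.card_cent_congr φ z).trans (GLL.card_cent hF h1)
    have h3 : (S : Subgroup G).subgroupOf C = T :=
      T.is_maximal' S.isPGroup'.comap_subtype fun t ht => hS ⟨t, ht, rfl⟩
    have h4 : Nat.card T = 16 := by
      rw [← h2, ← h3]
      exact Nat.card_congr ⟨fun t => ⟨⟨t.1.1, t.2⟩, mem_centralizer_singleton_iff.2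
        (Subtype.ext (mem_centralizer_singleton_iff.1 t.1.2))⟩,
        fun t => ⟨⟨t.1.1, mem_centralizer_singleton_iff.2
          (congrArg Subtype.val (mem_centralizer_singleton_iff.1 t.2))⟩, t.1.2⟩,
        fun _ => rfl, fun _ => rfl⟩
    have h5 := (T : Subgroup C).card_mul_index
    have h6 := T.not_dvd_index
    rw [h4] at h5
    omega

end H56.K
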