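import Cfsg.Agent.Lib.K11.Eng

/-!
Kernel run of a part of the search, 10 classes.
-/

set_option maxRecDepth 100000
set_option Elab.async false

namespace H56.K.R10

theorem r0 : run 10 95652 (okl [(16, 8, 0)]) = true := by
  decide +kernel
theorem r1 : run 10 95652 (okl [(32, 4, 0), (16, 8, 4)]) = true := by
  decide +kernel
theorem r2 : run 10 95652 (okl [(32, 4, 2), (16, 8, 4)]) = true := by
  decide +kernel
theorem r3 : run 10 95652 (okl [(32, 4, 1), (16, 8, 4)]) = true := by
  decide +kernel
theorem r4 : run 10 95652 (okl [(32, 8, 3), (16, 8, 4)]) = true := by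
  decide +kernel
theorem r5 : run 10 95652 (okl [(64, 2, 0), (32, 16, 7), (16, 8, 4)]) = true := by
  decide +kernel
theorem r6 : run 10 95652 (okl [(64, 2, 1), (32, 16, 7), (16, 8, 4)]) = true := by
  decide +kernel
theorem r7 : run 10 95652 (okl [(32, 16, 15), (16, 8, 4)]) = true := by
  decide +kernel
theorem r8 : run 10 95652 (okl [(32, 4, 0), (16, 8, 2)]) = true := by
  decide +kernel

end H56.K.R10
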