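import Cfsg.Agent.Lib.K11.Eng

/-!
Kernel run of a part of the search, 10 classes.
-/

set_option maxRecDepth 100000
set_option Elab.async false

namespace H56.K.R10

theorem r9 : run 10 95652 (okl [(32, 4, 2), (16, 8, 2)]) = true := by
  decide +kernel
theorem r10 : run 10 95652 (okl [(32, 4, 1), (16, 8, 2)]) = true := by
  decide +kernel
theorem r11 : run 10 95652 (okl [(32, 4, 3), (16, 8, 2)]) = true := by
  decide +kernel
theorem r12 : run 10 95652 (okl [(16, 8, 6)]) = true := by
  decide +kernel
theorem r13 : run 10 95652 (okl [(16, 8, 1)]) = true := by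
  decide +kernel
theorem r14 : run 10 95652 (okl [(32, 2, 0), (16, 8, 5)]) = true := by
  decide +kernel
theorem r15 : run 10 95652 (okl [(32, 4, 1), (16, 8, 5)]) = true := by
  decide +kernel
theorem r16 : run 10 95652 (okl [(32, 8, 3), (16, 8, 5)]) = true := by
  decide +kernel
theorem r17 : run 10 95652 (okl [(32, 8, 7), (16, 8, 5)]) = true := by
  decide +kernel

end H56.K.R10
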