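import Cfsg.Agent.Lib.K11.Eng

/-!
Kernel run of a part of the search, 10 classes.
-/

set_option maxRecDepth 100000
set_option Elab.async false

namespace H56.K.R10

theorem r18 : run 10 95652 (okl [(32, 4, 0), (16, 4, 3)]) = true := by
  decide +kernel
theorem r19 : run 10 95652 (okl [(32, 8, 2), (16, 4, 3)]) = true := by
  decide +kernel
theorem r20 : run 10 95652 (okl [(32, 16, 6), (16, 4, 3)]) = true := by
  decide +kernel
theorem r21 : run 10 95652 (okl [(32, 16, 14), (16, 4, 3)]) = true := by
  decide +kernel
theorem r22 : run 10 95652 (okl [(32, 16, 1), (16, 4, 3)]) = true := by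
  decide +kernel
theorem r23 : run 10 95652 (okl [(32, 16, 9), (16, 4, 3)]) = true := by
  decide +kernel
theorem r24 : run 10 95652 (okl [(32, 8, 5), (16, 4, 3)]) = true := by
  decide +kernel
theorem r25 : run 10 95652 (okl [(32, 8, 3), (16, 4, 3)]) = true := by
  decide +kernel
theorem r26 : run 10 95652 (okl [(32, 32, 7), (16, 4, 3)]) = true := by
  decide +kernel
theorem r27 : run 10 95652 (okl [(32, 32, 23), (16, 4, 3)]) = true := by
  decide +kernel
theorem r28 : run 10 95652 (okl [(32, 16, 15), (16, 4, 3)]) = true := by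
  decide +kernel

end H56.K.R10
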