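import Cfsg.Agent.Lib.K11.Eng

/-!
Kernel run of a part of the search, 11 classes.
-/

set_option maxRecDepth 100000
set_option Elab.async false

namespace H56.K.R11

theorem r0 : run 11 100320 (okl [(32, 32, 0), (16, 8, 0)]) = true := by
  decide +kernel
theorem r1 : run 11 100320 (okl [(32, 32, 16), (16, 8, 0)]) = true := by
  decide +kernel
theorem r2 : run 11 100320 (okl [(32, 16, 8), (16, 8, 0)]) = true := by
  decide +kernel
theorem r3 : run 11 100320 (okl [(32, 16, 4), (16, 8, 0)]) = true := by
  decide +kernel
theorem r4 : run 11 100320 (okl [(32, 16, 12), (16, 8, 0)]) = true := by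
  decide +kernel
theorem r5 : run 11 100320 (okl [(32, 8, 2), (16, 8, 0)]) = true := by
  decide +kernel
theorem r6 : run 11 100320 (okl [(32, 64, 6), (16, 8, 0)]) = true := by
  decide +kernel
theorem r7 : run 11 100320 (okl [(32, 128, 38), (16, 8, 0)]) = true := by
  decide +kernel
theorem r8 : run 11 100320 (okl [(64, 2, 0), (32, 128, 102), (16, 8, 0)]) = true := by
  decide +kernel
theorem r9 : run 11 100320 (okl [(64, 4, 1), (32, 128, 102), (16, 8, 0)]) = true := by
  decide +kernel
theorem r10 : run 11 100320 (okl [(64, 4, 3), (32, 128, 102), (16, 8, 0)]) = true := by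
  decide +kernel
theorem r11 : run 11 100320 (okl [(32, 32, 22), (16, 8, 0)]) = true := by
  decide +kernel
theorem r12 : run 11 100320 (okl [(32, 16, 14), (16, 8, 0)]) = true := by
  decide +kernel
theorem r13 : run 11 100320 (okl [(32, 16, 1), (16, 8, 0)]) = true := by
  decide +kernel
theorem r14 : run 11 100320 (okl [(32, 32, 9), (16, 8, 0)]) = true := by
  decide +kernel
theorem r15 : run 11 100320 (okl [(32, 32, 25), (16, 8, 0)]) = true := by
  decide +kernel
theorem r16 : run 11 100320 (okl [(32, 8, 5), (16, 8, 0)]) = true := by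
  decide +kernel
theorem r17 : run 11 100320 (okl [(32, 16, 3), (16, 8, 0)]) = true := by
  decide +kernel

end H56.K.R11
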