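import Cfsg.Agent.Lib.K11.Eng

/-!
Kernel run of a part of the search, 11 classes.
-/

set_option maxRecDepth 100000
set_option Elab.async false

namespace H56.K.R11

theorem r18 : run 11 100320 (okl [(32, 32, 11), (16, 8, 0)]) = true := by
  decide +kernel
theorem r19 : run 11 100320 (okl [(32, 32, 27), (16, 8, 0)]) = true := by
  decide +kernel
theorem r20 : run 11 100320 (okl [(32, 16, 7), (16, 8, 0)]) = true := by
  decide +kernel
theorem r21 : run 11 100320 (okl [(32, 32, 15), (16, 8, 0)]) = true := by
  decide +kernel
theorem r22 : run 11 100320 (okl [(32, 128, 31), (16, 8, 0)]) = true := by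
  decide +kernel
theorem r23 : run 11 100320 (okl [(64, 4, 0), (32, 128, 95), (16, 8, 0)]) = true := by
  decide +kernel
theorem r24 : run 11 100320 (okl [(64, 4, 2), (32, 128, 95), (16, 8, 0)]) = true := by
  decide +kernel
theorem r25 : run 11 100320 (okl [(64, 2, 1), (32, 128, 95), (16, 8, 0)]) = true := by
  decide +kernel
theorem r26 : run 11 100320 (okl [(32, 64, 63), (16, 8, 0)]) = true := by
  decide +kernel
theorem r27 : run 11 100320 (okl [(32, 16, 0), (16, 16, 4)]) = true := by
  decide +kernel
theorem r28 : run 11 100320 (okl [(64, 2, 0), (32, 16, 8), (16, 16, 4)]) = true := by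
  decide +kernel
theorem r29 : run 11 100320 (okl [(64, 2, 1), (32, 16, 8), (16, 16, 4)]) = true := by
  decide +kernel
theorem r30 : run 11 100320 (okl [(32, 16, 4), (16, 16, 4)]) = true := by
  decide +kernel
theorem r31 : run 11 100320 (okl [(64, 8, 0), (32, 32, 12), (16, 16, 4)]) = true := by
  decide +kernel
theorem r32 : run 11 100320 (okl [(64, 16, 4), (32, 32, 12), (16, 16, 4)]) = true := by
  decide +kernel
theorem r33 : run 11 100320 (okl [(128, 2, 0), (64, 16, 12), (32, 32, 12), (16, 16, 4)]) = true := by
  decide +kernel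
theorem r34 : run 11 100320 (okl [(128, 2, 1), (64, 16, 12), (32, 32, 12), (16, 16, 4)]) = true := by
  decide +kernel
theorem r35 : run 11 100320 (okl [(64, 4, 2), (32, 32, 12), (16, 16, 4)]) = true := by
  decide +kernel

end H56.K.R11
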