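import Cfsg.Agent.Lib.K11.Eng

/-!
Kernel run of a part of the search, 11 classes.
-/

set_option maxRecDepth 100000
set_option Elab.async false

namespace H56.K.R11

theorem r179 : run 11 100320 (okl [(32, 8, 1), (16, 16, 10)]) = true := by
  decide +kernel
theorem r180 : run 11 100320 (okl [(32, 16, 5), (16, 16, 10)]) = true := by
  decide +kernel
theorem r181 : run 11 100320 (okl [(64, 4, 0), (32, 32, 13), (16, 16, 10)]) = true := by
  decide +kernel
theorem r182 : run 11 100320 (okl [(128, 4, 0), (64, 8, 2), (32, 32, 13), (16, 16, 10)]) = true := by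
  decide +kernel
theorem r183 : run 11 100320 (okl [(128, 4, 2), (64, 8, 2), (32, 32, 13), (16, 16, 10)]) = true := by
  decide +kernel
theorem r184 : run 11 100320 (okl [(128, 4, 1), (64, 8, 2), (32, 32, 13), (16, 16, 10)]) = true := by
  decide +kernel
theorem r185 : run 11 100320 (okl [(128, 8, 3), (64, 8, 2), (32, 32, 13), (16, 16, 10)]) = true := by
  decide +kernel
theorem r186 : run 11 100320 (okl [(128, 8, 7), (64, 8, 2), (32, 32, 13), (16, 16, 10)]) = true := by
  decide +kernel
theorem r187 : run 11 100320 (okl [(128, 2, 0), (64, 8, 6), (32, 32, 13), (16, 16, 10)]) = true := by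
  decide +kernel
theorem r188 : run 11 100320 (okl [(128, 2, 1), (64, 8, 6), (32, 32, 13), (16, 16, 10)]) = true := by
  decide +kernel
theorem r189 : run 11 100320 (okl [(128, 4, 0), (64, 4, 1), (32, 32, 13), (16, 16, 10)]) = true := by
  decide +kernel
theorem r190 : run 11 100320 (okl [(128, 8, 2), (64, 4, 1), (32, 32, 13), (16, 16, 10)]) = true := by
  decide +kernel

end H56.K.R11
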