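import Cfsg.Agent.Lib.K11.Eng

/-!
Kernel run of a part of the search, 11 classes.
-/

set_option maxRecDepth 100000
set_option Elab.async false

namespace H56.K.R11

theorem r207 : run 11 100320 (okl [(128, 4, 0), (64, 16, 6), (32, 32, 27), (16, 16, 10)]) = true := by
  decide +kernel
theorem r208 : run 11 100320 (okl [(128, 4, 2), (64, 16, 6), (32, 32, 27), (16, 16, 10)]) = true := by
  decide +kernel
theorem r209 : run 11 100320 (okl [(128, 4, 1), (64, 16, 6), (32, 32, 27), (16, 16, 10)]) = true := by
  decide +kernel
theorem r210 : run 11 100320 (okl [(128, 4, 3), (64, 16, 6), (32, 32, 27), (16, 16, 10)]) = true := by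
  decide +kernel
theorem r211 : run 11 100320 (okl [(64, 16, 14), (32, 32, 27), (16, 16, 10)]) = true := by
  decide +kernel
theorem r212 : run 11 100320 (okl [(64, 8, 1), (32, 32, 27), (16, 16, 10)]) = true := by
  decide +kernel
theorem r213 : run 11 100320 (okl [(64, 16, 5), (32, 32, 27), (16, 16, 10)]) = true := by
  decide +kernel
theorem r214 : run 11 100320 (okl [(128, 2, 0), (64, 16, 13), (32, 32, 27), (16, 16, 10)]) = true := by
  decide +kernel
theorem r215 : run 11 100320 (okl [(128, 2, 1), (64, 16, 13), (32, 32, 27), (16, 16, 10)]) = true := by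
  decide +kernel
theorem r216 : run 11 100320 (okl [(64, 8, 3), (32, 32, 27), (16, 16, 10)]) = true := by
  decide +kernel
theorem r217 : run 11 100320 (okl [(64, 16, 7), (32, 32, 27), (16, 16, 10)]) = true := by
  decide +kernel
theorem r218 : run 11 100320 (okl [(128, 4, 0), (64, 16, 15), (32, 32, 27), (16, 16, 10)]) = true := by
  decide +kernel
theorem r219 : run 11 100320 (okl [(128, 4, 2), (64, 16, 15), (32, 32, 27), (16, 16, 10)]) = true := by
  decide +kernel
theorem r220 : run 11 100320 (okl [(128, 4, 1), (64, 16, 15), (32, 32, 27), (16, 16, 10)]) = true := by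
  decide +kernel

end H56.K.R11
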