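import Cfsg.Agent.Lib.K11.Eng

/-!
Kernel run of a part of the search, 11 classes.
-/

set_option maxRecDepth 100000
set_option Elab.async false

namespace H56.K.R11

theorem r221 : run 11 100320 (okl [(128, 8, 3), (64, 16, 15), (32, 32, 27), (16, 16, 10)]) = true := by
  decide +kernel
theorem r222 : run 11 100320 (okl [(128, 64, 7), (64, 16, 15), (32, 32, 27), (16, 16, 10)]) = true := by
  decide +kernel
theorem r223 : run 11 100320 (okl [(256, 2, 0), (128, 64, 39), (64, 16, 15), (32, 32, 27), (16, 16, 10)]) = true := by
  decide +kernel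
theorem r224 : run 11 100320 (okl [(256, 2, 1), (128, 64, 39), (64, 16, 15), (32, 32, 27), (16, 16, 10)]) = true := by
  decide +kernel
theorem r225 : run 11 100320 (okl [(128, 32, 23), (64, 16, 15), (32, 32, 27), (16, 16, 10)]) = true := by
  decide +kernel
theorem r226 : run 11 100320 (okl [(128, 16, 15), (64, 16, 15), (32, 32, 27), (16, 16, 10)]) = true := by
  decide +kernel
theorem r227 : run 11 100320 (okl [(32, 8, 7), (16, 16, 10)]) = true := by
  decide +kernel
theorem r228 : run 11 100320 (okl [(32, 4, 0), (16, 16, 6)]) = true := by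
  decide +kernel
theorem r229 : run 11 100320 (okl [(64, 2, 0), (32, 8, 2), (16, 16, 6)]) = true := by
  decide +kernel
theorem r230 : run 11 100320 (okl [(64, 2, 1), (32, 8, 2), (16, 16, 6)]) = true := by
  decide +kernel
theorem r231 : run 11 100320 (okl [(32, 8, 6), (16, 16, 6)]) = true := by
  decide +kernel
theorem r232 : run 11 100320 (okl [(32, 4, 1), (16, 16, 6)]) = true := by
  decide +kernel
theorem r233 : run 11 100320 (okl [(32, 8, 3), (16, 16, 6)]) = true := by
  decide +kernel
theorem r234 : run 11 100320 (okl [(32, 8, 7), (16, 16, 6)]) = true := by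
  decide +kernel
theorem r235 : run 11 100320 (okl [(32, 8, 0), (16, 16, 14)]) = true := by
  decide +kernel
theorem r236 : run 11 100320 (okl [(32, 16, 4), (16, 16, 14)]) = true := by
  decide +kernel
theorem r237 : run 11 100320 (okl [(64, 2, 0), (32, 16, 12), (16, 16, 14)]) = true := by
  decide +kernel
theorem r238 : run 11 100320 (okl [(64, 2, 1), (32, 16, 12), (16, 16, 14)]) = true := by
  decide +kernel
theorem r239 : run 11 100320 (okl [(32, 4, 2), (16, 16, 14)]) = true := by
  decide +kernel

end H56.K.R11
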