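import Cfsg.Agent.Lib.K11.Eng

/-!
Kernel run of a part of the search, 11 classes.
-/

set_option maxRecDepth 100000
set_option Elab.async false

namespace H56.K.R11

theorem r240 : run 11 100320 (okl [(32, 2, 1), (16, 16, 14)]) = true := by
  decide +kernel
theorem r241 : run 11 100320 (okl [(32, 4, 0), (16, 16, 1)]) = true := by
  decide +kernel
theorem r242 : run 11 100320 (okl [(32, 8, 2), (16, 16, 1)]) = true := by
  decide +kernel
theorem r243 : run 11 100320 (okl [(32, 8, 6), (16, 16, 1)]) = true := by
  decide +kernel
theorem r244 : run 11 100320 (okl [(32, 8, 1), (16, 16, 1)]) = true := by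
  decide +kernel
theorem r245 : run 11 100320 (okl [(32, 8, 5), (16, 16, 1)]) = true := by
  decide +kernel
theorem r246 : run 11 100320 (okl [(32, 4, 3), (16, 16, 1)]) = true := by
  decide +kernel
theorem r247 : run 11 100320 (okl [(32, 8, 0), (16, 16, 9)]) = true := by
  decide +kernel
theorem r248 : run 11 100320 (okl [(64, 4, 0), (32, 8, 4), (16, 16, 9)]) = true := by
  decide +kernel
theorem r249 : run 11 100320 (okl [(64, 4, 2), (32, 8, 4), (16, 16, 9)]) = true := by
  decide +kernel
theorem r250 : run 11 100320 (okl [(64, 2, 1), (32, 8, 4), (16, 16, 9)]) = true := by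
  decide +kernel
theorem r251 : run 11 100320 (okl [(32, 4, 2), (16, 16, 9)]) = true := by
  decide +kernel
theorem r252 : run 11 100320 (okl [(32, 4, 1), (16, 16, 9)]) = true := by
  decide +kernel
theorem r253 : run 11 100320 (okl [(32, 8, 3), (16, 16, 9)]) = true := by
  decide +kernel

end H56.K.R11
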