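import Cfsg.Agent.Lib.K11.Eng

/-!
Kernel run of a part of the search, 11 classes.
-/

set_option maxRecDepth 100000
set_option Elab.async false

namespace H56.K.R11

theorem r254 : run 11 100320 (okl [(32, 8, 7), (16, 16, 9)]) = true := by
  decide +kernel
theorem r255 : run 11 100320 (okl [(64, 2, 0), (32, 8, 0), (16, 16, 5)]) = true := by
  decide +kernel
theorem r256 : run 11 100320 (okl [(64, 2, 1), (32, 8, 0), (16, 16, 5)]) = true := by
  decide +kernel
theorem r257 : run 11 100320 (okl [(32, 8, 4), (16, 16, 5)]) = true := by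
  decide +kernel
theorem r258 : run 11 100320 (okl [(32, 4, 2), (16, 16, 5)]) = true := by
  decide +kernel
theorem r259 : run 11 100320 (okl [(32, 8, 1), (16, 16, 5)]) = true := by
  decide +kernel
theorem r260 : run 11 100320 (okl [(32, 8, 5), (16, 16, 5)]) = true := by
  decide +kernel
theorem r261 : run 11 100320 (okl [(32, 4, 3), (16, 16, 5)]) = true := by
  decide +kernel
theorem r262 : run 11 100320 (okl [(32, 16, 0), (16, 16, 13)]) = true := by
  decide +kernel
theorem r263 : run 11 100320 (okl [(32, 32, 8), (16, 16, 13)]) = true := by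
  decide +kernel
theorem r264 : run 11 100320 (okl [(64, 4, 0), (32, 32, 24), (16, 16, 13)]) = true := by
  decide +kernel
theorem r265 : run 11 100320 (okl [(64, 4, 2), (32, 32, 24), (16, 16, 13)]) = true := by
  decide +kernel
theorem r266 : run 11 100320 (okl [(64, 2, 1), (32, 32, 24), (16, 16, 13)]) = true := by
  decide +kernel
theorem r267 : run 11 100320 (okl [(64, 2, 0), (32, 8, 4), (16, 16, 13)]) = true := by
  decide +kernel
theorem r268 : run 11 100320 (okl [(64, 2, 1), (32, 8, 4), (16, 16, 13)]) = true := by
  decide +kernel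
theorem r269 : run 11 100320 (okl [(32, 8, 2), (16, 16, 13)]) = true := by
  decide +kernel

end H56.K.R11
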