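import Cfsg.Agent.Lib.K11.Eng

/-!
Kernel run of a part of the search, 11 classes.
-/

set_option maxRecDepth 100000
set_option Elab.async false

namespace H56.K.R11

theorem r270 : run 11 100320 (okl [(32, 16, 6), (16, 16, 13)]) = true := by
  decide +kernel
theorem r271 : run 11 100320 (okl [(32, 16, 14), (16, 16, 13)]) = true := by
  decide +kernel
theorem r272 : run 11 100320 (okl [(32, 8, 1), (16, 16, 13)]) = true := by
  decide +kernel
theorem r273 : run 11 100320 (okl [(64, 2, 0), (32, 8, 5), (16, 16, 13)]) = true := by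
  decide +kernel
theorem r274 : run 11 100320 (okl [(64, 2, 1), (32, 8, 5), (16, 16, 13)]) = true := by
  decide +kernel
theorem r275 : run 11 100320 (okl [(64, 4, 0), (32, 8, 3), (16, 16, 13)]) = true := by
  decide +kernel
theorem r276 : run 11 100320 (okl [(64, 8, 2), (32, 8, 3), (16, 16, 13)]) = true := by
  decide +kernel
theorem r277 : run 11 100320 (okl [(128, 2, 0), (64, 16, 6), (32, 8, 3), (16, 16, 13)]) = true := by
  decide +kernel
theorem r278 : run 11 100320 (okl [(128, 2, 1), (64, 16, 6), (32, 8, 3), (16, 16, 13)]) = true := by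
  decide +kernel
theorem r279 : run 11 100320 (okl [(64, 16, 14), (32, 8, 3), (16, 16, 13)]) = true := by
  decide +kernel
theorem r280 : run 11 100320 (okl [(128, 2, 0), (64, 8, 1), (32, 8, 3), (16, 16, 13)]) = true := by
  decide +kernel
theorem r281 : run 11 100320 (okl [(128, 4, 1), (64, 8, 1), (32, 8, 3), (16, 16, 13)]) = true := by
  decide +kernel
theorem r282 : run 11 100320 (okl [(128, 8, 3), (64, 8, 1), (32, 8, 3), (16, 16, 13)]) = true := by
  decide +kernel
theorem r283 : run 11 100320 (okl [(128, 16, 7), (64, 8, 1), (32, 8, 3), (16, 16, 13)]) = true := by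
  decide +kernel
theorem r284 : run 11 100320 (okl [(128, 64, 15), (64, 8, 1), (32, 8, 3), (16, 16, 13)]) = true := by
  decide +kernel
theorem r285 : run 11 100320 (okl [(128, 128, 47), (64, 8, 1), (32, 8, 3), (16, 16, 13)]) = true := by
  decide +kernel

end H56.K.R11
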