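import Cfsg.Agent.Lib.K11.Eng

/-!
Kernel run of a part of the search, 11 classes.
-/

set_option maxRecDepth 100000
set_option Elab.async false

namespace H56.K.R11

theorem r286 : run 11 100320 (okl [(256, 2, 0), (128, 128, 111), (64, 8, 1), (32, 8, 3), (16, 16, 13)]) = true := by
  decide +kernel
theorem r287 : run 11 100320 (okl [(256, 2, 1), (128, 128, 111), (64, 8, 1), (32, 8, 3), (16, 16, 13)]) = true := by
  decide +kernel
theorem r288 : run 11 100320 (okl [(128, 32, 31), (64, 8, 1), (32, 8, 3), (16, 16, 13)]) = true := by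
  decide +kernel
theorem r289 : run 11 100320 (okl [(128, 4, 0), (64, 32, 5), (32, 8, 3), (16, 16, 13)]) = true := by
  decide +kernel
theorem r290 : run 11 100320 (okl [(128, 8, 2), (64, 32, 5), (32, 8, 3), (16, 16, 13)]) = true := by
  decide +kernel
theorem r291 : run 11 100320 (okl [(128, 16, 6), (64, 32, 5), (32, 8, 3), (16, 16, 13)]) = true := by
  decide +kernel
theorem r292 : run 11 100320 (okl [(128, 16, 14), (64, 32, 5), (32, 8, 3), (16, 16, 13)]) = true := by
  decide +kernel
theorem r293 : run 11 100320 (okl [(128, 2, 1), (64, 32, 5), (32, 8, 3), (16, 16, 13)]) = true := by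
  decide +kernel
theorem r294 : run 11 100320 (okl [(64, 32, 21), (32, 8, 3), (16, 16, 13)]) = true := by
  decide +kernel
theorem r295 : run 11 100320 (okl [(64, 16, 13), (32, 8, 3), (16, 16, 13)]) = true := by
  decide +kernel
theorem r296 : run 11 100320 (okl [(64, 4, 3), (32, 8, 3), (16, 16, 13)]) = true := by
  decide +kernel
theorem r297 : run 11 100320 (okl [(32, 32, 7), (16, 16, 13)]) = true := by
  decide +kernel
theorem r298 : run 11 100320 (okl [(64, 8, 0), (32, 32, 23), (16, 16, 13)]) = true := by
  decide +kernel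
theorem r299 : run 11 100320 (okl [(64, 8, 4), (32, 32, 23), (16, 16, 13)]) = true := by
  decide +kernel
theorem r300 : run 11 100320 (okl [(64, 4, 2), (32, 32, 23), (16, 16, 13)]) = true := by
  decide +kernel
theorem r301 : run 11 100320 (okl [(64, 16, 1), (32, 32, 23), (16, 16, 13)]) = true := by
  decide +kernel
theorem r302 : run 11 100320 (okl [(64, 32, 9), (32, 32, 23), (16, 16, 13)]) = true := by
  decide +kernel
theorem r303 : run 11 100320 (okl [(64, 128, 25), (32, 32, 23), (16, 16, 13)]) = true := by
  decide +kernel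
theorem r304 : run 11 100320 (okl [(64, 256, 89), (32, 32, 23), (16, 16, 13)]) = true := by
  decide +kernel

end H56.K.R11
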