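import Cfsg.Agent.Lib.K11.Eng

/-!
Kernel run of a part of the search, 11 classes.
-/

set_option maxRecDepth 100000
set_option Elab.async false

namespace H56.K.R11

theorem r305 : run 11 100320 (okl [(64, 256, 217), (32, 32, 23), (16, 16, 13)]) = true := by
  decide +kernel
theorem r306 : run 11 100320 (okl [(64, 64, 57), (32, 32, 23), (16, 16, 13)]) = true := by
  decide +kernel
theorem r307 : run 11 100320 (okl [(64, 8, 5), (32, 32, 23), (16, 16, 13)]) = true := by
  decide +kernel
theorem r308 : run 11 100320 (okl [(64, 8, 3), (32, 32, 23), (16, 16, 13)]) = true := by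
  decide +kernel
theorem r309 : run 11 100320 (okl [(64, 64, 7), (32, 32, 23), (16, 16, 13)]) = true := by
  decide +kernel
theorem r310 : run 11 100320 (okl [(128, 2, 0), (64, 128, 39), (32, 32, 23), (16, 16, 13)]) = true := by
  decide +kernel
theorem r311 : run 11 100320 (okl [(128, 2, 1), (64, 128, 39), (32, 32, 23), (16, 16, 13)]) = true := by
  decide +kernel
theorem r312 : run 11 100320 (okl [(64, 128, 103), (32, 32, 23), (16, 16, 13)]) = true := by
  decide +kernel
theorem r313 : run 11 100320 (okl [(64, 32, 23), (32, 32, 23), (16, 16, 13)]) = true := by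
  decide +kernel
theorem r314 : run 11 100320 (okl [(64, 16, 15), (32, 32, 23), (16, 16, 13)]) = true := by
  decide +kernel
theorem r315 : run 11 100320 (okl [(32, 16, 15), (16, 16, 13)]) = true := by
  decide +kernel
theorem r316 : run 11 100320 (okl [(64, 2, 0), (32, 8, 0), (16, 16, 3)]) = true := by
  decide +kernel
theorem r317 : run 11 100320 (okl [(64, 2, 1), (32, 8, 0), (16, 16, 3)]) = true := by
  decide +kernel
theorem r318 : run 11 100320 (okl [(64, 8, 0), (32, 8, 4), (16, 16, 3)]) = true := by
  decide +kernel
theorem r319 : run 11 100320 (okl [(64, 16, 4), (32, 8, 4), (16, 16, 3)]) = true := by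
  decide +kernel
theorem r320 : run 11 100320 (okl [(64, 32, 12), (32, 8, 4), (16, 16, 3)]) = true := by
  decide +kernel
theorem r321 : run 11 100320 (okl [(64, 256, 28), (32, 8, 4), (16, 16, 3)]) = true := by
  decide +kernel
theorem r322 : run 11 100320 (okl [(64, 512, 156), (32, 8, 4), (16, 16, 3)]) = true := by
  decide +kernel
theorem r323 : run 11 100320 (okl [(128, 2, 0), (64, 512, 412), (32, 8, 4), (16, 16, 3)]) = true := by
  decide +kernel
theorem r324 : run 11 100320 (okl [(128, 2, 1), (64, 512, 412), (32, 8, 4), (16, 16, 3)]) = true := by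
  decide +kernel
theorem r325 : run 11 100320 (okl [(64, 128, 92), (32, 8, 4), (16, 16, 3)]) = true := by
  decide +kernel
theorem r326 : run 11 100320 (okl [(64, 64, 60), (32, 8, 4), (16, 16, 3)]) = true := by
  decide +kernel
theorem r327 : run 11 100320 (okl [(64, 4, 2), (32, 8, 4), (16, 16, 3)]) = true := by
  decide +kernel
theorem r328 : run 11 100320 (okl [(64, 32, 1), (32, 8, 4), (16, 16, 3)]) = true := by
  decide +kernel
theorem r329 : run 11 100320 (okl [(128, 2, 0), (64, 64, 17), (32, 8, 4), (16, 16, 3)]) = true := by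
  decide +kernel

end H56.K.R11
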