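import Cfsg.Agent.Lib.K11.Eng

/-!
Kernel run of a part of the search, 11 classes.
-/

set_option maxRecDepth 100000
set_option Elab.async false

namespace H56.K.R11

theorem r330 : run 11 100320 (okl [(128, 2, 1), (64, 64, 17), (32, 8, 4), (16, 16, 3)]) = true := by
  decide +kernel
theorem r331 : run 11 100320 (okl [(64, 64, 49), (32, 8, 4), (16, 16, 3)]) = true := by
  decide +kernel
theorem r332 : run 11 100320 (okl [(64, 16, 9), (32, 8, 4), (16, 16, 3)]) = true := by
  decide +kernel
theorem r333 : run 11 100320 (okl [(64, 8, 5), (32, 8, 4), (16, 16, 3)]) = true := by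
  decide +kernel
theorem r334 : run 11 100320 (okl [(128, 2, 0), (64, 32, 3), (32, 8, 4), (16, 16, 3)]) = true := by
  decide +kernel
theorem r335 : run 11 100320 (okl [(128, 2, 1), (64, 32, 3), (32, 8, 4), (16, 16, 3)]) = true := by
  decide +kernel
theorem r336 : run 11 100320 (okl [(64, 32, 19), (32, 8, 4), (16, 16, 3)]) = true := by
  decide +kernel
theorem r337 : run 11 100320 (okl [(64, 16, 11), (32, 8, 4), (16, 16, 3)]) = true := by
  decide +kernel
theorem r338 : run 11 100320 (okl [(64, 8, 7), (32, 8, 4), (16, 16, 3)]) = true := by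
  decide +kernel
theorem r339 : run 11 100320 (okl [(32, 8, 2), (16, 16, 3)]) = true := by
  decide +kernel
theorem r340 : run 11 100320 (okl [(128, 2, 0), (64, 32, 0), (32, 8, 6), (16, 16, 3)]) = true := by
  decide +kernel
theorem r341 : run 11 100320 (okl [(128, 2, 1), (64, 32, 0), (32, 8, 6), (16, 16, 3)]) = true := by
  decide +kernel
theorem r342 : run 11 100320 (okl [(64, 32, 16), (32, 8, 6), (16, 16, 3)]) = true := by
  decide +kernel
theorem r343 : run 11 100320 (okl [(64, 16, 8), (32, 8, 6), (16, 16, 3)]) = true := by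
  decide +kernel
theorem r344 : run 11 100320 (okl [(64, 8, 4), (32, 8, 6), (16, 16, 3)]) = true := by
  decide +kernel
theorem r345 : run 11 100320 (okl [(64, 8, 2), (32, 8, 6), (16, 16, 3)]) = true := by
  decide +kernel
theorem r346 : run 11 100320 (okl [(128, 8, 0), (64, 32, 6), (32, 8, 6), (16, 16, 3)]) = true := by
  decide +kernel
theorem r347 : run 11 100320 (okl [(128, 32, 4), (64, 32, 6), (32, 8, 6), (16, 16, 3)]) = true := by
  decide +kernel

end H56.K.R11
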