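import Cfsg.Agent.Lib.K11.Eng

/-!
Kernel run of a part of the search, 11 classes.
-/

set_option maxRecDepth 100000
set_option Elab.async false

namespace H56.K.R11

theorem r36 : run 11 100320 (okl [(64, 2, 1), (32, 32, 12), (16, 16, 4)]) = true := by
  decide +kernel
theorem r37 : run 11 100320 (okl [(32, 32, 28), (16, 16, 4)]) = true := by
  decide +kernel
theorem r38 : run 11 100320 (okl [(32, 4, 2), (16, 16, 4)]) = true := by
  decide +kernel
theorem r39 : run 11 100320 (okl [(32, 4, 1), (16, 16, 4)]) = true := by
  decide +kernel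
theorem r40 : run 11 100320 (okl [(32, 16, 3), (16, 16, 4)]) = true := by
  decide +kernel
theorem r41 : run 11 100320 (okl [(64, 4, 0), (32, 16, 11), (16, 16, 4)]) = true := by
  decide +kernel
theorem r42 : run 11 100320 (okl [(64, 4, 2), (32, 16, 11), (16, 16, 4)]) = true := by
  decide +kernel
theorem r43 : run 11 100320 (okl [(64, 4, 1), (32, 16, 11), (16, 16, 4)]) = true := by
  decide +kernel
theorem r44 : run 11 100320 (okl [(64, 8, 3), (32, 16, 11), (16, 16, 4)]) = true := by
  decide +kernel
theorem r45 : run 11 100320 (okl [(64, 32, 7), (32, 16, 11), (16, 16, 4)]) = true := by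
  decide +kernel
theorem r46 : run 11 100320 (okl [(64, 64, 23), (32, 16, 11), (16, 16, 4)]) = true := by
  decide +kernel
theorem r47 : run 11 100320 (okl [(64, 256, 55), (32, 16, 11), (16, 16, 4)]) = true := by
  decide +kernel
theorem r48 : run 11 100320 (okl [(128, 4, 0), (64, 256, 183), (32, 16, 11), (16, 16, 4)]) = true := by
  decide +kernel
theorem r49 : run 11 100320 (okl [(128, 4, 2), (64, 256, 183), (32, 16, 11), (16, 16, 4)]) = true := by
  decide +kernel
theorem r50 : run 11 100320 (okl [(128, 2, 1), (64, 256, 183), (32, 16, 11), (16, 16, 4)]) = true := by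
  decide +kernel
theorem r51 : run 11 100320 (okl [(64, 128, 119), (32, 16, 11), (16, 16, 4)]) = true := by
  decide +kernel
theorem r52 : run 11 100320 (okl [(64, 16, 15), (32, 16, 11), (16, 16, 4)]) = true := by
  decide +kernel

end H56.K.R11
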