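import Cfsg.Agent.Lib.K11.Eng

/-!
Kernel run of a part of the search, 11 classes.
-/

set_option maxRecDepth 100000
set_option Elab.async false

namespace H56.K.R11

theorem r348 : run 11 100320 (okl [(256, 2, 0), (128, 64, 20), (64, 32, 6), (32, 8, 6), (16, 16, 3)]) = true := by
  decide +kernel
theorem r349 : run 11 100320 (okl [(256, 2, 1), (128, 64, 20), (64, 32, 6), (32, 8, 6), (16, 16, 3)]) = true := by
  decide +kernel
theorem r350 : run 11 100320 (okl [(128, 64, 52), (64, 32, 6), (32, 8, 6), (16, 16, 3)]) = true := by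
  decide +kernel
theorem r351 : run 11 100320 (okl [(128, 16, 12), (64, 32, 6), (32, 8, 6), (16, 16, 3)]) = true := by
  decide +kernel
theorem r352 : run 11 100320 (okl [(128, 4, 2), (64, 32, 6), (32, 8, 6), (16, 16, 3)]) = true := by
  decide +kernel
theorem r353 : run 11 100320 (okl [(128, 4, 1), (64, 32, 6), (32, 8, 6), (16, 16, 3)]) = true := by
  decide +kernel
theorem r354 : run 11 100320 (okl [(128, 4, 3), (64, 32, 6), (32, 8, 6), (16, 16, 3)]) = true := by
  decide +kernel
theorem r355 : run 11 100320 (okl [(64, 32, 22), (32, 8, 6), (16, 16, 3)]) = true := by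
  decide +kernel
theorem r356 : run 11 100320 (okl [(128, 2, 0), (64, 32, 14), (32, 8, 6), (16, 16, 3)]) = true := by
  decide +kernel
theorem r357 : run 11 100320 (okl [(128, 2, 1), (64, 32, 14), (32, 8, 6), (16, 16, 3)]) = true := by
  decide +kernel
theorem r358 : run 11 100320 (okl [(64, 32, 30), (32, 8, 6), (16, 16, 3)]) = true := by
  decide +kernel
theorem r359 : run 11 100320 (okl [(64, 16, 1), (32, 8, 6), (16, 16, 3)]) = true := by
  decide +kernel
theorem r360 : run 11 100320 (okl [(64, 32, 9), (32, 8, 6), (16, 16, 3)]) = true := by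
  decide +kernel
theorem r361 : run 11 100320 (okl [(128, 2, 0), (64, 32, 25), (32, 8, 6), (16, 16, 3)]) = true := by
  decide +kernel
theorem r362 : run 11 100320 (okl [(128, 2, 1), (64, 32, 25), (32, 8, 6), (16, 16, 3)]) = true := by
  decide +kernel
theorem r363 : run 11 100320 (okl [(64, 8, 5), (32, 8, 6), (16, 16, 3)]) = true := by
  decide +kernel
theorem r364 : run 11 100320 (okl [(128, 2, 0), (64, 16, 3), (32, 8, 6), (16, 16, 3)]) = true := by
  decide +kernel

end H56.K.R11
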