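import Cfsg.Agent.Lib.K11.Eng

/-!
Kernel run of a part of the search, 11 classes.
-/

set_option maxRecDepth 100000
set_option Elab.async false

namespace H56.K.R11

theorem r365 : run 11 100320 (okl [(128, 4, 1), (64, 16, 3), (32, 8, 6), (16, 16, 3)]) = true := by
  decide +kernel
theorem r366 : run 11 100320 (okl [(128, 4, 3), (64, 16, 3), (32, 8, 6), (16, 16, 3)]) = true := by
  decide +kernel
theorem r367 : run 11 100320 (okl [(64, 16, 11), (32, 8, 6), (16, 16, 3)]) = true := by
  decide +kernel
theorem r368 : run 11 100320 (okl [(64, 16, 7), (32, 8, 6), (16, 16, 3)]) = true := by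
  decide +kernel
theorem r369 : run 11 100320 (okl [(64, 32, 15), (32, 8, 6), (16, 16, 3)]) = true := by
  decide +kernel
theorem r370 : run 11 100320 (okl [(128, 8, 0), (64, 32, 31), (32, 8, 6), (16, 16, 3)]) = true := by
  decide +kernel
theorem r371 : run 11 100320 (okl [(128, 8, 4), (64, 32, 31), (32, 8, 6), (16, 16, 3)]) = true := by
  decide +kernel
theorem r372 : run 11 100320 (okl [(128, 4, 2), (64, 32, 31), (32, 8, 6), (16, 16, 3)]) = true := by
  decide +kernel
theorem r373 : run 11 100320 (okl [(128, 2, 1), (64, 32, 31), (32, 8, 6), (16, 16, 3)]) = true := by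
  decide +kernel
theorem r374 : run 11 100320 (okl [(32, 8, 1), (16, 16, 3)]) = true := by
  decide +kernel
theorem r375 : run 11 100320 (okl [(64, 8, 0), (32, 8, 5), (16, 16, 3)]) = true := by
  decide +kernel
theorem r376 : run 11 100320 (okl [(128, 2, 0), (64, 8, 4), (32, 8, 5), (16, 16, 3)]) = true := by
  decide +kernel
theorem r377 : run 11 100320 (okl [(128, 2, 1), (64, 8, 4), (32, 8, 5), (16, 16, 3)]) = true := by
  decide +kernel
theorem r378 : run 11 100320 (okl [(64, 8, 2), (32, 8, 5), (16, 16, 3)]) = true := by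
  decide +kernel
theorem r379 : run 11 100320 (okl [(64, 8, 6), (32, 8, 5), (16, 16, 3)]) = true := by
  decide +kernel
theorem r380 : run 11 100320 (okl [(128, 2, 0), (64, 16, 1), (32, 8, 5), (16, 16, 3)]) = true := by
  decide +kernel

end H56.K.R11
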