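import Cfsg.Agent.Lib.K11.Eng

/-!
Kernel run of a part of the search, 11 classes.
-/

set_option maxRecDepth 100000
set_option Elab.async false

namespace H56.K.R11

theorem r381 : run 11 100320 (okl [(128, 2, 1), (64, 16, 1), (32, 8, 5), (16, 16, 3)]) = true := by
  decide +kernel
theorem r382 : run 11 100320 (okl [(64, 16, 9), (32, 8, 5), (16, 16, 3)]) = true := by
  decide +kernel
theorem r383 : run 11 100320 (okl [(64, 8, 5), (32, 8, 5), (16, 16, 3)]) = true := by
  decide +kernel
theorem r384 : run 11 100320 (okl [(128, 2, 0), (64, 16, 3), (32, 8, 5), (16, 16, 3)]) = true := by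
  decide +kernel
theorem r385 : run 11 100320 (okl [(128, 2, 1), (64, 16, 3), (32, 8, 5), (16, 16, 3)]) = true := by
  decide +kernel
theorem r386 : run 11 100320 (okl [(64, 16, 11), (32, 8, 5), (16, 16, 3)]) = true := by
  decide +kernel
theorem r387 : run 11 100320 (okl [(64, 8, 7), (32, 8, 5), (16, 16, 3)]) = true := by
  decide +kernel
theorem r388 : run 11 100320 (okl [(64, 4, 0), (32, 8, 3), (16, 16, 3)]) = true := by
  decide +kernel
theorem r389 : run 11 100320 (okl [(64, 4, 2), (32, 8, 3), (16, 16, 3)]) = true := by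
  decide +kernel
theorem r390 : run 11 100320 (okl [(64, 4, 1), (32, 8, 3), (16, 16, 3)]) = true := by
  decide +kernel
theorem r391 : run 11 100320 (okl [(64, 4, 3), (32, 8, 3), (16, 16, 3)]) = true := by
  decide +kernel
theorem r392 : run 11 100320 (okl [(64, 32, 0), (32, 8, 7), (16, 16, 3)]) = true := by
  decide +kernel
theorem r393 : run 11 100320 (okl [(128, 2, 0), (64, 32, 16), (32, 8, 7), (16, 16, 3)]) = true := by
  decide +kernel
theorem r394 : run 11 100320 (okl [(128, 2, 1), (64, 32, 16), (32, 8, 7), (16, 16, 3)]) = true := by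
  decide +kernel
theorem r395 : run 11 100320 (okl [(64, 16, 8), (32, 8, 7), (16, 16, 3)]) = true := by
  decide +kernel
theorem r396 : run 11 100320 (okl [(64, 16, 4), (32, 8, 7), (16, 16, 3)]) = true := by
  decide +kernel

end H56.K.R11
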