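import Cfsg.Agent.Lib.K11.Eng

/-!
Kernel run of a part of the search, 11 classes.
-/

set_option maxRecDepth 100000
set_option Elab.async false

namespace H56.K.R11

theorem r397 : run 11 100320 (okl [(128, 2, 0), (64, 32, 12), (32, 8, 7), (16, 16, 3)]) = true := by
  decide +kernel
theorem r398 : run 11 100320 (okl [(128, 4, 1), (64, 32, 12), (32, 8, 7), (16, 16, 3)]) = true := by
  decide +kernel
theorem r399 : run 11 100320 (okl [(128, 8, 3), (64, 32, 12), (32, 8, 7), (16, 16, 3)]) = true := by
  decide +kernel
theorem r400 : run 11 100320 (okl [(128, 8, 7), (64, 32, 12), (32, 8, 7), (16, 16, 3)]) = true := by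
  decide +kernel
theorem r401 : run 11 100320 (okl [(64, 32, 28), (32, 8, 7), (16, 16, 3)]) = true := by
  decide +kernel
theorem r402 : run 11 100320 (okl [(64, 8, 2), (32, 8, 7), (16, 16, 3)]) = true := by
  decide +kernel
theorem r403 : run 11 100320 (okl [(128, 2, 0), (64, 16, 6), (32, 8, 7), (16, 16, 3)]) = true := by
  decide +kernel
theorem r404 : run 11 100320 (okl [(128, 2, 1), (64, 16, 6), (32, 8, 7), (16, 16, 3)]) = true := by
  decide +kernel
theorem r405 : run 11 100320 (okl [(64, 16, 14), (32, 8, 7), (16, 16, 3)]) = true := by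
  decide +kernel
theorem r406 : run 11 100320 (okl [(64, 8, 1), (32, 8, 7), (16, 16, 3)]) = true := by
  decide +kernel
theorem r407 : run 11 100320 (okl [(64, 16, 5), (32, 8, 7), (16, 16, 3)]) = true := by
  decide +kernel
theorem r408 : run 11 100320 (okl [(128, 2, 0), (64, 16, 13), (32, 8, 7), (16, 16, 3)]) = true := by
  decide +kernel
theorem r409 : run 11 100320 (okl [(128, 2, 1), (64, 16, 13), (32, 8, 7), (16, 16, 3)]) = true := by
  decide +kernel
theorem r410 : run 11 100320 (okl [(128, 4, 0), (64, 16, 3), (32, 8, 7), (16, 16, 3)]) = true := by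
  decide +kernel
theorem r411 : run 11 100320 (okl [(128, 8, 2), (64, 16, 3), (32, 8, 7), (16, 16, 3)]) = true := by
  decide +kernel

end H56.K.R11
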