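import Cfsg.Agent.Lib.K11.Eng

/-!
Kernel run of a part of the search, 11 classes.
-/

set_option maxRecDepth 100000
set_option Elab.async false

namespace H56.K.R11

theorem r425 : run 11 100320 (okl [(64, 8, 0), (32, 8, 6), (16, 16, 11)]) = true := by
  decide +kernel
theorem r426 : run 11 100320 (okl [(64, 8, 4), (32, 8, 6), (16, 16, 11)]) = true := by
  decide +kernel
theorem r427 : run 11 100320 (okl [(64, 4, 2), (32, 8, 6), (16, 16, 11)]) = true := by
  decide +kernel
theorem r428 : run 11 100320 (okl [(64, 2, 1), (32, 8, 6), (16, 16, 11)]) = true := by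
  decide +kernel
theorem r429 : run 11 100320 (okl [(32, 16, 1), (16, 16, 11)]) = true := by
  decide +kernel
theorem r430 : run 11 100320 (okl [(64, 2, 0), (32, 32, 9), (16, 16, 11)]) = true := by
  decide +kernel
theorem r431 : run 11 100320 (okl [(64, 4, 1), (32, 32, 9), (16, 16, 11)]) = true := by
  decide +kernel
theorem r432 : run 11 100320 (okl [(64, 4, 3), (32, 32, 9), (16, 16, 11)]) = true := by
  decide +kernel
theorem r433 : run 11 100320 (okl [(64, 4, 0), (32, 64, 25), (16, 16, 11)]) = true := by
  decide +kernel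
theorem r434 : run 11 100320 (okl [(128, 2, 0), (64, 8, 2), (32, 64, 25), (16, 16, 11)]) = true := by
  decide +kernel
theorem r435 : run 11 100320 (okl [(128, 32, 1), (64, 8, 2), (32, 64, 25), (16, 16, 11)]) = true := by
  decide +kernel
theorem r436 : run 11 100320 (okl [(256, 4, 0), (128, 128, 17), (64, 8, 2), (32, 64, 25), (16, 16, 11)]) = true := by
  decide +kernel
theorem r437 : run 11 100320 (okl [(256, 4, 2), (128, 128, 17), (64, 8, 2), (32, 64, 25), (16, 16, 11)]) = true := by
  decide +kernel
theorem r438 : run 11 100320 (okl [(256, 2, 1), (128, 128, 17), (64, 8, 2), (32, 64, 25), (16, 16, 11)]) = true := by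
  decide +kernel
theorem r439 : run 11 100320 (okl [(128, 128, 81), (64, 8, 2), (32, 64, 25), (16, 16, 11)]) = true := by
  decide +kernel
theorem r440 : run 11 100320 (okl [(128, 64, 49), (64, 8, 2), (32, 64, 25), (16, 16, 11)]) = true := by
  decide +kernel
theorem r441 : run 11 100320 (okl [(128, 16, 9), (64, 8, 2), (32, 64, 25), (16, 16, 11)]) = true := by
  decide +kernel

end H56.K.R11
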