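import Cfsg.Agent.Lib.K11.Eng

/-!
Kernel run of a part of the search, 11 classes.
-/

set_option maxRecDepth 100000
set_option Elab.async false

namespace H56.K.R11

theorem r442 : run 11 100320 (okl [(128, 8, 5), (64, 8, 2), (32, 64, 25), (16, 16, 11)]) = true := by
  decide +kernel
theorem r443 : run 11 100320 (okl [(128, 4, 3), (64, 8, 2), (32, 64, 25), (16, 16, 11)]) = true := by
  decide +kernel
theorem r444 : run 11 100320 (okl [(64, 16, 6), (32, 64, 25), (16, 16, 11)]) = true := by
  decide +kernel
theorem r445 : run 11 100320 (okl [(64, 128, 14), (32, 64, 25), (16, 16, 11)]) = true := by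
  decide +kernel
theorem r446 : run 11 100320 (okl [(128, 8, 0), (64, 128, 78), (32, 64, 25), (16, 16, 11)]) = true := by
  decide +kernel
theorem r447 : run 11 100320 (okl [(128, 8, 4), (64, 128, 78), (32, 64, 25), (16, 16, 11)]) = true := by
  decide +kernel
theorem r448 : run 11 100320 (okl [(128, 8, 2), (64, 128, 78), (32, 64, 25), (16, 16, 11)]) = true := by
  decide +kernel
theorem r449 : run 11 100320 (okl [(128, 8, 6), (64, 128, 78), (32, 64, 25), (16, 16, 11)]) = true := by
  decide +kernel
theorem r450 : run 11 100320 (okl [(128, 2, 1), (64, 128, 78), (32, 64, 25), (16, 16, 11)]) = true := by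
  decide +kernel
theorem r451 : run 11 100320 (okl [(64, 64, 46), (32, 64, 25), (16, 16, 11)]) = true := by
  decide +kernel
theorem r452 : run 11 100320 (okl [(64, 32, 30), (32, 64, 25), (16, 16, 11)]) = true := by
  decide +kernel
theorem r453 : run 11 100320 (okl [(64, 4, 1), (32, 64, 25), (16, 16, 11)]) = true := by
  decide +kernel
theorem r454 : run 11 100320 (okl [(64, 8, 3), (32, 64, 25), (16, 16, 11)]) = true := by
  decide +kernel
theorem r455 : run 11 100320 (okl [(64, 16, 7), (32, 64, 25), (16, 16, 11)]) = true := by
  decide +kernel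
theorem r456 : run 11 100320 (okl [(128, 2, 0), (64, 16, 15), (32, 64, 25), (16, 16, 11)]) = true := by
  decide +kernel
theorem r457 : run 11 100320 (okl [(128, 2, 1), (64, 16, 15), (32, 64, 25), (16, 16, 11)]) = true := by
  decide +kernel
theorem r458 : run 11 100320 (okl [(32, 64, 57), (16, 16, 11)]) = true := by
  decide +kernel
theorem r459 : run 11 100320 (okl [(64, 2, 0), (32, 16, 5), (16, 16, 11)]) = true := by
  decide +kernel
theorem r460 : run 11 100320 (okl [(64, 2, 1), (32, 16, 5), (16, 16, 11)]) = true := by
  decide +kernel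

end H56.K.R11
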