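import Cfsg.Agent.Lib.K11.Eng

/-!
Kernel run of a part of the search, 11 classes.
-/

set_option maxRecDepth 100000
set_option Elab.async false

namespace H56.K.R11

theorem r461 : run 11 100320 (okl [(32, 16, 13), (16, 16, 11)]) = true := by
  decide +kernel
theorem r462 : run 11 100320 (okl [(64, 2, 0), (32, 8, 3), (16, 16, 11)]) = true := by
  decide +kernel
theorem r463 : run 11 100320 (okl [(64, 2, 1), (32, 8, 3), (16, 16, 11)]) = true := by
  decide +kernel
theorem r464 : run 11 100320 (okl [(32, 64, 7), (16, 16, 11)]) = true := by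
  decide +kernel
theorem r465 : run 11 100320 (okl [(64, 8, 0), (32, 64, 39), (16, 16, 11)]) = true := by
  decide +kernel
theorem r466 : run 11 100320 (okl [(64, 8, 4), (32, 64, 39), (16, 16, 11)]) = true := by
  decide +kernel
theorem r467 : run 11 100320 (okl [(64, 4, 2), (32, 64, 39), (16, 16, 11)]) = true := by
  decide +kernel
theorem r468 : run 11 100320 (okl [(64, 64, 1), (32, 64, 39), (16, 16, 11)]) = true := by
  decide +kernel
theorem r469 : run 11 100320 (okl [(64, 128, 33), (32, 64, 39), (16, 16, 11)]) = true := by
  decide +kernel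
theorem r470 : run 11 100320 (okl [(128, 2, 0), (64, 128, 97), (32, 64, 39), (16, 16, 11)]) = true := by
  decide +kernel
theorem r471 : run 11 100320 (okl [(128, 4, 1), (64, 128, 97), (32, 64, 39), (16, 16, 11)]) = true := by
  decide +kernel
theorem r472 : run 11 100320 (okl [(128, 4, 3), (64, 128, 97), (32, 64, 39), (16, 16, 11)]) = true := by
  decide +kernel
theorem r473 : run 11 100320 (okl [(64, 32, 17), (32, 64, 39), (16, 16, 11)]) = true := by
  decide +kernel
theorem r474 : run 11 100320 (okl [(64, 16, 9), (32, 64, 39), (16, 16, 11)]) = true := by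
  decide +kernel

end H56.K.R11
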