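import Cfsg.Agent.Lib.K11.Eng

/-!
Kernel run of a part of the search, 11 classes.
-/

set_option maxRecDepth 100000
set_option Elab.async false

namespace H56.K.R11

theorem r475 : run 11 100320 (okl [(64, 8, 5), (32, 64, 39), (16, 16, 11)]) = true := by
  decide +kernel
theorem r476 : run 11 100320 (okl [(64, 32, 3), (32, 64, 39), (16, 16, 11)]) = true := by
  decide +kernel
theorem r477 : run 11 100320 (okl [(64, 128, 19), (32, 64, 39), (16, 16, 11)]) = true := by
  decide +kernel
theorem r478 : run 11 100320 (okl [(128, 2, 0), (64, 128, 83), (32, 64, 39), (16, 16, 11)]) = true := by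
  decide +kernel
theorem r479 : run 11 100320 (okl [(128, 8, 1), (64, 128, 83), (32, 64, 39), (16, 16, 11)]) = true := by
  decide +kernel
theorem r480 : run 11 100320 (okl [(128, 16, 5), (64, 128, 83), (32, 64, 39), (16, 16, 11)]) = true := by
  decide +kernel
theorem r481 : run 11 100320 (okl [(128, 32, 13), (64, 128, 83), (32, 64, 39), (16, 16, 11)]) = true := by
  decide +kernel
theorem r482 : run 11 100320 (okl [(128, 64, 29), (64, 128, 83), (32, 64, 39), (16, 16, 11)]) = true := by
  decide +kernel
theorem r483 : run 11 100320 (okl [(128, 128, 61), (64, 128, 83), (32, 64, 39), (16, 16, 11)]) = true := by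
  decide +kernel
theorem r484 : run 11 100320 (okl [(256, 4, 0), (128, 128, 125), (64, 128, 83), (32, 64, 39), (16, 16, 11)]) = true := by
  decide +kernel
theorem r485 : run 11 100320 (okl [(256, 4, 2), (128, 128, 125), (64, 128, 83), (32, 64, 39), (16, 16, 11)]) = true := by
  decide +kernel
theorem r486 : run 11 100320 (okl [(256, 2, 1), (128, 128, 125), (64, 128, 83), (32, 64, 39), (16, 16, 11)]) = true := by
  decide +kernel
theorem r487 : run 11 100320 (okl [(128, 4, 3), (64, 128, 83), (32, 64, 39), (16, 16, 11)]) = true := by
  decide +kernel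
theorem r488 : run 11 100320 (okl [(64, 64, 51), (32, 64, 39), (16, 16, 11)]) = true := by
  decide +kernel
theorem r489 : run 11 100320 (okl [(64, 16, 11), (32, 64, 39), (16, 16, 11)]) = true := by
  decide +kernel
theorem r490 : run 11 100320 (okl [(64, 8, 7), (32, 64, 39), (16, 16, 11)]) = true := by
  decide +kernel
theorem r491 : run 11 100320 (okl [(32, 32, 23), (16, 16, 11)]) = true := by
  decide +kernel
theorem r492 : run 11 100320 (okl [(32, 16, 15), (16, 16, 11)]) = true := by
  decide +kernel
theorem r493 : run 11 100320 (okl [(16, 16, 7)]) = true := by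
  decide +kernel
theorem r494 : run 11 100320 (okl [(32, 4, 0), (16, 16, 15)]) = true := by
  decide +kernel
theorem r495 : run 11 100320 (okl [(32, 4, 2), (16, 16, 15)]) = true := by
  decide +kernel
theorem r496 : run 11 100320 (okl [(32, 2, 1), (16, 16, 15)]) = true := by
  decide +kernel

end H56.K.R11
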