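import Cfsg.Agent.Lib.K11.Eng

/-!
Kernel run of a part of the search, 11 classes.
-/

set_option maxRecDepth 100000
set_option Elab.async false

namespace H56.K.R11

theorem r83 : run 11 100320 (okl [(128, 16, 9), (64, 16, 15), (32, 16, 7), (16, 16, 4)]) = true := by
  decide +kernel
theorem r84 : run 11 100320 (okl [(128, 8, 5), (64, 16, 15), (32, 16, 7), (16, 16, 4)]) = true := by
  decide +kernel
theorem r85 : run 11 100320 (okl [(128, 4, 3), (64, 16, 15), (32, 16, 7), (16, 16, 4)]) = true := by
  decide +kernel
theorem r86 : run 11 100320 (okl [(32, 16, 15), (16, 16, 4)]) = true := by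
  decide +kernel
theorem r87 : run 11 100320 (okl [(64, 4, 0), (32, 4, 0), (16, 16, 12)]) = true := by
  decide +kernel
theorem r88 : run 11 100320 (okl [(64, 4, 2), (32, 4, 0), (16, 16, 12)]) = true := by
  decide +kernel
theorem r89 : run 11 100320 (okl [(64, 4, 1), (32, 4, 0), (16, 16, 12)]) = true := by
  decide +kernel
theorem r90 : run 11 100320 (okl [(64, 8, 3), (32, 4, 0), (16, 16, 12)]) = true := by
  decide +kernel
theorem r91 : run 11 100320 (okl [(64, 8, 7), (32, 4, 0), (16, 16, 12)]) = true := by
  decide +kernel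
theorem r92 : run 11 100320 (okl [(32, 8, 2), (16, 16, 12)]) = true := by
  decide +kernel
theorem r93 : run 11 100320 (okl [(128, 4, 0), (64, 16, 0), (32, 8, 6), (16, 16, 12)]) = true := by
  decide +kernel
theorem r94 : run 11 100320 (okl [(128, 8, 2), (64, 16, 0), (32, 8, 6), (16, 16, 12)]) = true := by
  decide +kernel
theorem r95 : run 11 100320 (okl [(128, 8, 6), (64, 16, 0), (32, 8, 6), (16, 16, 12)]) = true := by
  decide +kernel
theorem r96 : run 11 100320 (okl [(128, 4, 1), (64, 16, 0), (32, 8, 6), (16, 16, 12)]) = true := by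
  decide +kernel
theorem r97 : run 11 100320 (okl [(128, 4, 3), (64, 16, 0), (32, 8, 6), (16, 16, 12)]) = true := by
  decide +kernel
theorem r98 : run 11 100320 (okl [(64, 16, 8), (32, 8, 6), (16, 16, 12)]) = true := by
  decide +kernel
theorem r99 : run 11 100320 (okl [(64, 8, 4), (32, 8, 6), (16, 16, 12)]) = true := by
  decide +kernel
theorem r100 : run 11 100320 (okl [(64, 8, 2), (32, 8, 6), (16, 16, 12)]) = true := by
  decide +kernel

end H56.K.R11
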