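import Cfsg.Agent.Lib.K11.Eng

/-!
Kernel run of a part of the search, 11 classes.
-/

set_option maxRecDepth 100000
set_option Elab.async false

namespace H56.K.R11

theorem r101 : run 11 100320 (okl [(64, 8, 6), (32, 8, 6), (16, 16, 12)]) = true := by
  decide +kernel
theorem r102 : run 11 100320 (okl [(64, 16, 1), (32, 8, 6), (16, 16, 12)]) = true := by
  decide +kernel
theorem r103 : run 11 100320 (okl [(128, 2, 0), (64, 16, 9), (32, 8, 6), (16, 16, 12)]) = true := by
  decide +kernel
theorem r104 : run 11 100320 (okl [(128, 4, 1), (64, 16, 9), (32, 8, 6), (16, 16, 12)]) = true := by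
  decide +kernel
theorem r105 : run 11 100320 (okl [(128, 8, 3), (64, 16, 9), (32, 8, 6), (16, 16, 12)]) = true := by
  decide +kernel
theorem r106 : run 11 100320 (okl [(128, 8, 7), (64, 16, 9), (32, 8, 6), (16, 16, 12)]) = true := by
  decide +kernel
theorem r107 : run 11 100320 (okl [(64, 16, 5), (32, 8, 6), (16, 16, 12)]) = true := by
  decide +kernel
theorem r108 : run 11 100320 (okl [(128, 2, 0), (64, 16, 13), (32, 8, 6), (16, 16, 12)]) = true := by
  decide +kernel
theorem r109 : run 11 100320 (okl [(128, 2, 1), (64, 16, 13), (32, 8, 6), (16, 16, 12)]) = true := by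
  decide +kernel
theorem r110 : run 11 100320 (okl [(64, 4, 3), (32, 8, 6), (16, 16, 12)]) = true := by
  decide +kernel
theorem r111 : run 11 100320 (okl [(32, 4, 1), (16, 16, 12)]) = true := by
  decide +kernel
theorem r112 : run 11 100320 (okl [(64, 2, 0), (32, 8, 3), (16, 16, 12)]) = true := by
  decide +kernel
theorem r113 : run 11 100320 (okl [(64, 4, 1), (32, 8, 3), (16, 16, 12)]) = true := by
  decide +kernel

end H56.K.R11
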