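import Cfsg.Agent.Lib.K11.Eng

/-!
Kernel run of a part of the search, 11 classes.
-/

set_option maxRecDepth 100000
set_option Elab.async false

namespace H56.K.R11

theorem r114 : run 11 100320 (okl [(64, 4, 3), (32, 8, 3), (16, 16, 12)]) = true := by
  decide +kernel
theorem r115 : run 11 100320 (okl [(64, 4, 0), (32, 8, 7), (16, 16, 12)]) = true := by
  decide +kernel
theorem r116 : run 11 100320 (okl [(64, 16, 2), (32, 8, 7), (16, 16, 12)]) = true := by
  decide +kernel
theorem r117 : run 11 100320 (okl [(128, 2, 0), (64, 16, 10), (32, 8, 7), (16, 16, 12)]) = true := by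
  decide +kernel
theorem r118 : run 11 100320 (okl [(128, 2, 1), (64, 16, 10), (32, 8, 7), (16, 16, 12)]) = true := by
  decide +kernel
theorem r119 : run 11 100320 (okl [(128, 2, 0), (64, 16, 6), (32, 8, 7), (16, 16, 12)]) = true := by
  decide +kernel
theorem r120 : run 11 100320 (okl [(128, 8, 1), (64, 16, 6), (32, 8, 7), (16, 16, 12)]) = true := by
  decide +kernel
theorem r121 : run 11 100320 (okl [(128, 8, 5), (64, 16, 6), (32, 8, 7), (16, 16, 12)]) = true := by
  decide +kernel
theorem r122 : run 11 100320 (okl [(128, 4, 3), (64, 16, 6), (32, 8, 7), (16, 16, 12)]) = true := by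
  decide +kernel
theorem r123 : run 11 100320 (okl [(64, 16, 14), (32, 8, 7), (16, 16, 12)]) = true := by
  decide +kernel
theorem r124 : run 11 100320 (okl [(64, 8, 1), (32, 8, 7), (16, 16, 12)]) = true := by
  decide +kernel
theorem r125 : run 11 100320 (okl [(64, 16, 5), (32, 8, 7), (16, 16, 12)]) = true := by
  decide +kernel
theorem r126 : run 11 100320 (okl [(64, 64, 13), (32, 8, 7), (16, 16, 12)]) = true := by
  decide +kernel
theorem r127 : run 11 100320 (okl [(64, 128, 45), (32, 8, 7), (16, 16, 12)]) = true := by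
  decide +kernel
theorem r128 : run 11 100320 (okl [(128, 8, 0), (64, 512, 109), (32, 8, 7), (16, 16, 12)]) = true := by
  decide +kernel
theorem r129 : run 11 100320 (okl [(128, 8, 4), (64, 512, 109), (32, 8, 7), (16, 16, 12)]) = true := by
  decide +kernel
theorem r130 : run 11 100320 (okl [(128, 4, 2), (64, 512, 109), (32, 8, 7), (16, 16, 12)]) = true := by
  decide +kernel

end H56.K.R11
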