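import Cfsg.Agent.Lib.K11.Eng

/-!
Kernel run of a part of the search, 11 classes.
-/

set_option maxRecDepth 100000
set_option Elab.async false

namespace H56.K.R11

theorem r131 : run 11 100320 (okl [(128, 2, 1), (64, 512, 109), (32, 8, 7), (16, 16, 12)]) = true := by
  decide +kernel
theorem r132 : run 11 100320 (okl [(64, 512, 365), (32, 8, 7), (16, 16, 12)]) = true := by
  decide +kernel
theorem r133 : run 11 100320 (okl [(64, 256, 237), (32, 8, 7), (16, 16, 12)]) = true := by
  decide +kernel
theorem r134 : run 11 100320 (okl [(64, 32, 29), (32, 8, 7), (16, 16, 12)]) = true := by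
  decide +kernel
theorem r135 : run 11 100320 (okl [(64, 8, 3), (32, 8, 7), (16, 16, 12)]) = true := by
  decide +kernel
theorem r136 : run 11 100320 (okl [(64, 8, 7), (32, 8, 7), (16, 16, 12)]) = true := by
  decide +kernel
theorem r137 : run 11 100320 (okl [(32, 4, 0), (16, 16, 2)]) = true := by
  decide +kernel
theorem r138 : run 11 100320 (okl [(128, 2, 0), (64, 4, 0), (32, 8, 2), (16, 16, 2)]) = true := by
  decide +kernel
theorem r139 : run 11 100320 (okl [(128, 2, 1), (64, 4, 0), (32, 8, 2), (16, 16, 2)]) = true := by
  decide +kernel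
theorem r140 : run 11 100320 (okl [(64, 4, 2), (32, 8, 2), (16, 16, 2)]) = true := by
  decide +kernel
theorem r141 : run 11 100320 (okl [(64, 2, 1), (32, 8, 2), (16, 16, 2)]) = true := by
  decide +kernel
theorem r142 : run 11 100320 (okl [(32, 16, 6), (16, 16, 2)]) = true := by
  decide +kernel
theorem r143 : run 11 100320 (okl [(32, 16, 14), (16, 16, 2)]) = true := by
  decide +kernel
theorem r144 : run 11 100320 (okl [(32, 4, 1), (16, 16, 2)]) = true := by
  decide +kernel
theorem r145 : run 11 100320 (okl [(32, 4, 3), (16, 16, 2)]) = true := by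
  decide +kernel
theorem r146 : run 11 100320 (okl [(32, 8, 0), (16, 16, 10)]) = true := by
  decide +kernel
theorem r147 : run 11 100320 (okl [(64, 4, 0), (32, 16, 4), (16, 16, 10)]) = true := by
  decide +kernel

end H56.K.R11
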