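import Cfsg.Agent.Lib.K11.Eng

/-!
Kernel run of a part of the search, 11 classes.
-/

set_option maxRecDepth 100000
set_option Elab.async false

namespace H56.K.R11

theorem r148 : run 11 100320 (okl [(128, 4, 0), (64, 16, 2), (32, 16, 4), (16, 16, 10)]) = true := by
  decide +kernel
theorem r149 : run 11 100320 (okl [(128, 4, 2), (64, 16, 2), (32, 16, 4), (16, 16, 10)]) = true := by
  decide +kernel
theorem r150 : run 11 100320 (okl [(128, 8, 1), (64, 16, 2), (32, 16, 4), (16, 16, 10)]) = true := by
  decide +kernel
theorem r151 : run 11 100320 (okl [(128, 8, 5), (64, 16, 2), (32, 16, 4), (16, 16, 10)]) = true := by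
  decide +kernel
theorem r152 : run 11 100320 (okl [(128, 4, 3), (64, 16, 2), (32, 16, 4), (16, 16, 10)]) = true := by
  decide +kernel
theorem r153 : run 11 100320 (okl [(64, 16, 10), (32, 16, 4), (16, 16, 10)]) = true := by
  decide +kernel
theorem r154 : run 11 100320 (okl [(128, 4, 0), (64, 16, 6), (32, 16, 4), (16, 16, 10)]) = true := by
  decide +kernel
theorem r155 : run 11 100320 (okl [(128, 4, 2), (64, 16, 6), (32, 16, 4), (16, 16, 10)]) = true := by
  decide +kernel
theorem r156 : run 11 100320 (okl [(128, 4, 1), (64, 16, 6), (32, 16, 4), (16, 16, 10)]) = true := by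
  decide +kernel
theorem r157 : run 11 100320 (okl [(128, 4, 3), (64, 16, 6), (32, 16, 4), (16, 16, 10)]) = true := by
  decide +kernel
theorem r158 : run 11 100320 (okl [(64, 16, 14), (32, 16, 4), (16, 16, 10)]) = true := by
  decide +kernel
theorem r159 : run 11 100320 (okl [(128, 8, 0), (64, 8, 1), (32, 16, 4), (16, 16, 10)]) = true := by
  decide +kernel
theorem r160 : run 11 100320 (okl [(128, 64, 4), (64, 8, 1), (32, 16, 4), (16, 16, 10)]) = true := by
  decide +kernel
theorem r161 : run 11 100320 (okl [(256, 2, 0), (128, 64, 36), (64, 8, 1), (32, 16, 4), (16, 16, 10)]) = true := by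
  decide +kernel
theorem r162 : run 11 100320 (okl [(256, 2, 1), (128, 64, 36), (64, 8, 1), (32, 16, 4), (16, 16, 10)]) = true := by
  decide +kernel
theorem r163 : run 11 100320 (okl [(128, 32, 20), (64, 8, 1), (32, 16, 4), (16, 16, 10)]) = true := by
  decide +kernel
theorem r164 : run 11 100320 (okl [(128, 16, 12), (64, 8, 1), (32, 16, 4), (16, 16, 10)]) = true := by
  decide +kernel
theorem r165 : run 11 100320 (okl [(128, 4, 2), (64, 8, 1), (32, 16, 4), (16, 16, 10)]) = true := by
  decide +kernel

end H56.K.R11
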