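import Cfsg.Agent.Lib.K11.Eng

/-!
Kernel run of a part of the search, 11 classes.
-/

set_option maxRecDepth 100000
set_option Elab.async false

namespace H56.K.R11

theorem r166 : run 11 100320 (okl [(128, 4, 1), (64, 8, 1), (32, 16, 4), (16, 16, 10)]) = true := by
  decide +kernel
theorem r167 : run 11 100320 (okl [(128, 4, 3), (64, 8, 1), (32, 16, 4), (16, 16, 10)]) = true := by
  decide +kernel
theorem r168 : run 11 100320 (okl [(64, 8, 5), (32, 16, 4), (16, 16, 10)]) = true := by
  decide +kernel
theorem r169 : run 11 100320 (okl [(64, 8, 3), (32, 16, 4), (16, 16, 10)]) = true := by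
  decide +kernel
theorem r170 : run 11 100320 (okl [(128, 2, 0), (64, 8, 7), (32, 16, 4), (16, 16, 10)]) = true := by
  decide +kernel
theorem r171 : run 11 100320 (okl [(128, 2, 1), (64, 8, 7), (32, 16, 4), (16, 16, 10)]) = true := by
  decide +kernel
theorem r172 : run 11 100320 (okl [(64, 2, 0), (32, 16, 12), (16, 16, 10)]) = true := by
  decide +kernel
theorem r173 : run 11 100320 (okl [(64, 2, 1), (32, 16, 12), (16, 16, 10)]) = true := by
  decide +kernel
theorem r174 : run 11 100320 (okl [(64, 2, 0), (32, 16, 2), (16, 16, 10)]) = true := by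
  decide +kernel
theorem r175 : run 11 100320 (okl [(64, 2, 1), (32, 16, 2), (16, 16, 10)]) = true := by
  decide +kernel
theorem r176 : run 11 100320 (okl [(32, 16, 10), (16, 16, 10)]) = true := by
  decide +kernel
theorem r177 : run 11 100320 (okl [(32, 16, 6), (16, 16, 10)]) = true := by
  decide +kernel
theorem r178 : run 11 100320 (okl [(32, 16, 14), (16, 16, 10)]) = true := by
  decide +kernel

end H56.K.R11
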