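import Cfsg.Agent.Lib.K11.Eng

/-!
Kernel run of a part of the search, 9 classes.
-/

set_option maxRecDepth 100000
set_option Elab.async false

namespace H56.K.R9

theorem r0 : run 9 90743 (okl [(16, 2, 0)]) = true := by
  decide +kernel
theorem r1 : run 9 90743 (okl [(16, 2, 1)]) = true := by
  decide +kernel

end H56.K.R9
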