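import Cfsg.Agent.Lib.K11.S1c
import Cfsg.Agent.Lib.K11.R9x0

/-!
The parts of the search put together, 9 classes.
-/

namespace H56.K.R9

theorem c0 : PP 9 [(16, 2, 0)] := PP.of_run 90743 r0
theorem c1 : PP 9 [(16, 2, 1)] := PP.of_run 90743 r1

theorem d1 : PP 9 [(16, 1, 0)] := PP.split c0 c1
theorem d2 : PP 9 [] := PP.deep 16 d1

theorem all : PP 9 [] := d2

end H56.K.R9
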