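import Cfsg.Agent.Lib.K11.Eng
import Cfsg.Agent.Lib.K11.Defs

/-!
Soundness of the search: arithmetic helpers.
-/

set_option autoImplicit false

namespace H56.K

@[simp] theorem frc_eq {α : Type} (x : ℕ) (f : ℕ → α) : frc x f = f x := rfl
@[simp] theorem sel_true {α : Type} (a b : α) : sel true a b = a := rfl
@[simp] theorem sel_false {α : Type} (a b : α) : sel false a b = b := rfl
theorem sel_eq {α : Type} (c : Bool) (a b : α) : sel c a b = if c = true then a else b := by
  cases c <;> rfl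
theorem sel_pos {α : Type} {c : Bool} (h : c = true) (a b : α) : sel c a b = a := by subst h; rfl
theorem sel_neg {α : Type} {c : Bool} (h : c = false) (a b : α) : sel c a b = b := by subst h; rfl
theorem sel_and {a b : Bool} : sel a b false = true ↔ a = true ∧ b = true := by cases a <;> simp
theorem beq_t {a b : ℕ} (h : a = b) : Nat.beq a b = true := by subst h; exact Nat.beq_refl a
theorem beq_f {a b : ℕ} (h : a ≠ b) : Nat.beq a b = false := by
  cases h' : Nat.beq a b
  · rfl
  · exact absurd (Nat.eq_of_beq_eq_true h') h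
theorem ble_t {a b : ℕ} (h : a ≤ b) : Nat.ble a b = true := Nat.ble_eq_true_of_le h
theorem ble_f {a b : ℕ} (h : b < a) : Nat.ble a b = false := by
  cases h' : Nat.ble a b
  · rfl
  · exact absurd (Nat.le_of_ble_eq_true h') (by omega)

theorem lm_eq (a b : ℕ) : lm a b = Nat.lcm a b := by
  show a / Nat.gcd a b * b = a * b / Nat.gcd a b
  exact (Nat.div_mul_right_comm (Nat.gcd_dvd_left a b) b).symm ▸ rfl

theorem mx_eq (a b : ℕ) : mx a b = max a b := by
  unfold mx
  rcases le_or_gt a b with h | h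
  · rw [sel_pos (ble_t h), max_eq_right h]
  · rw [sel_neg (ble_f h), max_eq_left h.le]

theorem mn_eq (a b : ℕ) : mn a b = min a b := by
  unfold mn
  rcases le_or_gt a b with h | h
  · rw [sel_pos (ble_t h), min_eq_left h]
  · rw [sel_neg (ble_f h), min_eq_right h.le]

theorem up_ge (t : ℕ) {c d : ℕ} (hc : 0 < c) (h : c ≤ d) : 1000000 * ((t : ℚ) / d) ≤ up t c := by
  have h1 : 1000000 * t < c * (1000000 * t / c + 1) := Nat.lt_mul_div_succ _ hc
  have h2 : (1000000 * t : ℚ) ≤ c * (up t c : ℕ) := by exact_mod_cast h1.le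
  have hc' : (0 : ℚ) < c := by exact_mod_cast hc
  have hd : (c : ℚ) ≤ d := by exact_mod_cast h
  have h3 : (0 : ℚ) ≤ (up t c : ℕ) := by positivity
  rw [← mul_div_assoc, div_le_iff₀ (hc'.trans_le hd)]
  nlinarith

theorem rup_le {cm cur c : ℕ} (h : cm ∣ c) (h0 : 0 < c) (hc : cur ≤ c) (h1 : 1 ≤ cur) :
    0 < rup cm cur ∧ rup cm cur ≤ c := by
  obtain ⟨k, rfl⟩ := h
  have hm : 0 < cm := (CanonicallyOrderedAdd.mul_pos.1 h0).1
  show 0 < (cur + (cm - 1)) / cm * cm ∧ (cur + (cm - 1)) / cm * cm ≤ cm * k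
  refine ⟨Nat.mul_pos (Nat.div_pos (by omega) hm) hm, ?_⟩
  rw [mul_comm cm k]
  refine Nat.mul_le_mul_right _ (Nat.le_of_lt_succ ?_)
  rw [Nat.div_lt_iff_lt_mul hm, Nat.succ_mul, mul_comm k cm]
  omega

theorem strip_spec (o : ℕ) : ∀ f r, strip o f r ∣ r ∧ Nat.Coprime (strip o f r) o := by
  intro f
  induction f with
  | zero => intro r; exact ⟨one_dvd _, Nat.coprime_one_left _⟩
  | succ f ih =>
    intro r
    show sel (Nat.beq (Nat.gcd r o) 1) r (strip o f (r / Nat.gcd r o)) ∣ r ∧
      Nat.Coprime (sel (Nat.beq (Nat.gcd r o) 1) r (strip o f (r / Nat.gcd r o))) o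
    by_cases h : Nat.gcd r o = 1
    · rw [sel_pos (beq_t h)]; exact ⟨dvd_rfl, h⟩
    · rw [sel_neg (beq_f h)]
      exact ⟨(ih _).1.trans (Nat.div_dvd_of_dvd (Nat.gcd_dvd_left _ _)), (ih _).2⟩

theorem gen_loop (hi p : ℕ) (k : ℕ → Bool) : ∀ (f : ℕ) (c i : ℕ), 0 < p ^ i → c * p ^ i ≤ hi →
    gloop hi p k f c = true → k (c * p ^ i) = true := by
  intro f
  induction f with
  | zero => intro c i _ _ h; exact absurd h Bool.false_ne_true
  | succ f ih =>
    intro c i h0 hle h
    have hc : c ≤ hi := (Nat.le_mul_of_pos_right c h0).trans hle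
    replace h : sel (Nat.ble c hi) (sel (k c) (gloop hi p k f (c * p)) false) true = true := h
    rw [sel_pos (ble_t hc), sel_and] at h
    rcases i with _ | i
    · simpa using h.1
    · have := ih (c * p) i (by rw [pow_succ] at h0; exact (CanonicallyOrderedAdd.mul_pos.1 h0).1)
        (by rwa [mul_assoc, ← pow_succ']) h.2
      rwa [mul_assoc, ← pow_succ'] at this

theorem gen_sound (hi : ℕ) (k : ℕ → Bool) : ∀ (ps : List ℕ) (c w : ℕ), 0 < w →
    (∀ q, Nat.Prime q → q ∣ w → q ∈ ps) → c * w ≤ hi → gen hi k ps c = true → k (c * w) = true := by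
  intro ps
  induction ps with
  | nil =>
    intro c w h0 hq _ h
    obtain rfl : w = 1 := by
      by_contra h1
      obtain ⟨q, hq', hd⟩ := Nat.exists_prime_and_dvd h1
      exact absurd (hq q hq' hd) (by simp)
    rw [mul_one]; exact h
  | cons p ps ih =>
    intro c w h0 hq hle h
    obtain ⟨i, w', hw, hq'⟩ : ∃ i w', w = p ^ i * w' ∧ ∀ q, Nat.Prime q → q ∣ w' → q ∈ ps := by
      by_cases hp : Nat.Prime p
      · obtain ⟨i, w', hn, e⟩ := Nat.exists_eq_pow_mul_and_not_dvd h0.ne' p hp.ne_one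
        refine ⟨i, w', e, fun q h1 h2 => ?_⟩
        rcases List.mem_cons.1 (hq q h1 (e ▸ h2.mul_left _)) with rfl | h3
        · exact absurd h2 hn
        · exact h3
      · refine ⟨0, w, by simp, fun q h1 h2 => ?_⟩
        rcases List.mem_cons.1 (hq q h1 h2) with rfl | h3
        · exact absurd h1 hp
        · exact h3
    subst hw
    have h1 : 0 < p ^ i := (CanonicallyOrderedAdd.mul_pos.1 h0).1
    have h2 : 0 < w' := (CanonicallyOrderedAdd.mul_pos.1 h0).2
    have h3 := gen_loop hi p (gen hi k ps) 200 c i h1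
      ((Nat.mul_le_mul_left c (Nat.le_mul_of_pos_right _ h2)).trans hle) h
    rw [← mul_assoc] at hle ⊢
    exact ih _ _ h2 hq' hle h3

theorem rng_sound (k : ℕ → Bool) : ∀ n, rng k n = true → ∀ t, 1 ≤ t → t ≤ n → k t = true := by
  intro n
  induction n with
  | zero => intro _ t h1 h2; omega
  | succ n ih =>
    intro h t h1 h2
    replace h : sel (k (n + 1)) (rng k n) false = true := h
    rw [sel_and] at h
    rcases h2.eq_or_lt with rfl | h3
    · exact h.1
    · exact ih h.2 t h1 (by omega)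

open Classical in
/-- the mask of a predicate below `n` -/
noncomputable def msk (P : ℕ → Prop) : ℕ → ℕ
  | 0 => 0
  | n + 1 => if P n then msk P n ||| 2 ^ n else msk P n

theorem msk_bit (P : ℕ → Prop) (n x : ℕ) : (msk P n).testBit x = true ↔ x < n ∧ P x := by
  induction n with
  | zero => simp [msk]
  | succ n ih =>
    unfold msk
    split_ifs with h
    · rw [Nat.testBit_or, Bool.or_eq_true, ih, Nat.testBit_two_pow, decide_eq_true_eq]
      constructor
      · rintro (⟨a, b⟩ | rfl)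
        · exact ⟨by omega, b⟩
        · exact ⟨by omega, h⟩
      · rintro ⟨a, b⟩
        rcases Nat.lt_succ_iff_lt_or_eq.1 a with a | a
        · exact Or.inl ⟨a, b⟩
        · exact Or.inr a.symm
    · rw [ih]
      constructor
      · rintro ⟨a, b⟩; exact ⟨by omega, b⟩
      · rintro ⟨a, b⟩
        rcases Nat.lt_succ_iff_lt_or_eq.1 a with a | a
        · exact ⟨a, b⟩
        · subst a; exact absurd b h

theorem land_zero_iff (i U : ℕ) : Nat.land (2 ^ i) U = 0 ↔ ¬ U.testBit i = true := by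
  show 2 ^ i &&& U = 0 ↔ _
  rw [Nat.two_pow_and]
  cases U.testBit i <;> simp

theorem land_self_iff (i U : ℕ) : Nat.land U (2 ^ i) = 2 ^ i ↔ U.testBit i = true := by
  show U &&& 2 ^ i = 2 ^ i ↔ _
  rw [Nat.and_two_pow]
  cases U.testBit i <;> simp [(Nat.two_pow_pos i).ne]

theorem isP_of_prime {n : ℕ} (h : Nat.Prime n) : isP n = true := by
  unfold isP
  rcases le_or_gt n 255 with h1 | h1
  · rw [sel_pos (ble_t h1)]
    have : ∀ n : Fin 256, Nat.Prime n → Nat.beq (Nat.land (Nat.shiftRight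
      3622934801701902697686555901643181168549895964810913375391936802953324275884 n) 1) 1 = true := by
      decide +kernel
    exact this ⟨n, by omega⟩ h
  · rw [sel_neg (ble_f h1)]

theorem sum_range_list {β : Type*} [AddCommMonoid β] (f : ℕ → β) (n : ℕ) :
    ∑ i ∈ Finset.range n, f i = ((List.range n).map f).sum := by
  induction n with
  | zero => simp
  | succ n ih => simp [Finset.sum_range_succ, List.range_succ, ih]

namespace Mod

variable {K : ℕ} (M : Mod K)

/-- the mask of the proper ancestors -/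
noncomputable def an (i : ℕ) : ℕ := msk (M.A i) i

theorem an_bit (i x : ℕ) : (M.an i).testBit x = true ↔ x < i ∧ M.A i x := msk_bit _ _ _

theorem o_le {i j : ℕ} (h : i ≤ j) (hj : j < M.m) : M.o i ≤ M.o j := by
  rcases h.eq_or_lt with rfl | h
  · exact le_rfl
  · rcases M.srt i j h hj with a | ⟨a, -⟩ <;> omega

theorem lt_of_o_lt {i j : ℕ} (hi : i < M.m) (h : M.o i < M.o j) : i < j := by
  by_contra h'
  have := M.o_le (not_lt.1 h') hi
  omega

theorem lt_of_A {y x : ℕ} (hy : y < M.m) (hx : x < M.m) (h : M.A y x) (ne : x ≠ y) : x < y := by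
  refine M.lt_of_o_lt hx (lt_of_le_of_ne (Nat.le_of_dvd (by have := M.o2 y hy; omega)
    (M.Ao y hy x hx h)) fun e => ne (M.Au y hy x hx y hy h (M.Ar y hy) e))

theorem c_pos {i : ℕ} (hi : i < M.m) : 0 < M.c i := by have := M.c5 i hi; omega

theorem t_pos {i : ℕ} (hi : i < M.m) : 0 < M.t i := by
  have h := M.te i hi
  have : 0 < Nat.totient (M.o i) := Nat.totient_pos.2 (by have := M.o2 i hi; omega)
  exact (CanonicallyOrderedAdd.mul_pos.1 (h ▸ this)).1

theorem e_pos {i : ℕ} (hi : i < M.m) : 0 < M.e i := by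
  have h := M.te i hi
  have : 0 < Nat.totient (M.o i) := Nat.totient_pos.2 (by have := M.o2 i hi; omega)
  exact (CanonicallyOrderedAdd.mul_pos.1 (h ▸ this)).2

theorem n_pos : 0 < M.n := by have := M.n0; omega

theorem c_dvd_n {i : ℕ} (hi : i < M.m) : M.c i ∣ M.n := (Dvd.intro _ rfl).trans (M.cen i hi)

theorem t_two {i : ℕ} (hi : i < M.m) (h : M.o i = 2) : M.t i = 1 := by
  have := M.te i hi
  rw [h, Nat.totient_two] at this
  exact Nat.eq_one_of_mul_eq_one_right this

theorem an_eq_zero_iff {i : ℕ} (hi : i < M.m) : M.an i = 0 ↔ Nat.Prime (M.o i) := by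
  have h2 := M.o2 i hi
  constructor
  · intro h
    by_contra hp
    obtain ⟨d, hd, h1, h3⟩ := Nat.exists_dvd_of_not_prime2 h2 hp
    obtain ⟨x, hx, a, e⟩ := M.Ae i hi d hd (by omega)
    have := (M.an_bit i x).2 ⟨M.lt_of_o_lt hx (by omega), a⟩
    rw [h] at this
    simp at this
  · intro hp
    refine Nat.eq_of_testBit_eq fun x => ?_
    rw [Nat.zero_testBit]
    by_contra h
    obtain ⟨h1, a⟩ := (M.an_bit i x).1 (by simpa using h)
    have hx : x < M.m := h1.trans hi
    rcases (Nat.dvd_prime hp).1 (M.Ao i hi x hx a) with e | e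
    · have := M.o2 x hx; omega
    · have := M.Au i hi x hx i hi a (M.Ar i hi) e; omega

/-- the node list of an index list -/
noncomputable def mk' (ps : ℕ → List ℕ) (cm S Nm : ℕ → ℕ) : List ℕ → NL
  | [] => NL.nil
  | i :: I => NL.cons (M.o i) (M.t i) (M.e i) (2 ^ i) (M.an i) (cm i) (S i) (Nm i) (ps i)
      (mk' ps cm S Nm I)

/-- mass of a rational class -/
def mu (i : ℕ) : ℚ := (M.t i : ℚ) / M.c i

theorem mu_nonneg (i : ℕ) : 0 ≤ M.mu i := by unfold mu; positivity

theorem mg_ge (ps : ℕ → List ℕ) (cm S Nm : ℕ → ℕ) {cur : ℕ} (h1 : 1 ≤ cur) : ∀ I : List ℕ,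
    (∀ i ∈ I, i < M.m ∧ cm i ∣ M.c i ∧ cur ≤ M.c i) →
    1000000 * (I.map M.mu).sum ≤ (mg cur (M.mk' ps cm S Nm I) : ℕ) := by
  intro I
  induction I with
  | nil => intro _; simp
  | cons i I ih =>
    intro h
    obtain ⟨a, b, c⟩ := h i (by simp)
    have e : mg cur (M.mk' ps cm S Nm (i :: I)) =
      up (M.t i) (rup (cm i) cur) + mg cur (M.mk' ps cm S Nm I) := rfl
    have h2 := rup_le b (M.c_pos a) c h1
    have h3 := up_ge (M.t i) h2.1 h2.2
    have h4 := ih fun j hj => h j (by simp [hj])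
    rw [e, List.map_cons, List.sum_cons, Nat.cast_add, mul_add]
    exact add_le_add h3 h4

theorem ms_ge (ps : ℕ → List ℕ) (cm S Nm : ℕ → ℕ) {cur cap : ℕ} (h1 : 1 ≤ cur) : ∀ I : List ℕ,
    (∀ i ∈ I, i < M.m ∧ cm i ∣ M.c i ∧ cur ≤ M.c i) → I.Pairwise (· > ·) →
    1000000 * ((I.filter (fun i => M.o i = 2)).map M.mu).sum ≤ (cap : ℚ) →
    1000000 * (I.map M.mu).sum ≤ (ms cap cur (M.mk' ps cm S Nm I) : ℕ) := by
  intro I
  induction I with
  | nil => intro _ _ _; simp
  | cons i I ih =>
    intro h hs hc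
    obtain ⟨a, b, c⟩ := h i (by simp)
    have e : ms cap cur (M.mk' ps cm S Nm (i :: I)) = sel (Nat.beq (M.o i) 2)
      (mn cap (mg cur (M.mk' ps cm S Nm (i :: I))))
      (up (M.t i) (rup (cm i) cur) + ms cap cur (M.mk' ps cm S Nm I)) := rfl
    rw [e]
    rw [List.pairwise_cons] at hs
    by_cases h2 : M.o i = 2
    · rw [sel_pos (beq_t h2), mn_eq, Nat.cast_min]
      refine le_min ?_ (M.mg_ge ps cm S Nm h1 _ h)
      rwa [List.filter_eq_self.2] at hc
      intro j hj
      rcases List.mem_cons.1 hj with rfl | hj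
      · simpa using h2
      · have := M.o_le (hs.1 j hj).le a
        have := M.o2 j (h j (by simp [hj])).1
        simp only [decide_eq_true_eq]; omega
    · rw [sel_neg (beq_f h2)]
      have h2' := rup_le b (M.c_pos a) c h1
      have h3 := up_ge (M.t i) h2'.1 h2'.2
      rw [List.filter_cons_of_neg (by simpa using h2)] at hc
      have h4 := ih (fun j hj => h j (by simp [hj])) hs.2 hc
      rw [List.map_cons, List.sum_cons, Nat.cast_add, mul_add]
      exact add_le_add h3 h4

end Mod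

end H56.K
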