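import Cfsg.Agent.Lib.K11.S2b

/-!
Soundness of the search, first phase: list lemmas.
-/

set_option autoImplicit false

namespace H56.K

/-- indices in decreasing order -/
def dn : ℕ → List ℕ
  | 0 => []
  | j + 1 => j :: dn j

theorem mem_dn {i j : ℕ} : i ∈ dn j ↔ i < j := by
  induction j with
  | zero => simp [dn]
  | succ j ih => simp only [dn, List.mem_cons, ih]; omega

theorem dn_srt (j : ℕ) : (dn j).Pairwise (· > ·) := by
  induction j with
  | zero => simp [dn]
  | succ j ih => exact List.pairwise_cons.2 ⟨fun i hi => mem_dn.1 hi, ih⟩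

theorem dn_perm (j : ℕ) : (dn j).Perm (List.range j) := by
  induction j with
  | zero => simp [dn]
  | succ j ih => rw [List.range_succ]; exact (ih.cons j).trans (List.perm_append_singleton _ _).symm

theorem twf_dvd (an C : ℕ) : ∀ tw : List (ℕ × ℕ),
    (∀ p ∈ tw, Nat.land an p.2 = p.2 → p.1 ∣ C) → twf an tw ∣ C := by
  intro tw
  induction tw with
  | nil => intro _; exact one_dvd _
  | cons p tw ih =>
    intro h
    obtain ⟨q, b⟩ := p
    have e : twf an ((q, b) :: tw) = sel (Nat.beq (Nat.land an b) b) (lm q (twf an tw)) (twf an tw) := rfl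
    have h1 := ih fun p hp => h p (by simp [hp])
    rw [e]
    by_cases hb : Nat.land an b = b
    · rw [sel_pos (beq_t hb), lm_eq]; exact Nat.lcm_dvd (h (q, b) (by simp) hb) h1
    · rw [sel_neg (beq_f hb)]; exact h1

namespace Mod

variable {K : ℕ} (M : Mod K) (ps : ℕ → List ℕ) (cm S Nm : ℕ → ℕ)

theorem mk'_congr {ps' : ℕ → List ℕ} {cm' : ℕ → ℕ} : ∀ I : List ℕ,
    (∀ i ∈ I, ps i = ps' i ∧ cm i = cm' i) → M.mk' ps cm S Nm I = M.mk' ps' cm' S Nm I := by
  intro I
  induction I with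
  | nil => intro _; rfl
  | cons i I ih =>
    intro h
    simp only [mk', (h i (by simp)).1, (h i (by simp)).2, ih fun j hj => h j (by simp [hj])]

/-- the old nodes after adding a node -/
noncomputable def cmA (ox ax : ℕ) (tw : List (ℕ × ℕ)) (i : ℕ) : ℕ :=
  if M.o i = ox then Nat.lcm (cm i) (twf (M.an i) tw)
  else if ax.testBit i = true then Nat.lcm (cm i) ox else cm i

theorem add_eq (ox ax : ℕ) (tw : List (ℕ × ℕ)) {C : ℕ} (hC : ox ∣ C) : ∀ I : List ℕ,
    (∀ i ∈ I, M.o i = ox → twf (M.an i) tw ∣ C) → ∃ cx, cx ∣ C ∧ ∀ k : ℕ → NL → Bool,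
      add ox ax tw (M.mk' ps cm S Nm I) k = k cx (M.mk' ps (M.cmA cm ox ax tw) S Nm I) := by
  intro I
  induction I with
  | nil => intro _; exact ⟨ox, hC, fun _ => rfl⟩
  | cons i I ih =>
    intro h
    obtain ⟨cx, h1, h2⟩ := ih fun j hj => h j (by simp [hj])
    have e : ∀ k : ℕ → NL → Bool, add ox ax tw (M.mk' ps cm S Nm (i :: I)) k =
        add ox ax tw (M.mk' ps cm S Nm I) fun cx r => sel (Nat.beq (M.o i) ox)
          (k (lm cx (twf (M.an i) tw)) (NL.cons (M.o i) (M.t i) (M.e i) (2 ^ i) (M.an i)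
            (lm (cm i) (twf (M.an i) tw)) (S i) (Nm i) (ps i) r))
          (sel (Nat.beq (Nat.land (2 ^ i) ax) 0)
            (k cx (NL.cons (M.o i) (M.t i) (M.e i) (2 ^ i) (M.an i) (cm i) (S i) (Nm i) (ps i) r))
            (k cx (NL.cons (M.o i) (M.t i) (M.e i) (2 ^ i) (M.an i) (lm (cm i) ox) (S i) (Nm i)
              (ps i) r))) := fun _ => rfl
    by_cases b : M.o i = ox
    · refine ⟨_, Nat.lcm_dvd h1 (h i (by simp) b), fun k => ?_⟩
      rw [e, h2, sel_pos (beq_t b)]
      simp only [mk', cmA, if_pos b, lm_eq]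
    · refine ⟨cx, h1, fun k => ?_⟩
      rw [e, h2, sel_neg (beq_f b)]
      by_cases b' : ax.testBit i = true
      · rw [sel_neg (beq_f fun e => (land_zero_iff _ _).1 e b')]
        simp only [mk', cmA, if_neg b, if_pos b', lm_eq]
      · rw [sel_pos (beq_t ((land_zero_iff _ _).2 b'))]
        simp only [mk', cmA, if_neg b, if_neg b']

theorem dup_false {y : ℕ} (hy : y < M.m) : ∀ (I : List ℕ) (po : ℕ), I.Pairwise (· > ·) →
    (∀ i ∈ I, (M.an y).testBit i = true → M.o i ≠ po) → dup (M.an y) (M.mk' ps cm S Nm I) po = false := by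
  intro I
  induction I with
  | nil => intro _ _ _; rfl
  | cons i I ih =>
    intro po hs h
    rw [List.pairwise_cons] at hs
    have e : dup (M.an y) (M.mk' ps cm S Nm (i :: I)) po = sel (Nat.beq (Nat.land (2 ^ i) (M.an y)) 0)
      (dup (M.an y) (M.mk' ps cm S Nm I) po)
      (sel (Nat.beq (M.o i) po) true (dup (M.an y) (M.mk' ps cm S Nm I) (M.o i))) := rfl
    rw [e]
    by_cases b : (M.an y).testBit i = true
    · rw [sel_neg (beq_f fun e => (land_zero_iff _ _).1 e b), sel_neg (beq_f (h i (by simp) b))]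
      refine ih _ hs.2 fun j hj b' e => ?_
      obtain ⟨a1, a2⟩ := (M.an_bit y i).1 b
      obtain ⟨a3, a4⟩ := (M.an_bit y j).1 b'
      have := M.Au y hy j (a3.trans hy) i (a1.trans hy) a4 a2 e
      have := hs.1 j hj
      omega
    · rw [sel_pos (beq_t ((land_zero_iff _ _).2 b))]
      exact ih _ hs.2 fun j hj => h j (by simp [hj])

theorem par1_sound (t : ℕ) (k : ℕ → ℕ → Bool) {z : ℕ} (ht : M.t z ∣ t) : ∀ I : List ℕ, z ∈ I →
    I.Pairwise (· > ·) → (∀ i ∈ I, i < M.m) → par1 (M.o z) t k (M.mk' ps cm S Nm I) = true →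
    k (2 ^ z) (M.an z) = true := by
  intro I
  induction I with
  | nil => intro h; simp at h
  | cons i I ih =>
    intro hz hs hm h
    rw [List.pairwise_cons] at hs
    replace h : sel (Nat.ble (M.o z) (M.o i)) (sel (sel (Nat.beq (M.o i) (M.o z))
      (sel (Nat.beq (t % M.t i) 0) (k (2 ^ i) (M.an i)) true) true)
      (par1 (M.o z) t k (M.mk' ps cm S Nm I)) false) true = true := h
    rcases List.mem_cons.1 hz with rfl | hz'
    · rw [sel_pos (ble_t le_rfl), sel_and, sel_pos (beq_t rfl),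
        sel_pos (beq_t (Nat.mod_eq_zero_of_dvd ht))] at h
      exact h.1
    · rw [sel_pos (ble_t (M.o_le (hs.1 z hz').le (hm i (by simp)))), sel_and] at h
      exact ih hz' hs.2 (fun j hj => hm j (by simp [hj])) h.2

theorem pars_sound {y : ℕ} (hy : y < M.m) (k : ℕ → List (ℕ × ℕ) → Bool) :
    ∀ (qs : List ℕ) (ax : ℕ) (tw : List (ℕ × ℕ)),
    (∀ q ∈ qs, Nat.Prime q ∧ q ∣ M.o y ∧ q ≠ M.o y) →
    pars (M.mk' ps cm S Nm (dn y)) (M.o y) (M.t y) k qs ax tw = true →
    ∃ ax' tw', k ax' tw' = true ∧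
      (∀ x, ax'.testBit x = true ↔ ax.testBit x = true ∨
        ∃ q ∈ qs, x < M.m ∧ M.A y x ∧ M.o x ∣ M.o y / q) ∧
      ∀ p ∈ tw', p ∈ tw ∨ ∃ q z, Nat.Prime q ∧ z < M.m ∧ M.o y = q * M.o z ∧ ¬ q ∣ M.o z ∧ M.A y z ∧
        p = (q * q, 2 ^ z) := by
  intro qs
  induction qs with
  | nil => intro ax tw _ h; exact ⟨ax, tw, h, fun x => by simp, fun p hp => Or.inl hp⟩
  | cons q qs ih =>
    intro ax tw hq h
    obtain ⟨q1, ⟨d, q2⟩, q3⟩ := hq q (by simp)
    have o2 := M.o2 y hy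
    have hd : M.o y / q = d := by rw [q2, Nat.mul_div_cancel_left _ q1.pos]
    have d1 : 1 < d := by
      rcases d with _ | _ | d
      · omega
      · omega
      · omega
    obtain ⟨z, hz, a, e⟩ := M.Ae y hy d (q2 ▸ Dvd.intro_left _ rfl) d1
    have zy : z < y := M.lt_of_o_lt hz (by have := q1.two_le; rw [e, q2]; nlinarith)
    replace h : par1 (M.o y / q) (M.t y) (fun b an => sel (Nat.beq ((M.o y / q) % q) 0)
      (pars (M.mk' ps cm S Nm (dn y)) (M.o y) (M.t y) k qs (ax ||| (b ||| an)) tw)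
      (pars (M.mk' ps cm S Nm (dn y)) (M.o y) (M.t y) k qs (ax ||| (b ||| an)) ((q * q, b) :: tw)))
      (M.mk' ps cm S Nm (dn y)) = true := h
    rw [hd, ← e] at h
    have h1 := M.par1_sound ps cm S Nm _ _ (M.At y hy z hz a) _ (mem_dn.2 zy) (dn_srt y)
      (fun i hi => (mem_dn.1 hi).trans hy) h
    have hb : ∀ x, (ax ||| (2 ^ z ||| M.an z)).testBit x = true ↔ ax.testBit x = true ∨
        (x < M.m ∧ M.A y x ∧ M.o x ∣ M.o y / q) := fun x => by
      rw [Nat.testBit_or, Nat.testBit_or, Bool.or_eq_true, Bool.or_eq_true, M.an_bit,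
        Nat.testBit_two_pow, decide_eq_true_eq, hd, ← e]
      refine or_congr_right ⟨?_, ?_⟩
      · rintro (rfl | ⟨b1, b2⟩)
        · exact ⟨hz, a, dvd_rfl⟩
        · exact ⟨b1.trans hz, M.Atr y hy z hz x (b1.trans hz) a b2, M.Ao z hz x (b1.trans hz) b2⟩
      · rintro ⟨b1, b2, b3⟩
        obtain ⟨x', c1, c2, c3⟩ := M.Ae z hz _ b3 (M.o2 x b1)
        obtain rfl := M.Au y hy x' c1 x b1 (M.Atr y hy z hz x' c1 a c2) b2 c3
        by_cases e' : x' = z
        · exact Or.inl e'.symm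
        · exact Or.inr ⟨M.lt_of_A hz c1 c2 e', c2⟩
    have hq' : ∀ q ∈ qs, Nat.Prime q ∧ q ∣ M.o y ∧ q ≠ M.o y := fun r hr => hq r (by simp [hr])
    by_cases b : q ∣ M.o z
    · rw [sel_pos (beq_t (Nat.mod_eq_zero_of_dvd b))] at h1
      obtain ⟨ax', tw', r1, r2, r3⟩ := ih _ _ hq' h1
      exact ⟨ax', tw', r1, fun x => by rw [r2, hb]; simp [or_assoc], r3⟩
    · rw [sel_neg (beq_f fun e => b (Nat.dvd_of_mod_eq_zero e))] at h1
      obtain ⟨ax', tw', r1, r2, r3⟩ := ih _ _ hq' h1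
      refine ⟨ax', tw', r1, fun x => by rw [r2, hb]; simp [or_assoc], fun p hp => ?_⟩
      rcases r3 p hp with r | r
      · rcases List.mem_cons.1 r with r | r
        · exact Or.inr ⟨q, z, q1, hz, by rw [e, q2], b, a, r⟩
        · exact Or.inl r
      · exact Or.inr r

theorem ords_sound (ih : D1) (L : NL) (s rem lo lt nb h a : ℕ) : ∀ (R : List ℕ) (po : ℕ), a ≠ po →
    (∃ z ∈ R, M.o z = a) → ords ih L s rem lo lt nb h (M.mk' ps cm S Nm R) po = true →
    ∃ z ∈ R, M.o z = a ∧ prm ih L s rem lo lt nb h a = true ∧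
      qs ih L s rem lo lt nb h a (M.t z * M.e z) (hd (ps z)) (ps z) L 0 = true := by
  intro R
  induction R with
  | nil => rintro _ _ ⟨z, hz, -⟩; simp at hz
  | cons i R jh =>
    rintro po ne ⟨z, hz, e⟩ H
    replace H : sel (sel (Nat.beq (M.o i) po) true (sel (prm ih L s rem lo lt nb h (M.o i))
      (qs ih L s rem lo lt nb h (M.o i) (M.t i * M.e i) (hd (ps i)) (ps i) L 0) false))
      (ords ih L s rem lo lt nb h (M.mk' ps cm S Nm R) (M.o i)) false = true := H
    rw [sel_and] at H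
    by_cases b : M.o i = a
    · have H1 := H.1
      rw [b, sel_neg (beq_f ne), sel_and] at H1
      exact ⟨i, by simp, b, H1⟩
    · obtain ⟨z', r1, r2⟩ := jh _ (Ne.symm b)
        ⟨z, (List.mem_cons.1 hz).resolve_left fun e' => b (e' ▸ e), e⟩ H.2
      exact ⟨z', by simp [r1], r2⟩

theorem qs_sound (ih : D1) (L : NL) (s rem lo lt nb h a ph mf : ℕ) (p0 : List ℕ) {q : ℕ}
    (hq : Nat.Prime q) (hle : q ≤ mf) (h1 : lo ≤ a * q) (h2 : 1000000 ≤ s + up rem (max 5 (a * q))) :
    ∀ (R : List ℕ) (po : ℕ), q ≠ po → (∀ i ∈ R, i < M.m) → (∃ z ∈ R, M.o z = q) →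
    qs ih L s rem lo lt nb h a ph mf p0 (M.mk' ps cm S Nm R) po = true →
    sel (Nat.beq q mf) (comp ih L rem lo lt nb h (a * q) (ph * q) p0)
      (comp ih L rem lo lt nb h (a * q) (ph * (q - 1)) (q :: p0)) = true := by
  intro R
  induction R with
  | nil => rintro _ _ _ ⟨z, hz, -⟩; simp at hz
  | cons i R jh =>
    rintro po ne hm ⟨z, hz, e⟩ H
    replace H : sel (sel (Nat.ble (M.o i) mf) (sel (Nat.beq (M.an i) 0) (sel (Nat.beq (M.o i) po) true
      (sel (Nat.ble lo (a * M.o i)) (sel (Nat.ble 1000000 (s + up rem (mx 5 (a * M.o i))))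
        (sel (Nat.beq (M.o i) mf) (comp ih L rem lo lt nb h (a * M.o i) (ph * M.o i) p0)
          (comp ih L rem lo lt nb h (a * M.o i) (ph * (M.o i - 1)) (M.o i :: p0))) true) true))
      true) true) (qs ih L s rem lo lt nb h a ph mf p0 (M.mk' ps cm S Nm R) (M.o i)) false = true := H
    rw [sel_and] at H
    by_cases b : M.o i = q
    · have H1 := H.1
      rw [sel_pos (beq_t ((M.an_eq_zero_iff (hm i (by simp))).2 (b ▸ hq))), b, sel_pos (ble_t hle),
        sel_neg (beq_f ne), sel_pos (ble_t h1), mx_eq, sel_pos (ble_t h2)] at H1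
      exact H1
    · exact jh _ (Ne.symm b) (fun j hj => hm j (by simp [hj]))
        ⟨z, (List.mem_cons.1 hz).resolve_left fun e' => b (e' ▸ e), e⟩ H.2

theorem np_ge : ∀ (R : List ℕ) (po : ℕ), (∀ i ∈ R, i < M.m) →
    (((R.toFinset.image M.o).filter Nat.Prime).erase po).card ≤ np (M.mk' ps cm S Nm R) po := by
  intro R
  induction R with
  | nil => intro _ _; simp
  | cons i R ih =>
    intro po hm
    have h1 := ih (M.o i) fun j hj => hm j (by simp [hj])
    have e : np (M.mk' ps cm S Nm (i :: R)) po = sel (Nat.beq (M.an i) 0) (sel (Nat.beq (M.o i) po)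
      (np (M.mk' ps cm S Nm R) (M.o i)) (np (M.mk' ps cm S Nm R) (M.o i) + 1))
      (np (M.mk' ps cm S Nm R) (M.o i)) := rfl
    rw [e]
    have sub : ∀ q ∈ (((i :: R).toFinset.image M.o).filter Nat.Prime).erase po, q ≠ M.o i →
        q ∈ ((R.toFinset.image M.o).filter Nat.Prime).erase (M.o i) := fun q hq ne => by
      simp only [Finset.mem_erase, Finset.mem_filter, Finset.mem_image, List.mem_toFinset,
        List.mem_cons] at hq ⊢
      obtain ⟨-, ⟨j, hj | hj, e1⟩, hp⟩ := hq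
      · exact absurd (hj ▸ e1.symm) ne
      · exact ⟨ne, ⟨j, hj, e1⟩, hp⟩
    by_cases b : M.an i = 0
    · rw [sel_pos (beq_t b)]
      by_cases b' : M.o i = po
      · rw [sel_pos (beq_t b')]
        exact (Finset.card_le_card fun q hq => sub q hq (b' ▸ (Finset.mem_erase.1 hq).1)).trans h1
      · rw [sel_neg (beq_f b')]
        refine (Finset.card_le_card (t := insert (M.o i) _) fun q hq => ?_).trans
          ((Finset.card_insert_le _ _).trans (Nat.succ_le_succ h1))
        by_cases e : q = M.o i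
        · rw [e]; exact Finset.mem_insert_self _ _
        · exact Finset.mem_insert_of_mem (sub q hq e)
    · rw [sel_neg (beq_f b)]
      refine (Finset.card_le_card fun q hq => sub q hq fun e => b ?_).trans h1
      exact (M.an_eq_zero_iff (hm i (by simp))).2 (e ▸ (Finset.mem_filter.1 (Finset.mem_erase.1 hq).2).2)

end Mod

end H56.K
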