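import Cfsg.Agent.Lib.K11.S1a

/-!
Soundness of the search, first phase.
-/

set_option autoImplicit false

namespace H56.K

namespace Mod

variable {K : ℕ} (M : Mod K)

/-- the hash along the true path -/
noncomputable def H : ℕ → ℕ
  | 0 => 0
  | j + 1 => hs (H j) (M.o (j + 1)) (M.t (j + 1)) (M.an (j + 1))

/-- a correct list of primes -/
def PS (i : ℕ) (l : List ℕ) : Prop :=
  (∀ q, q ∈ l ↔ Nat.Prime q ∧ q ∣ M.o i) ∧ hd l = Nat.minFac (M.o i)

/-- the invariant of the first phase after the nodes `0, …, j` -/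
structure Inv1 (j : ℕ) (ps : ℕ → List ℕ) (cm : ℕ → ℕ) (rem : ℕ) : Prop where
  lt : j < M.m
  cmd : ∀ i ≤ j, cm i ∣ M.c i
  hps : ∀ i ≤ j, M.PS i (ps i)
  hrem : rem = ∑ i ∈ Finset.Ico (j + 1) M.m, M.t i

/-- the node list of the first phase -/
noncomputable def L1 (j : ℕ) (ps : ℕ → List ℕ) (cm : ℕ → ℕ) : NL :=
  M.mk' ps cm (fun _ => 0) (fun _ => 1) (dn (j + 1))

variable {M} {j : ℕ} {ps : ℕ → List ℕ} {cm : ℕ → ℕ} {rem : ℕ}

theorem Inv1.mass (h : M.Inv1 j ps cm rem) {cap : ℕ} (hcap : K * 1000000000000 ≤ cap * cap * 1093)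
    {o' : ℕ} (ho : ∀ i, j < i → i < M.m → o' ≤ M.o i) :
    1000000 ≤ ms cap 5 (M.L1 j ps cm) + 916 + up rem (max 5 o') := by
  have m1 := M.ms_ge ps cm (fun _ => 0) (fun _ => 1) (cur := 5) (cap := cap) (by norm_num) (dn (j + 1))
    (fun i hi => by
      have := mem_dn.1 hi
      exact ⟨by have := h.lt; omega, h.cmd i (by omega), M.c5 i (by have := h.lt; omega)⟩)
    (dn_srt _) (by
      rw [sum_filter_ite (fun i => M.o i = 2)]
      refine le_trans ?_ (M.W_le hcap)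
      change 1000000 * ((dn (j + 1)).map M.nu).sum ≤ _
      rw [((dn_perm _).map _).sum_eq, ← sum_range_list, ← sum_range_list]
      exact mul_le_mul_of_nonneg_left (Finset.sum_le_sum_of_subset_of_nonneg
        (Finset.range_mono h.lt) fun i _ _ => M.nu_nonneg i) (by norm_num))
  rw [((dn_perm _).map _).sum_eq, ← sum_range_list] at m1
  have m2 := up_ge rem (c := max 5 o') (by omega) le_rfl
  have m3 : ∑ i ∈ Finset.Ico (j + 1) M.m, M.mu i ≤ (rem : ℚ) / (max 5 o' : ℕ) := by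
    rw [h.hrem, Nat.cast_sum, Finset.sum_div]
    refine Finset.sum_le_sum fun i hi => ?_
    obtain ⟨a, b⟩ := Finset.mem_Ico.1 hi
    have c : max 5 o' ≤ M.c i := max_le (M.c5 i b)
      ((ho i a b).trans (Nat.le_of_dvd (M.c_pos b) (M.oc i b)))
    exact div_le_div_of_nonneg_left (by positivity) (by exact_mod_cast (by omega : 0 < max 5 o'))
      (by exact_mod_cast c)
  have m4 : (1 : ℚ) / M.n ≤ 1 / 1093 :=
    one_div_le_one_div_of_le (by norm_num) (by exact_mod_cast M.n0)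
  have m5 := M.mass
  rw [← Finset.sum_range_add_sum_Ico _ (show j + 1 ≤ M.m from h.lt)] at m5
  change ∑ i ∈ Finset.range (j + 1), M.mu i + ∑ i ∈ Finset.Ico (j + 1) M.m, M.mu i + _ = _ at m5
  have : (1000000 : ℚ) ≤ (ms cap 5 (M.L1 j ps cm) : ℕ) + 916 + (up rem (max 5 o') : ℕ) := by
    unfold L1; linarith
  exact_mod_cast this

theorem Inv1.t_le (h : M.Inv1 j ps cm rem) (hy : j + 1 < M.m) : M.t (j + 1) ≤ rem := by
  rw [h.hrem]
  exact Finset.single_le_sum (f := M.t) (fun _ _ => Nat.zero_le _) (Finset.mem_Ico.2 ⟨le_rfl, hy⟩)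

theorem Inv1.child (h : M.Inv1 j ps cm rem) (hy : j + 1 < M.m) (tw : List (ℕ × ℕ))
    (htw : ∀ i ≤ j, M.o i = M.o (j + 1) → twf (M.an i) tw ∣ M.c i ∧ twf (M.an i) tw ∣ M.c (j + 1))
    (l : List ℕ) (hl : M.PS (j + 1) l) (g : ℕ → ℕ) (hg : ∀ cx, cx ∣ M.c (j + 1) → g cx ∣ M.c (j + 1))
    (k : NL → Bool)
    (H : add (M.o (j + 1)) (M.an (j + 1)) tw (M.L1 j ps cm) (fun cx r => k (NL.cons (M.o (j + 1))
      (M.t (j + 1)) (M.e (j + 1)) (2 ^ (j + 1)) (M.an (j + 1)) (g cx) 0 1 l r)) = true) :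
    ∃ ps' cm', M.Inv1 (j + 1) ps' cm' (rem - M.t (j + 1)) ∧ k (M.L1 (j + 1) ps' cm') = true := by
  obtain ⟨cx, h1, h2⟩ := M.add_eq ps cm (fun _ => 0) (fun _ => 1) (M.o (j + 1)) (M.an (j + 1)) tw
    (M.oc _ hy) (dn (j + 1)) fun i hi e => (htw i (by have := mem_dn.1 hi; omega) e).2
  unfold L1 at H
  rw [h2] at H
  refine ⟨Function.update ps (j + 1) l,
    Function.update (M.cmA cm (M.o (j + 1)) (M.an (j + 1)) tw) (j + 1) (g cx), ⟨hy, ?_, ?_, ?_⟩, ?_⟩
  · intro i hi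
    rcases hi.eq_or_lt with rfl | hi
    · rw [Function.update_self]; exact hg _ h1
    · rw [Function.update_of_ne hi.ne]
      unfold cmA
      have a := h.cmd i (by omega)
      split_ifs with b b'
      · exact Nat.lcm_dvd a (htw i (by omega) b).1
      · exact Nat.lcm_dvd a ((M.oc _ hy).trans (M.Ac _ hy i (hi.trans hy) ((M.an_bit _ _).1 b').2))
      · exact a
  · intro i hi
    rcases hi.eq_or_lt with rfl | hi
    · rw [Function.update_self]; exact hl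
    · rw [Function.update_of_ne hi.ne]; exact h.hps i (by omega)
  · rw [h.hrem, Finset.sum_eq_sum_Ico_succ_bot hy]; omega
  · rw [← H]
    congr 1
    unfold L1
    rw [dn, mk', Function.update_self, Function.update_self]
    congr 1
    exact M.mk'_congr _ _ _ _ _ fun i hi => by
      have := (mem_dn.1 hi).ne
      rw [Function.update_of_ne this, Function.update_of_ne this]; exact ⟨rfl, rfl⟩

theorem Inv1.tie (hy : j + 1 < M.m) :
    sel (Nat.beq (M.o (j + 1)) (M.o j)) (Nat.ble (M.t j) (M.t (j + 1))) true = true := by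
  by_cases b : M.o (j + 1) = M.o j
  · rw [sel_pos (beq_t b)]
    have := M.srt j (j + 1) (by omega) hy
    exact ble_t (by omega)
  · rw [sel_neg (beq_f b)]

theorem Inv1.prm (h : M.Inv1 j ps cm rem) (hy : j + 1 < M.m) (hp : Nat.Prime (M.o (j + 1)))
    (ih : D1) {s hh : ℕ} (hs' : 1000000 ≤ s + up rem (max 5 (M.o (j + 1))))
    (H : prm ih (M.L1 j ps cm) s rem (M.o j) (M.t j) (2 ^ (j + 1)) hh (M.e (j + 1)) = true) :
    ∃ ps' cm', M.Inv1 (j + 1) ps' cm' (rem - M.t (j + 1)) ∧ ih (M.L1 (j + 1) ps' cm')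
      (rem - M.t (j + 1)) (M.o (j + 1)) (M.t (j + 1)) (2 ^ (j + 1 + 1))
      (hs hh (M.o (j + 1)) (M.t (j + 1)) (M.an (j + 1))) = true := by
  have H1 := rng_sound _ _ H _ (M.t_pos hy) (h.t_le hy)
  have e : M.t (j + 1) * M.e (j + 1) + 1 = M.o (j + 1) := by
    rw [M.te _ hy, Nat.totient_prime hp]; have := hp.two_le; omega
  simp only [frc_eq, Nat.mul_eq, Nat.add_eq, Nat.sub_eq, Nat.succ_eq_add_one, e, mx_eq] at H1
  rw [sel_pos (ble_t (M.o_le (Nat.le_succ j) hy)), sel_pos (isP_of_prime hp), sel_pos (Inv1.tie hy),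
    sel_pos (ble_t hs'), ← pow_succ] at H1
  have a0 := (M.an_eq_zero_iff hy).2 hp
  refine h.child hy [(M.o (j + 1) * M.o (j + 1), 0)] (fun i hi e => ⟨?_, ?_⟩) [M.o (j + 1)] ⟨fun q => ?_, ?_⟩
    (fun cx => sel (Nat.beq (M.e (j + 1)) 1) (M.o (j + 1) * M.o (j + 1)) cx) (fun cx hc => ?_)
    (fun L => ih L _ _ _ _ _) (by rw [a0]; exact H1)
  · refine twf_dvd _ _ _ fun p hp' _ => ?_
    rw [List.mem_singleton.1 hp', ← e]
    exact M.tw0 i (by omega) _ hy (by omega) e (e ▸ hp)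
  · refine twf_dvd _ _ _ fun p hp' _ => ?_
    rw [List.mem_singleton.1 hp']
    exact M.tw0 _ hy i (by omega) (by omega) e.symm hp
  · rw [List.mem_singleton]
    exact ⟨fun e => by rw [e]; exact ⟨hp, dvd_rfl⟩, fun e => (Nat.prime_dvd_prime_iff_eq e.1 hp).1 e.2⟩
  · exact hp.minFac_eq.symm
  · by_cases b : M.e (j + 1) = 1
    · rw [sel_pos (beq_t b)]; exact M.one _ hy hp b
    · rw [sel_neg (beq_f b)]; exact hc

theorem Inv1.comp (h : M.Inv1 j ps cm rem) (hy : j + 1 < M.m) (hp : ¬ Nat.Prime (M.o (j + 1)))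
    (ih : D1) {hh : ℕ} {l : List ℕ} (hl : M.PS (j + 1) l)
    (H : comp ih (M.L1 j ps cm) rem (M.o j) (M.t j) (2 ^ (j + 1)) hh (M.o (j + 1))
      (Nat.totient (M.o (j + 1))) l = true) :
    ∃ ps' cm', M.Inv1 (j + 1) ps' cm' (rem - M.t (j + 1)) ∧ ih (M.L1 (j + 1) ps' cm')
      (rem - M.t (j + 1)) (M.o (j + 1)) (M.t (j + 1)) (2 ^ (j + 1 + 1))
      (hs hh (M.o (j + 1)) (M.t (j + 1)) (M.an (j + 1))) = true := by
  have H1 := rng_sound _ _ H _ (M.t_pos hy) (h.t_le hy)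
  simp only [frc_eq, Nat.mul_eq, Nat.sub_eq, mod_eq', div_eq', ← M.te _ hy,
    Nat.mul_div_cancel_left _ (M.t_pos hy), Nat.mul_mod_right] at H1
  rw [sel_pos (beq_t rfl), sel_pos (Inv1.tie hy), ← pow_succ] at H1
  obtain ⟨ax, tw, r1, r2, r3⟩ := M.pars_sound ps cm _ _ hy _ l 0 [] (fun q hq => by
    have := (hl.1 q).1 hq
    exact ⟨this.1, this.2, fun e => hp (e ▸ this.1)⟩) H1
  have o2 := M.o2 _ hy
  obtain rfl : ax = M.an (j + 1) := by
    refine Nat.eq_of_testBit_eq fun x => Bool.eq_iff_iff.2 ?_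
    rw [r2, M.an_bit, Nat.zero_testBit]
    constructor
    · rintro (b | ⟨q, hq, b1, b2, b3⟩)
      · simp at b
      · have := (hl.1 q).1 hq
        refine ⟨M.lt_of_o_lt b1 ((Nat.le_of_dvd ?_ b3).trans_lt (Nat.div_lt_self (by omega) this.1.one_lt)), b2⟩
        exact Nat.div_pos (Nat.le_of_dvd (by omega) this.2) this.1.pos
    · rintro ⟨b1, b2⟩
      obtain ⟨w, hw⟩ := M.Ao _ hy x (b1.trans hy) b2
      obtain ⟨q, hq, v, rfl⟩ := Nat.exists_prime_and_dvd (n := w) (by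
        rintro rfl
        have := M.Au _ hy x (b1.trans hy) _ hy b2 (M.Ar _ hy) (by omega)
        omega)
      refine Or.inr ⟨q, (hl.1 q).2 ⟨hq, hw ▸ ⟨M.o x * v, by ring⟩⟩, b1.trans hy, b2, v, ?_⟩
      rw [hw, mul_left_comm, Nat.mul_div_cancel_left _ hq.pos]
  rw [sel_neg (c := dup _ (M.L1 j ps cm) 0) (M.dup_false ps cm _ _ hy _ 0 (dn_srt _) fun i hi _ => by
    have := M.o2 i ((mem_dn.1 hi).trans hy); omega)] at r1
  refine h.child hy tw (fun i hi e => ⟨?_, ?_⟩) l hl id (fun _ hc => hc) (fun L => ih L _ _ _ _ _) r1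
  · refine twf_dvd _ _ _ fun p hp' b => ?_
    obtain ⟨q, z, c1, c2, c3, c4, c5, rfl⟩ := (r3 p hp').resolve_left (by simp)
    exact M.tw i (by omega) _ hy z c2 q (by omega) e c1 (e.trans c3) c4
      ((M.an_bit _ _).1 ((land_self_iff _ _).1 b)).2 c5
  · refine twf_dvd _ _ _ fun p hp' b => ?_
    obtain ⟨q, z, c1, c2, c3, c4, c5, rfl⟩ := (r3 p hp').resolve_left (by simp)
    exact M.tw _ hy i (by omega) z c2 q (by omega) e.symm c1 c3 c4 c5
      ((M.an_bit _ _).1 ((land_self_iff _ _).1 b)).2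

end Mod

end H56.K
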