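import Cfsg.Agent.Lib.K11.S1b

/-!
Soundness of the search: the whole run and the leaf test.
-/

set_option autoImplicit false

namespace H56.K

namespace Mod

variable {K : ℕ} {M : Mod K} {j : ℕ} {ps : ℕ → List ℕ} {cm : ℕ → ℕ} {rem : ℕ}

theorem Inv1.start (h : M.Inv1 j ps cm rem) (hm : j + 1 = M.m) (hK : K ≤ 12) {cap : ℕ}
    (hcap : K * 1000000000000 ≤ cap * cap * 1093) (fin : ℕ → List (ℕ × ℕ × ℕ) → Bool)
    (H : start K cap fin (M.L1 j ps cm) = true) :
    ∃ J' : List ℕ, J'.Perm (List.range M.m) ∧ fin M.n (J'.map M.dat) = true := by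
  have n1 := M.np_ge ps cm (fun _ => 0) (fun _ => 1) (dn (j + 1)) 0 fun i hi => hm ▸ mem_dn.1 hi
  rw [Finset.erase_eq_of_notMem (by simp [Nat.not_prime_zero]), List.toFinset_eq_of_perm _ _ (dn_perm _),
    List.toFinset_range, hm, ← hm] at n1
  have n2 := M.np3
  rw [← hm] at n2
  replace H : sel (Nat.ble 3 (np (M.L1 j ps cm) 0)) (dfs K cap fin (Nat.beq (np (M.L1 j ps cm) 0) 3) 12
    (M.L1 j ps cm) (K - 1) 1 1 5 1000000 0 []) true = true := H
  change _ ≤ np (M.L1 j ps cm) 0 at n1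
  rw [sel_pos (ble_t (n2.trans n1))] at H
  have st := M.st
  have mK : M.m ≤ ∑ i ∈ Finset.range M.m, M.t i := by
    calc M.m = ∑ i ∈ Finset.range M.m, 1 := by simp
      _ ≤ _ := Finset.sum_le_sum fun i hi => M.t_pos (Finset.mem_range.1 hi)
  refine M.dfs_sound hcap fin (fun e => ?_) ps (fun i hi q a b => ((h.hps i (by omega)).1 q).2 ⟨a, b⟩)
    12 (dn (j + 1)) [] cm _ _ _ _ _ _ _ _ ⟨by simpa [hm] using dn_perm _, dn_srt _,
      fun i hi => h.cmd i (by have := mem_dn.1 hi; omega), fun _ _ _ hy => by simp at hy,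
      fun _ _ => one_dvd _, fun _ _ => rfl, ?_, ?_, one_dvd _, fun _ hy => by simp at hy,
      fun i hi => ?_, by norm_num, by simp⟩ H
  · have := Nat.eq_of_beq_eq_true e
    rw [← hm]; omega
  · rw [((dn_perm _).map _).sum_eq, ← sum_range_list, hm]; omega
  · rw [((dn_perm _).map _).sum_eq, ← sum_range_list, hm, Nat.cast_one, one_mul]
    exact M.mass.symm
  · have a := mem_dn.1 hi
    have b := M.c5 i (by omega)
    have c : 2 ^ i < 2 ^ 12 := Nat.pow_lt_pow_right (by norm_num) (by omega)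
    omega

theorem ph1_sound (M : Mod K) (hK : K ≤ 12) {cap : ℕ} (hcap : K * 1000000000000 ≤ cap * cap * 1093)
    (fin : ℕ → List (ℕ × ℕ × ℕ) → Bool) (ok : ℕ → ℕ → Bool)
    (hok : ∀ j, ok (2 ^ (j + 1)) (M.H j) = true) :
    ∀ (f j : ℕ) (ps : ℕ → List ℕ) (cm : ℕ → ℕ) (rem : ℕ), M.Inv1 j ps cm rem →
      ph1 K cap fin ok f (M.L1 j ps cm) rem (M.o j) (M.t j) (2 ^ (j + 1)) (M.H j) = true →
      ∃ J' : List ℕ, J'.Perm (List.range M.m) ∧ fin M.n (J'.map M.dat) = true := by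
  intro f
  induction f with
  | zero => intro j ps cm rem _ H; exact absurd H Bool.false_ne_true
  | succ f ih =>
    intro j ps cm rem h H
    replace H : sel (ok (2 ^ (j + 1)) (M.H j)) (sel (Nat.ble 1000000
      (ms cap 5 (M.L1 j ps cm) + 916 + up rem (mx 5 (M.o j))))
      (sel (Nat.beq rem 0) (H56.K.start K cap fin (M.L1 j ps cm))
        (sel (H56.K.prm (ph1 K cap fin ok f) (M.L1 j ps cm) (ms cap 5 (M.L1 j ps cm) + 916) rem (M.o j)
            (M.t j) (2 ^ (j + 1)) (M.H j) 1)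
          (ords (ph1 K cap fin ok f) (M.L1 j ps cm) (ms cap 5 (M.L1 j ps cm) + 916) rem (M.o j)
            (M.t j) (2 ^ (j + 1)) (M.H j) (M.L1 j ps cm) 0) false)) true) true = true := H
    rw [sel_pos (hok j), mx_eq,
      sel_pos (ble_t (h.mass hcap fun i a b => M.o_le a.le b))] at H
    rcases (show j + 1 ≤ M.m from h.lt).eq_or_lt with hm | hy
    · rw [sel_pos (beq_t (by rw [h.hrem, hm]; simp))] at H
      exact h.start hm hK hcap fin H
    have t0 := M.t_pos hy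
    have t1 := h.t_le hy
    rw [sel_neg (beq_f (by omega)), sel_and] at H
    have ms' := h.mass hcap (o' := M.o (j + 1)) fun i a b => M.o_le a b
    have o2 := M.o2 _ hy
    have pres : ∀ d, 1 < d → d < M.o (j + 1) → (∃ z < M.m, M.o z = d) → ∃ z ∈ dn (j + 1), M.o z = d := by
      rintro d - d2 ⟨z, hz, e⟩
      exact ⟨z, mem_dn.2 (M.lt_of_o_lt hz (by omega)), e⟩
    suffices ∃ ps' cm', M.Inv1 (j + 1) ps' cm' (rem - M.t (j + 1)) ∧ ph1 K cap fin ok f
        (M.L1 (j + 1) ps' cm') (rem - M.t (j + 1)) (M.o (j + 1)) (M.t (j + 1)) (2 ^ (j + 1 + 1))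
        (hs (M.H j) (M.o (j + 1)) (M.t (j + 1)) (M.an (j + 1))) = true by
      obtain ⟨ps', cm', a, b⟩ := this
      exact ih _ _ _ _ a b
    by_cases hp : Nat.Prime (M.o (j + 1))
    · refine h.prm hy hp _ ms' ?_
      have e0 := M.e_pos hy
      rcases (show 1 ≤ M.e (j + 1) from e0).eq_or_lt with e | e
      · rw [← e]; exact H.1
      · have e1 : M.t (j + 1) * M.e (j + 1) = M.o (j + 1) - 1 := by
          rw [M.te _ hy, Nat.totient_prime hp]
        have e2 := Nat.le_mul_of_pos_left (M.e (j + 1)) t0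
        exact (M.ords_sound ps cm _ _ _ _ _ _ _ _ _ _ _ _ 0 e0.ne'
          (pres _ e (by omega) (M.ee _ hy hp e)) H.2).choose_spec.2.2.1
    · have hq := Nat.minFac_prime (n := M.o (j + 1)) (by omega)
      obtain ⟨a, ha⟩ := Nat.minFac_dvd (M.o (j + 1))
      set q := Nat.minFac (M.o (j + 1)) with hqd
      have q2 := hq.two_le
      have a1 : 1 < a := by
        rcases a with _ | _ | a
        · omega
        · exact absurd (by rw [ha, zero_add, mul_one]; exact hq) hp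
        · omega
      have anc : ∀ d, 1 < d → d ∣ M.o (j + 1) → ∃ z < M.m, M.o z = d := fun d d1 d2 => by
        obtain ⟨z, b1, -, b2⟩ := M.Ae _ hy d d2 d1
        exact ⟨z, b1, b2⟩
      obtain ⟨z, z1, z2, -, G⟩ := M.ords_sound ps cm _ _ _ _ _ _ _ _ _ _ a _ 0 (by omega)
        (pres a a1 ((lt_mul_left (by omega) hq.one_lt).trans_eq ha.symm) (anc a a1 (ha ▸ Dvd.intro_left _ rfl))) H.2
      have z3 := mem_dn.1 z1
      obtain ⟨p1, p2⟩ := h.hps z (by omega)
      rw [M.te z (by omega), p2, z2] at G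
      rw [z2] at p1 p2
      have ao : a * q = M.o (j + 1) := by rw [ha, mul_comm]
      have qa : q ≤ Nat.minFac a := Nat.minFac_le_of_dvd (Nat.minFac_prime (by omega)).two_le
        ((Nat.minFac_dvd a).trans (ao ▸ Dvd.intro _ rfl))
      have G2 := M.qs_sound ps cm _ _ _ _ _ _ _ _ _ _ _ _ _ _ hq qa
        (ao ▸ M.o_le (Nat.le_succ j) hy) (ao ▸ ms') _ 0 (by omega)
        (fun i hi => (mem_dn.1 hi).trans hy)
        (pres q (by omega) ((lt_mul_right hq.pos a1).trans_eq ha.symm) (anc q (by omega) (ha ▸ Dvd.intro _ rfl))) G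
      have mem : ∀ r, Nat.Prime r → (r ∣ M.o (j + 1) ↔ r = q ∨ r ∣ a) := fun r hr => by
        rw [← ao, hr.dvd_mul, Nat.prime_dvd_prime_iff_eq hr hq, or_comm]
      by_cases b : q = Nat.minFac a
      · have b' : q ∣ a := b ▸ Nat.minFac_dvd a
        rw [sel_pos (beq_t b), mul_comm (Nat.totient a), ← Nat.totient_mul_of_prime_of_dvd hq b',
          mul_comm q, ao] at G2
        refine h.comp hy hp _ ⟨fun r => ?_, p2.trans b.symm⟩ G2
        rw [p1]
        refine and_congr_right fun hr => ?_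
        rw [mem r hr]
        exact ⟨Or.inr, fun c => c.elim (fun c => c ▸ b') id⟩
      · have b' : ¬ q ∣ a := fun c => b (le_antisymm qa (Nat.minFac_le_of_dvd q2 c))
        rw [sel_neg (beq_f b), mul_comm (Nat.totient a), ← Nat.totient_mul_of_prime_of_not_dvd hq b',
          mul_comm q, ao] at G2
        refine h.comp hy hp _ ⟨fun r => ?_, rfl⟩ G2
        rw [List.mem_cons, p1]
        constructor
        · rintro (rfl | c)
          · exact ⟨hq, (mem _ hq).2 (Or.inl rfl)⟩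
          · exact ⟨c.1, (mem _ c.1).2 (Or.inr c.2)⟩
        · rintro ⟨c1, c2⟩
          exact ((mem _ c1).1 c2).imp id fun c => ⟨c1, c⟩

theorem run_sound (M : Mod K) (hK : K ≤ 12) {cap : ℕ} (hcap : K * 1000000000000 ≤ cap * cap * 1093)
    (ok : ℕ → ℕ → Bool) (hok : ∀ j, ok (2 ^ (j + 1)) (M.H j) = true) (H : run K cap ok = true) :
    ∃ J' : List ℕ, J'.Perm (List.range M.m) ∧ fin K M.n (J'.map M.dat) = true := by
  obtain ⟨i, hi, e⟩ := M.two
  have m0 : 0 < M.m := by omega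
  have o0 : M.o 0 = 2 := by have := M.o_le (Nat.zero_le i) hi; have := M.o2 0 m0; omega
  have t0 := M.t_two m0 o0
  have e0 : M.e 0 = 1 := by have := M.te 0 m0; rwa [t0, o0, one_mul] at this
  refine M.ph1_sound hK hcap _ ok hok 12 0 (fun _ => [2]) (fun _ => 4) (K - 2) ⟨m0, ?_, ?_, ?_⟩ ?_
  · intro i hi
    obtain rfl : i = 0 := by omega
    have := M.one 0 m0 (o0 ▸ Nat.prime_two) e0
    rwa [o0] at this
  · intro i hi
    obtain rfl : i = 0 := by omega
    unfold PS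
    rw [o0]
    refine ⟨fun q => ?_, by simp [hd]⟩
    rw [List.mem_singleton]
    exact ⟨fun e => by rw [e]; exact ⟨Nat.prime_two, dvd_rfl⟩,
      fun e => (Nat.prime_dvd_prime_iff_eq e.1 Nat.prime_two).1 e.2⟩
  · have := M.st
    rw [Finset.range_eq_Ico, Finset.sum_eq_sum_Ico_succ_bot m0] at this
    omega
  · unfold L1
    simp only [dn, mk', o0, t0, e0]
    exact H

theorem fin_sound (M : Mod K) {J : List ℕ} (hJ : J.Perm (List.range M.m))
    (H : fin K M.n (J.map M.dat) = true) :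
    (K = 10 ∧ (M.n = 7920 ∨ M.n = 2520 ∨ (M.n = 20160 ∧ ∀ i < M.m, IsPrimePow (M.o i)))) ∨
      (K = 11 ∧ (M.n = 2448 ∨ (M.n = 29120 ∧ ∀ i < M.m, IsPrimePow (M.o i)))) := by
  have mem : ∀ i, i ∈ J ↔ i < M.m := fun i => by rw [hJ.mem_iff, List.mem_range]
  simp only [fin, Bool.or_eq_true, Bool.and_eq_true, List.any_map, List.all_map, List.countP_map,
    List.any_eq_true, List.all_eq_true, Function.comp, dat, mem, beq_iff_eq, bne_iff_ne,
    Bool.not_eq_true', decide_eq_false_iff_not] at H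
  rcases H with ((((⟨⟨x, hx, ⟨⟨a1, a2⟩, a3⟩, a4⟩, a5⟩ | ⟨⟨a1, x, hx, a2, a3⟩, a4⟩) | ⟨a1, a2⟩) |
    ⟨a1, a2⟩) | ⟨a1, a2⟩) | ⟨a1, a2⟩
  · have b : ∀ n ∈ [3, 5, 7, 11, 13, 17, 19, 23], Nat.Prime n ∧ 2 < n := by decide
    have b' : ∀ n ∈ [2, 3, 4, 5, 6, 7, 8, 9, 10, 12, 14, 15, 16, 18], Nat.Prime n → n ≤ 7 := by decide
    have := b _ (of_decide_eq_true a1)
    exact absurd (M.l1 x hx this.1 this.2 a3 a2 fun j hj hp =>
      ((a4 j hj).imp id fun c => b' _ (of_decide_eq_true c) hp).symm) a5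
  · refine absurd (M.l2 (fun i hi j hj c1 c2 => ?_) x hx a2 a3) a4
    rw [List.countP_eq_length_filter, List.length_eq_one_iff] at a1
    obtain ⟨z, hz⟩ := a1
    have f : ∀ i < M.m, M.o i = 2 → i = z := fun i hi c => by
      rw [← List.mem_singleton, ← hz, List.mem_filter, mem]
      exact ⟨hi, by simpa [dat] using c⟩
    rw [f i hi c1, f j hj c2]
  · have b : ∀ n ∈ [2, 3, 4, 5, 7, 8, 9, 11, 13, 16, 17, 19, 23, 25, 27], IsPrimePow n := by
      decide +kernel
    have pp : ∀ i < M.m, IsPrimePow (M.o i) := fun i hi => b _ (of_decide_eq_true (a1 i hi))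
    have l := M.l3 pp
    rcases a2 with (a2 | ⟨a2, a3 | ⟨x, hx, a3⟩⟩) | ⟨a2, a3 | ⟨x, hx, a3⟩⟩
    · refine absurd ?_ a2
      rcases l with l | ⟨l, -⟩ | ⟨l, -⟩ | l <;> simp [l]
    · exact Or.inl ⟨a3, Or.inr (Or.inr ⟨a2, pp⟩)⟩
    · rcases l with l | ⟨-, l⟩ | ⟨l, -⟩ | l
      · omega
      · have := l x hx; omega
      · omega
      · omega
    · exact Or.inr ⟨a3, Or.inr ⟨a2, pp⟩⟩
    · rcases l with l | ⟨l, -⟩ | ⟨-, l⟩ | l
      · omega
      · omega
      · exact absurd (l x hx a3.1) a3.2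
      · omega
  · rcases a2 with a2 | ⟨x, hx, a2⟩
    · exact Or.inl ⟨a2, Or.inl a1⟩
    · have := M.l4 a1 x hx; omega
  · exact Or.inl ⟨a2, Or.inr (Or.inl a1)⟩
  · exact Or.inr ⟨a2, Or.inl a1⟩

end Mod

/-- the conclusion of the search -/
def Good {K : ℕ} (M : Mod K) : Prop :=
  (K = 10 ∧ (M.n = 7920 ∨ M.n = 2520 ∨ (M.n = 20160 ∧ ∀ i < M.m, IsPrimePow (M.o i)))) ∨
    (K = 11 ∧ (M.n = 2448 ∨ (M.n = 29120 ∧ ∀ i < M.m, IsPrimePow (M.o i))))

/-- the conclusion holds on the part of the search tree cut out by `l` -/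
def PP (K : ℕ) (l : List (ℕ × ℕ × ℕ)) : Prop :=
  ∀ M : Mod K, (∀ j, okl l (2 ^ (j + 1)) (M.H j) = true) → Good M

theorem PP.of_run {K : ℕ} (cap : ℕ) {l : List (ℕ × ℕ × ℕ)} (H : run K cap (okl l) = true)
    (hK : K ≤ 12 := by decide) (hcap : K * 1000000000000 ≤ cap * cap * 1093 := by decide) : PP K l := by
  intro M h
  obtain ⟨J, h1, h2⟩ := M.run_sound hK hcap _ h H
  exact M.fin_sound h1 h2

theorem okl_cons (B N j : ℕ) (l : List (ℕ × ℕ × ℕ)) (nb h : ℕ) :
    okl ((B, N, j) :: l) nb h = sel (Nat.beq nb B) (Nat.beq (h % N) j) (okl l nb h) := rfl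

theorem PP.deep {K : ℕ} (B : ℕ) {l : List (ℕ × ℕ × ℕ)} (H : PP K ((B, 1, 0) :: l)) : PP K l := by
  intro M h
  refine H M fun j => ?_
  rw [okl_cons]
  by_cases b : 2 ^ (j + 1) = B
  · rw [sel_pos (beq_t b)]; exact beq_t (Nat.mod_one _)
  · rw [sel_neg (beq_f b)]; exact h j

theorem PP.split {K B N j N' j' : ℕ} {l : List (ℕ × ℕ × ℕ)} (H : PP K ((B, N', j) :: l))
    (H' : PP K ((B, N', j') :: l)) (e : N' = N * 2 := by decide) (e' : j' = j + N := by decide) :
    PP K ((B, N, j) :: l) := by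
  intro M h
  by_cases hB : ∃ i, 2 ^ (i + 1) = B
  swap
  · refine H M fun i => ?_
    have := h i
    rw [okl_cons, sel_neg (beq_f fun e => hB ⟨i, e⟩)] at this ⊢
    exact this
  obtain ⟨i, rfl⟩ := hB
  have hi := h i
  rw [okl_cons, sel_pos (beq_t rfl)] at hi
  have hi' := Nat.eq_of_beq_eq_true hi
  have key : ∀ r, M.H i % N' = r → ∀ k, okl ((2 ^ (i + 1), N', r) :: l) (2 ^ (k + 1)) (M.H k) = true := by
    intro r hr k
    have := h k
    by_cases b : k = i
    · subst b; rw [okl_cons, sel_pos (beq_t rfl)]; exact beq_t hr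
    · have ne : 2 ^ (k + 1) ≠ 2 ^ (i + 1) := fun e => b (by
        have := Nat.pow_right_injective le_rfl e; omega)
      rw [okl_cons, sel_neg (beq_f ne)] at this ⊢
      exact this
  have : M.H i % N' = j ∨ M.H i % N' = j' := by
    rw [e, Nat.mod_mul, hi', e']
    rcases Nat.mod_two_eq_zero_or_one (M.H i / N) with c | c <;> simp [c]
  rcases this with c | c
  · exact H M (key _ c)
  · exact H' M (key _ c)

theorem PP.good {K : ℕ} (H : PP K []) (M : Mod K) : Good M := H M fun _ => rfl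

end H56.K
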