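import Cfsg.Agent.Lib.K11.S0

/-!
Soundness of the search, second phase: the invariant and one step.
-/

set_option autoImplicit false

namespace H56.K

theorem sum_filter_ite (p : ℕ → Prop) [DecidablePred p] (f : ℕ → ℚ) (I : List ℕ) :
    ((I.filter (fun i => p i)).map f).sum = (I.map (fun i => if p i then f i else 0)).sum := by
  induction I with
  | nil => simp
  | cons i I ih => by_cases h : p i <;> simp [h, ih]

theorem sum_erase {β : Type*} [AddCommMonoid β] (f : ℕ → β) {I : List ℕ} (hn : I.Nodup) {x : ℕ}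
    (hx : x ∈ I) : (I.map f).sum = f x + ((I.filter (· != x)).map f).sum := by
  rw [← hn.erase_eq_filter, ((List.perm_cons_erase hx).map f).sum_eq]; simp

namespace Mod

variable {K : ℕ} (M : Mod K)

/-- the updated divisor of the centraliser order -/
noncomputable def cmU (cm : ℕ → ℕ) (x c i : ℕ) : ℕ :=
  if (M.an x).testBit i = true then Nat.lcm (cm i) c else cm i

/-- the updated section numerator -/
noncomputable def SU (cm S : ℕ → ℕ) (x c i : ℕ) : ℕ :=
  if (M.an x).testBit i = true then S i * (Nat.lcm (cm i) c / cm i) +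
    (if Nat.Coprime (M.o x / M.o i) (M.o i) then M.t x / M.t i * (Nat.lcm (cm i) c / c) else 0) else S i

theorem upd_eq (ps : ℕ → List ℕ) (cm S Nm : ℕ → ℕ) (x c ce : ℕ) : ∀ (I : List ℕ) (k : NL → Bool),
    upd (M.o x) (M.t x) (2 ^ x) (M.an x) c ce (M.mk' ps cm S Nm I) k =
      k (M.mk' ps (M.cmU cm x c) (M.SU cm S x c) (M.cmU Nm x ce) (I.filter (· != x))) := by
  intro I
  induction I with
  | nil => intro k; rfl
  | cons i I ih =>
    intro k
    have e : upd (M.o x) (M.t x) (2 ^ x) (M.an x) c ce (M.mk' ps cm S Nm (i :: I)) k =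
        upd (M.o x) (M.t x) (2 ^ x) (M.an x) c ce (M.mk' ps cm S Nm I) fun r =>
          sel (Nat.beq (2 ^ i) (2 ^ x)) (k r) (sel (Nat.beq (Nat.land (2 ^ i) (M.an x)) 0)
            (k (NL.cons (M.o i) (M.t i) (M.e i) (2 ^ i) (M.an i) (cm i) (S i) (Nm i) (ps i) r))
            (k (NL.cons (M.o i) (M.t i) (M.e i) (2 ^ i) (M.an i) (lm (cm i) c)
              (S i * (lm (cm i) c / cm i) + sel (Nat.beq (Nat.gcd (M.o x / M.o i) (M.o i)) 1)
                (M.t x / M.t i * (lm (cm i) c / c)) 0) (lm (Nm i) ce) (ps i) r))) := rfl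
    rw [e, ih]
    by_cases h : i = x
    · subst h
      rw [sel_pos (beq_t rfl), List.filter_cons_of_neg (by simp)]
    · rw [sel_neg (beq_f fun e => h (Nat.pow_right_injective le_rfl e)),
        List.filter_cons_of_pos (by simpa using h)]
      by_cases hb : (M.an x).testBit i = true
      · rw [sel_neg (beq_f fun e => (land_zero_iff _ _).1 e hb)]
        simp only [mk', cmU, SU, if_pos hb, lm_eq]
        by_cases hc : Nat.Coprime (M.o x / M.o i) (M.o i)
        · rw [sel_pos (beq_t hc), if_pos hc]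
        · rw [sel_neg (beq_f hc), if_neg hc]
      · rw [sel_pos (beq_t ((land_zero_iff _ _).2 hb))]
        simp only [mk', cmU, SU, if_neg hb]

theorem scan_sound (ps : ℕ → List ℕ) (cm S Nm : ℕ → ℕ) (th : Bool) (ih : D2) (L : NL)
    (T a lc cur bl iv : ℕ) (As : List (ℕ × ℕ × ℕ)) (hi x : ℕ) : ∀ (R : List ℕ) (U po pt : ℕ),
    x ∈ R → R.Pairwise (· > ·) → ¬ U.testBit x = true → ¬ (M.o x = po ∧ M.t x = pt) →
    (∀ y ∈ R, x < y → ¬ M.A y x ∧ ¬ (M.o x = M.o y ∧ M.t x = M.t y)) →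
    scan th ih L T a lc cur bl iv As hi (M.mk' ps cm S Nm R) U po pt = true →
    gen hi (fun c => sel (Nat.ble cur c) (cand th ih L T a lc cur bl iv As (M.o x) (M.t x) (M.e x)
      (2 ^ x) (M.an x) (cm x) (S x) (Nm x) (strip (M.o x) 60 (cm x)) c) true) (ps x) (cm x) = true := by
  intro R
  induction R with
  | nil => intro U po pt h; simp at h
  | cons i R jh =>
    intro U po pt hx hs hU hp hd h
    replace h : sel (sel (Nat.beq (Nat.land (2 ^ i) U) 0)
        (sel (sel (Nat.beq (M.o i) po) (Nat.beq (M.t i) pt) false) true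
          (gen hi (fun c => sel (Nat.ble cur c) (cand th ih L T a lc cur bl iv As (M.o i) (M.t i) (M.e i)
            (2 ^ i) (M.an i) (cm i) (S i) (Nm i) (strip (M.o i) 60 (cm i)) c) true) (ps i) (cm i))) true)
        (scan th ih L T a lc cur bl iv As hi (M.mk' ps cm S Nm R) (U ||| M.an i) (M.o i) (M.t i))
        false = true := h
    rw [sel_and] at h
    rw [List.pairwise_cons] at hs
    rcases List.mem_cons.1 hx with rfl | hx'
    · have h1 := h.1
      rw [sel_pos (beq_t ((land_zero_iff _ _).2 hU)), sel_neg] at h1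
      · exact h1
      · by_cases h2 : M.o x = po
        · rw [sel_pos (beq_t h2)]; exact beq_f fun e => hp ⟨h2, e⟩
        · rw [sel_neg (beq_f h2)]
    · have hlt := hd i (by simp) (hs.1 x hx')
      refine jh _ _ _ hx' hs.2 ?_ hlt.2 (fun y hy => hd y (by simp [hy])) h.2
      rw [Nat.testBit_or, Bool.or_eq_true, M.an_bit]
      rintro (h' | h')
      · exact hU h'
      · exact hlt.1 h'.2

/-- mass of involution classes -/
def nu (i : ℕ) : ℚ := if M.o i = 2 then M.mu i else 0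

theorem nu_nonneg (i : ℕ) : 0 ≤ M.nu i := by
  unfold nu; split_ifs
  · exact M.mu_nonneg i
  · exact le_rfl

open Classical in
/-- terms of the section count -/
noncomputable def tm (i c y : ℕ) : ℕ :=
  if M.A y i ∧ Nat.Coprime (M.o y / M.o i) (M.o i) then M.t y / M.t i * (c / M.c y) else 0

/-- the invariant of the second phase -/
structure Inv2 (I J : List ℕ) (cm S Nm : ℕ → ℕ) (T a lc cur bl iv : ℕ) : Prop where
  perm : (I ++ J).Perm (List.range M.m)
  srt : I.Pairwise (· > ·)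
  cmd : ∀ i ∈ I, cm i ∣ M.c i
  cmj : ∀ i ∈ I, ∀ y ∈ J, M.A y i → M.c y ∣ cm i
  nmd : ∀ i ∈ I, Nm i ∣ M.c i * M.e i
  seq : ∀ i ∈ I, S i = (J.map (M.tm i (cm i))).sum
  hT : T = (I.map M.t).sum
  ha : (a : ℚ) = lc * ((I.map M.mu).sum + 1 / M.n)
  lcn : lc ∣ M.n
  lcj : ∀ y ∈ J, M.c y ∣ lc
  key : ∀ i ∈ I, cur < M.c i ∨ (cur = M.c i ∧ 2 ^ i < bl)
  cur1 : 1 ≤ cur
  hiv : (iv : ℚ) ≤ 1000000 * (J.map M.nu).sum

variable {M} {I J : List ℕ} {cm S Nm : ℕ → ℕ} {T a lc cur bl iv : ℕ}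

theorem Inv2.mem (h : M.Inv2 I J cm S Nm T a lc cur bl iv) (i : ℕ) : i ∈ I ∨ i ∈ J ↔ i < M.m := by
  rw [← List.mem_append, h.perm.mem_iff, List.mem_range]

theorem Inv2.ltI (h : M.Inv2 I J cm S Nm T a lc cur bl iv) {i : ℕ} (hi : i ∈ I) : i < M.m :=
  (h.mem i).1 (Or.inl hi)

theorem Inv2.ltJ (h : M.Inv2 I J cm S Nm T a lc cur bl iv) {i : ℕ} (hi : i ∈ J) : i < M.m :=
  (h.mem i).1 (Or.inr hi)

theorem Inv2.nd (h : M.Inv2 I J cm S Nm T a lc cur bl iv) : (I ++ J).Nodup :=
  h.perm.nodup_iff.2 List.nodup_range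

theorem Inv2.lc_pos (h : M.Inv2 I J cm S Nm T a lc cur bl iv) : 0 < lc :=
  Nat.pos_of_dvd_of_pos h.lcn M.n_pos

/-- the section congruence at a node all of whose descendants are assigned -/
theorem Inv2.sec (h : M.Inv2 I J cm S Nm T a lc cur bl iv) {x : ℕ} (hx : x ∈ I)
    (hd : ∀ y ∈ I, y ≠ x → ¬ M.A y x) {r : ℕ} (hr : r ∣ cm x) (hc : Nat.Coprime r (M.o x)) :
    r ∣ S x * (M.c x / cm x) + 1 := by
  classical
  have hxm := h.ltI hx
  have hxJ : x ∉ J := fun hj => (List.nodup_append.1 h.nd).2.2 x hx x hj rfl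
  have hnd : (x :: J).Nodup := List.nodup_cons.2 ⟨hxJ, (List.nodup_append.1 h.nd).2.1⟩
  have h1 := M.sec x hxm ((x :: J).toFinset.filter
    (fun y => M.A y x ∧ Nat.Coprime (M.o y / M.o x) (M.o x))) (fun y => by
      rw [Finset.mem_filter, List.mem_toFinset, List.mem_cons]
      constructor
      · rintro ⟨rfl | hy, b⟩
        · exact ⟨hxm, b⟩
        · exact ⟨h.ltJ hy, b⟩
      · rintro ⟨hy, b⟩
        refine ⟨?_, b⟩
        rcases (h.mem y).2 hy with hI | hJ
        · by_contra hn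
          exact hd y hI (fun e => hn (Or.inl e)) b.1
        · exact Or.inr hJ) r (hr.trans (h.cmd x hx)) hc
  rw [Finset.sum_filter, List.sum_toFinset _ hnd, List.map_cons, List.sum_cons,
    Nat.div_self (by have := M.o2 x hxm; omega), if_pos ⟨M.Ar x hxm, Nat.coprime_one_left _⟩,
    Nat.div_self (M.t_pos hxm), Nat.div_self (M.c_pos hxm), add_comm] at h1
  convert h1 using 2
  rw [h.seq x hx, ← List.sum_map_mul_right]
  refine congrArg List.sum (List.map_congr_left fun y hy => ?_)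
  unfold tm
  split_ifs with b
  · rw [mul_assoc, Nat.div_mul_div_comm (h.cmj x hx y hy b.1) (h.cmd x hx), mul_comm (M.c y),
      Nat.mul_div_mul_left _ _ (Nat.pos_of_dvd_of_pos (h.cmd x hx) (M.c_pos hxm))]
  · simp

/-- the new invariant -/
theorem Inv2.next (h : M.Inv2 I J cm S Nm T a lc cur bl iv) {x : ℕ} (hx : x ∈ I)
    (hm : ∀ y ∈ I, y ≠ x → M.c x < M.c y ∨ (M.c x = M.c y ∧ y < x)) :
    M.t x * (Nat.lcm lc (M.c x * M.e x) / M.c x) < a * (Nat.lcm lc (M.c x * M.e x) / lc) ∧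
    M.Inv2 (I.filter (· != x)) (x :: J) (M.cmU cm x (M.c x)) (M.SU cm S x (M.c x))
      (M.cmU Nm x (M.c x * M.e x)) (T - M.t x)
      (a * (Nat.lcm lc (M.c x * M.e x) / lc) - M.t x * (Nat.lcm lc (M.c x * M.e x) / M.c x))
      (Nat.lcm lc (M.c x * M.e x)) (M.c x) (2 ^ x)
      (sel (Nat.beq (M.o x) 2) (iv + 1000000 / M.c x) iv) := by
  have hxm := h.ltI hx
  have ndI := (List.nodup_append.1 h.nd).1
  have mf : ∀ i, i ∈ I.filter (· != x) ↔ i ∈ I ∧ i ≠ x := fun i => by simp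
  set l2 := Nat.lcm lc (M.c x * M.e x) with hl2
  have d1 : lc ∣ l2 := Nat.dvd_lcm_left _ _
  have d2 : M.c x ∣ l2 := (Dvd.intro _ rfl).trans (Nat.dvd_lcm_right _ _)
  have d3 : l2 ∣ M.n := Nat.lcm_dvd h.lcn (M.cen x hxm)
  have p1 : (0 : ℚ) < lc := by exact_mod_cast h.lc_pos
  have p2 : (0 : ℚ) < M.c x := by exact_mod_cast M.c_pos hxm
  have p3 : (0 : ℚ) < l2 := by exact_mod_cast Nat.pos_of_dvd_of_pos d3 M.n_pos
  have p4 : (0 : ℚ) < M.n := by exact_mod_cast M.n_pos
  have p5 : 0 ≤ ((I.filter (· != x)).map M.mu).sum :=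
    List.sum_nonneg fun z hz => by obtain ⟨i, -, rfl⟩ := List.mem_map.1 hz; exact M.mu_nonneg i
  have q1 : ((a * (l2 / lc) : ℕ) : ℚ) = ((M.t x * (l2 / M.c x) : ℕ) : ℚ) +
      l2 * (((I.filter (· != x)).map M.mu).sum + 1 / M.n) := by
    rw [Nat.cast_mul, Nat.cast_mul, Nat.cast_div d1 p1.ne', Nat.cast_div d2 p2.ne', h.ha,
      sum_erase M.mu ndI hx, mu]
    field_simp
    ring
  have q2 : M.t x * (l2 / M.c x) < a * (l2 / lc) := by
    have : (0 : ℚ) < l2 * (((I.filter (· != x)).map M.mu).sum + 1 / M.n) := by positivity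
    exact_mod_cast (show ((M.t x * (l2 / M.c x) : ℕ) : ℚ) < ((a * (l2 / lc) : ℕ) : ℚ) by linarith)
  have ab : ∀ i ∈ I, i ≠ x → ((M.an x).testBit i = true ↔ M.A x i) := fun i hi ne => by
    rw [M.an_bit]
    exact ⟨fun b => b.2, fun b => ⟨M.lt_of_A hxm (h.ltI hi) b ne, b⟩⟩
  refine ⟨q2, ?_, h.srt.filter _, ?_, ?_, ?_, ?_, ?_, ?_, d3, ?_, ?_, M.c_pos hxm, ?_⟩
  · refine List.Perm.trans ?_ h.perm
    rw [← ndI.erase_eq_filter]
    exact List.perm_middle.trans (((List.perm_cons_erase hx).symm).append_right J)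
  · intro i hi
    obtain ⟨hi, ne⟩ := (mf i).1 hi
    unfold cmU
    split_ifs with b
    · exact Nat.lcm_dvd (h.cmd i hi) (M.Ac x hxm i (h.ltI hi) ((ab i hi ne).1 b))
    · exact h.cmd i hi
  · intro i hi0 y hy b
    obtain ⟨hi, ne⟩ := (mf i).1 hi0
    unfold cmU
    rcases List.mem_cons.1 hy with rfl | hy
    · rw [if_pos ((ab i hi ne).2 b)]; exact Nat.dvd_lcm_right _ _
    · split_ifs
      · exact (h.cmj i hi y hy b).trans (Nat.dvd_lcm_left _ _)
      · exact h.cmj i hi y hy b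
  · intro i hi
    obtain ⟨hi, ne⟩ := (mf i).1 hi
    unfold cmU
    split_ifs with b
    · exact Nat.lcm_dvd (h.nmd i hi) (M.Ace x hxm i (h.ltI hi) ((ab i hi ne).1 b))
    · exact h.nmd i hi
  · intro i hi
    obtain ⟨hi, ne⟩ := (mf i).1 hi
    have c0 : 0 < cm i := Nat.pos_of_dvd_of_pos (h.cmd i hi) (M.c_pos (h.ltI hi))
    unfold SU cmU
    rw [List.map_cons, List.sum_cons]
    by_cases b : (M.an x).testBit i = true
    · rw [if_pos b, if_pos b, add_comm, h.seq i hi, ← List.sum_map_mul_right]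
      congr 1
      · unfold tm
        simp only [(ab i hi ne).1 b, true_and]
      · refine congrArg List.sum (List.map_congr_left fun y hy => ?_)
        unfold tm
        split_ifs with b'
        · rw [mul_assoc, Nat.div_mul_div_comm (h.cmj i hi y hy b'.1) (Nat.dvd_lcm_left _ _),
            mul_comm (M.c y), Nat.mul_div_mul_left _ _ c0]
        · simp
    · rw [if_neg b, if_neg b, h.seq i hi, tm, if_neg fun b' => b ((ab i hi ne).2 b'.1), zero_add]
  · rw [h.hT, sum_erase M.t ndI hx]; omega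
  · rw [Nat.cast_sub q2.le, q1]; ring
  · intro y hy
    rcases List.mem_cons.1 hy with rfl | hy
    · exact d2
    · exact (h.lcj y hy).trans d1
  · intro i hi
    obtain ⟨hi, ne⟩ := (mf i).1 hi
    rcases hm i hi ne with b | ⟨b, b'⟩
    · exact Or.inl b
    · exact Or.inr ⟨b, Nat.pow_lt_pow_right (by norm_num) b'⟩
  · rw [List.map_cons, List.sum_cons, mul_add]
    have := h.hiv
    by_cases b : M.o x = 2
    · rw [sel_pos (beq_t b), nu, if_pos b, mu, M.t_two hxm b, Nat.cast_add]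
      have : ((1000000 / M.c x : ℕ) : ℚ) ≤ 1000000 * (((1 : ℕ) : ℚ) / M.c x) := by
        refine Nat.cast_div_le.trans (le_of_eq ?_)
        push_cast; ring
      linarith
    · rw [sel_neg (beq_f b), nu, if_neg b]; linarith

end Mod

end H56.K
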