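import Cfsg.Agent.Lib.K11.S2a

/-!
Soundness of the search, second phase.
-/

set_option autoImplicit false

namespace H56.K

theorem mod_eq' (a b : ℕ) : Nat.mod a b = a % b := rfl
theorem div_eq' (a b : ℕ) : Nat.div a b = a / b := rfl

theorem exists_min_key (c : ℕ → ℕ) : ∀ I : List ℕ, I ≠ [] →
    ∃ x ∈ I, ∀ y ∈ I, y ≠ x → c x < c y ∨ (c x = c y ∧ y < x) := by
  intro I
  induction I with
  | nil => intro h; exact absurd rfl h
  | cons i I ih =>
    intro _
    by_cases hI : I = []
    · subst hI; exact ⟨i, by simp, fun y hy ne => absurd (by simpa using hy) ne⟩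
    obtain ⟨x, hx, h⟩ := ih hI
    by_cases b : c i < c x ∨ (c i = c x ∧ x < i)
    · refine ⟨i, by simp, fun y hy ne => ?_⟩
      rcases List.mem_cons.1 hy with rfl | hy
      · exact absurd rfl ne
      · by_cases e : y = x
        · subst e; exact b
        · have := h y hy e; omega
    · refine ⟨x, by simp [hx], fun y hy ne => ?_⟩
      rcases List.mem_cons.1 hy with rfl | hy
      · omega
      · exact h y hy ne

namespace Mod

variable {K : ℕ} (M : Mod K)

/-- the data handed to the leaf test -/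
def dat (i : ℕ) : ℕ × ℕ × ℕ := (M.o i, M.e i, M.c i)

theorem W_sq : ((List.range M.m).map M.nu).sum ^ 2 * M.n ≤ K := by
  have h := M.bf
  rw [Finset.sum_filter, sum_range_list] at h
  convert h using 3
  refine congrArg List.sum (List.map_congr_left fun i hi => ?_)
  unfold nu mu
  split_ifs with b
  · rw [M.t_two (List.mem_range.1 hi) b]; simp
  · rfl

theorem sum_nu_nonneg (I : List ℕ) : 0 ≤ (I.map M.nu).sum :=
  List.sum_nonneg fun z hz => by obtain ⟨i, -, rfl⟩ := List.mem_map.1 hz; exact M.nu_nonneg i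

theorem W_le {cap : ℕ} (hcap : K * 1000000000000 ≤ cap * cap * 1093) :
    1000000 * ((List.range M.m).map M.nu).sum ≤ cap := by
  have h1 := M.W_sq
  have h2 := M.sum_nu_nonneg (List.range M.m)
  set W := ((List.range M.m).map M.nu).sum
  have h3 : (1093 : ℚ) ≤ M.n := by exact_mod_cast M.n0
  have h4 : (K : ℚ) * 1000000000000 ≤ cap * cap * 1093 := by exact_mod_cast hcap
  have h5 : W ^ 2 * 1093 ≤ K := (mul_le_mul_of_nonneg_left h3 (sq_nonneg W)).trans h1
  refine (mul_self_le_mul_self_iff (by positivity) (by positivity)).2 ?_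
  nlinarith

variable {M} {I J : List ℕ} {cm S Nm : ℕ → ℕ} {T a lc cur bl iv : ℕ}

theorem Inv2.W_eq (h : M.Inv2 I J cm S Nm T a lc cur bl iv) :
    ((List.range M.m).map M.nu).sum = (I.map M.nu).sum + (J.map M.nu).sum := by
  rw [← (h.perm.map M.nu).sum_eq, List.map_append, List.sum_append]

theorem Inv2.cand (h : M.Inv2 I J cm S Nm T a lc cur bl iv) (ps : ℕ → List ℕ) {th : Bool}
    (hth : th = true → (((Finset.range M.m).image M.o).filter Nat.Prime).card = 3) (ih : D2)
    {x : ℕ} (hx : x ∈ I) (hm : ∀ y ∈ I, y ≠ x → M.c x < M.c y ∨ (M.c x = M.c y ∧ y < x))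
    (hd : ∀ y ∈ I, y ≠ x → ¬ M.A y x) {r : ℕ} (hr : r ∣ cm x) (hc : Nat.Coprime r (M.o x))
    (As : List (ℕ × ℕ × ℕ))
    (H : cand th ih (M.mk' ps cm S Nm I) T a lc cur bl iv As (M.o x) (M.t x) (M.e x)
      (2 ^ x) (M.an x) (cm x) (S x) (Nm x) r (M.c x) = true) :
    ih (M.mk' ps (M.cmU cm x (M.c x)) (M.SU cm S x (M.c x)) (M.cmU Nm x (M.c x * M.e x))
      (I.filter (· != x))) (T - M.t x)
      (a * (Nat.lcm lc (M.c x * M.e x) / lc) - M.t x * (Nat.lcm lc (M.c x * M.e x) / M.c x))
      (Nat.lcm lc (M.c x * M.e x)) (M.c x) (2 ^ x)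
      (sel (Nat.beq (M.o x) 2) (iv + 1000000 / M.c x) iv) (M.dat x :: As) = true := by
  have hxm := h.ltI hx
  simp only [H56.K.cand, frc_eq, lm_eq, Nat.mul_eq, Nat.add_eq, Nat.sub_eq, mod_eq', div_eq',
    Nat.succ_eq_add_one] at H
  rw [sel_neg, sel_pos (beq_t (Nat.mod_eq_zero_of_dvd (h.nmd x hx))),
    sel_pos (beq_t (Nat.mod_eq_zero_of_dvd (h.sec hx hd hr hc))), sel_neg,
    sel_neg (ble_f (h.next hx hm).1), M.upd_eq] at H
  · exact H
  · cases th
    · rfl
    rw [sel_true]
    by_cases b : M.an x = 0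
    · rw [sel_pos (beq_t b)]
      by_cases b1 : M.c x = M.o x
      · rw [sel_pos (beq_t b1)]
      · rw [sel_neg (beq_f b1), sel_pos]
        refine beq_t (Nat.mod_eq_zero_of_dvd ?_)
        by_contra b2
        exact b1 (M.k3 (hth rfl) x hxm ((M.an_eq_zero_iff hxm).1 b) b2)
    · rw [sel_neg (beq_f b)]
  · rcases h.key x hx with b | ⟨b, b'⟩
    · rw [sel_neg (beq_f b.ne')]
    · rw [sel_pos (beq_t b.symm)]; exact ble_f b'

theorem dfs_sound {cap : ℕ} (hcap : K * 1000000000000 ≤ cap * cap * 1093)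
    (fin : ℕ → List (ℕ × ℕ × ℕ) → Bool) {th : Bool}
    (hth : th = true → (((Finset.range M.m).image M.o).filter Nat.Prime).card = 3) (ps : ℕ → List ℕ)
    (hps : ∀ i < M.m, ∀ q, Nat.Prime q → q ∣ M.o i → q ∈ ps i) :
    ∀ (f : ℕ) (I J : List ℕ) (cm S Nm : ℕ → ℕ) (T a lc cur bl iv : ℕ),
      M.Inv2 I J cm S Nm T a lc cur bl iv →
      dfs K cap fin th f (M.mk' ps cm S Nm I) T a lc cur bl iv (J.map M.dat) = true →
      ∃ J' : List ℕ, J'.Perm (List.range M.m) ∧ fin M.n (J'.map M.dat) = true := by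
  intro f
  induction f with
  | zero => intro I J cm S Nm T a lc cur bl iv _ H; exact absurd H Bool.false_ne_true
  | succ f ih =>
    intro I J cm S Nm T a lc cur bl iv h H
    replace H : sel (Nat.ble (mx 1093 lc * (iv * iv)) (K * 1000000000000))
        (sel (Nat.beq T 0) (sel (Nat.beq a 1) (sel (Nat.ble 1093 lc) (fin lc (J.map M.dat)) true) true)
          (sel (Nat.ble (a * 1000000) (lc * (ms (cap - iv) cur (M.mk' ps cm S Nm I) + up 1 (mx 1093 lc))))
            (scan th (dfs K cap fin th f) (M.mk' ps cm S Nm I) T a lc cur bl iv (J.map M.dat)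
              ((T + 1) * lc / a) (M.mk' ps cm S Nm I) 0 0 0) true)) true = true := H
    rw [mx_eq] at H
    have n1 : max 1093 lc ≤ M.n := max_le M.n0 (Nat.le_of_dvd M.n_pos h.lcn)
    have p1 : (0 : ℚ) < lc := by exact_mod_cast h.lc_pos
    have p4 : (0 : ℚ) < M.n := by exact_mod_cast M.n_pos
    have w1 := M.sum_nu_nonneg I
    have w2 := M.sum_nu_nonneg J
    have w3 := h.W_eq
    have w4 := h.hiv
    rw [sel_pos] at H
    swap
    · refine ble_t ?_
      have w5 := M.W_sq
      have w6 : ((max 1093 lc : ℕ) : ℚ) ≤ M.n := by exact_mod_cast n1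
      have w7 : (0 : ℚ) ≤ iv := by positivity
      set W := ((List.range M.m).map M.nu).sum
      have w8 : (iv : ℚ) ≤ 1000000 * W := by linarith
      have w9 : (iv : ℚ) * iv ≤ (1000000 * W) * (1000000 * W) := mul_self_le_mul_self w7 w8
      have : ((max 1093 lc : ℕ) : ℚ) * (iv * iv) ≤ K * 1000000000000 := by
        calc ((max 1093 lc : ℕ) : ℚ) * (iv * iv) ≤ M.n * ((1000000 * W) * (1000000 * W)) :=
              mul_le_mul w6 w9 (by positivity) p4.le
          _ = (W ^ 2 * M.n) * 1000000000000 := by ring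
          _ ≤ _ := by linarith
      exact_mod_cast this
    by_cases hI : I = []
    · subst hI
      have e1 : lc = M.n := by
        refine Nat.dvd_antisymm h.lcn ((Nat.dvd_iff_prime_pow_dvd_dvd _ _).2 fun q k hq hk => ?_)
        rcases k with _ | k
        · simp
        obtain ⟨y, hy, b⟩ := M.nl q k hq hk
        exact b.trans (h.lcj y (by simpa using (h.mem y).2 hy))
      have e2 : a = 1 := by
        have := h.ha
        rw [e1] at this
        simp only [List.map_nil, List.sum_nil, zero_add] at this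
        rw [mul_one_div_cancel p4.ne'] at this
        exact_mod_cast this
      rw [sel_pos (beq_t (by simpa using h.hT)), sel_pos (beq_t e2), e1, sel_pos (ble_t M.n0)] at H
      exact ⟨J, by simpa using h.perm, H⟩
    obtain ⟨x, hx, hm⟩ := exists_min_key M.c I hI
    have hxm := h.ltI hx
    have ndI := (List.nodup_append.1 h.nd).1
    have hcur : ∀ i ∈ I, cur ≤ M.c i := fun i hi => by have := h.key i hi; omega
    have hT : T ≠ 0 := by
      rw [h.hT, sum_erase M.t ndI hx]; have := M.t_pos hxm; omega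
    have s0 : 0 ≤ (I.map M.mu).sum :=
      List.sum_nonneg fun z hz => by obtain ⟨i, -, rfl⟩ := List.mem_map.1 hz; exact M.mu_nonneg i
    rw [sel_neg (beq_f hT), sel_pos] at H
    swap
    · refine ble_t ?_
      have m1 := M.ms_ge ps cm S Nm (cap := cap - iv) h.cur1 I
        (fun i hi => ⟨h.ltI hi, h.cmd i hi, hcur i hi⟩) h.srt (by
          rw [sum_filter_ite (fun i => M.o i = 2)]
          have := M.W_le hcap
          have b : (cap : ℚ) - iv ≤ ((cap - iv : ℕ) : ℚ) := by
            rcases le_total iv cap with b | b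
            · rw [Nat.cast_sub b]
            · have : (cap : ℚ) ≤ iv := by exact_mod_cast b
              have : (0 : ℚ) ≤ ((cap - iv : ℕ) : ℚ) := by positivity
              linarith
          change 1000000 * (I.map M.nu).sum ≤ _
          linarith)
      have m2 := up_ge 1 (c := max 1093 lc) (by omega) n1
      have : (a : ℚ) * 1000000 ≤ lc * ((ms (cap - iv) cur (M.mk' ps cm S Nm I) : ℕ) +
          (up 1 (max 1093 lc) : ℕ)) := by
        rw [h.ha, mul_assoc]
        refine mul_le_mul_of_nonneg_left ?_ p1.le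
        push_cast at m2
        linarith
      exact_mod_cast this
    have hd : ∀ y ∈ I, y ≠ x → ¬ M.A y x := fun y hy ne b => by
      have b1 := Nat.le_of_dvd (M.c_pos hxm) (M.Ac y (h.ltI hy) x hxm b)
      have b2 := M.lt_of_A (h.ltI hy) hxm b ne.symm
      have := hm y hy ne
      omega
    have G := M.scan_sound ps cm S Nm th _ _ T a lc cur bl iv _ _ x I 0 0 0 hx h.srt (by simp)
      (by have := M.o2 x hxm; omega) (fun y hy lt => ⟨hd y hy lt.ne', fun b => by
        have := M.srt x y lt (h.ltI hy)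
        have := hm y hy lt.ne'
        omega⟩) H
    obtain ⟨w, hw⟩ := h.cmd x hx
    have c0 := M.c_pos hxm
    have w0 : 0 < w := (CanonicallyOrderedAdd.mul_pos.1 (hw ▸ c0)).2
    have cm0 : 0 < cm x := (CanonicallyOrderedAdd.mul_pos.1 (hw ▸ c0)).1
    have G2 := gen_sound _ _ (ps x) (cm x) w w0 (fun q hq hqw => ?_) ?_ G
    · rw [← hw, sel_pos (ble_t (hcur x hx))] at G2
      exact ih _ (x :: J) _ _ _ _ _ _ _ _ _ (h.next hx hm).2
        (h.cand ps hth _ hx hm hd (strip_spec _ _ _).1 (strip_spec _ _ _).2 _ G2)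
    · refine hps x hxm q hq ?_
      by_contra hn
      obtain ⟨j, v, hv, e⟩ := Nat.exists_eq_pow_mul_and_not_dvd cm0.ne' q hq.ne_one
      obtain ⟨y, hy, ne, b, b'⟩ := M.sy x hxm q j hq hn (by
        rw [hw, pow_succ]; exact mul_dvd_mul (e ▸ Dvd.intro _ rfl) hqw)
      have hyJ : y ∈ J := ((h.mem y).2 hy).resolve_left fun hI => hd y hI ne b
      have := b'.trans (h.cmj x hx y hyJ b)
      rw [e, pow_succ] at this
      exact hv (Nat.dvd_of_mul_dvd_mul_left (pow_pos hq.pos j) this)
    · rw [← hw]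
      have a0 : (0 : ℚ) < a := by rw [h.ha]; positivity
      rw [Nat.le_div_iff_mul_le (by exact_mod_cast a0)]
      have c0' : (0 : ℚ) < M.c x := by exact_mod_cast c0
      have b1 : (M.c x : ℚ) * (I.map M.mu).sum ≤ T := by
        rw [h.hT, Nat.cast_list_sum, List.map_map, ← List.sum_map_mul_left]
        refine List.sum_le_sum fun i hi => ?_
        have b : M.c x ≤ M.c i := by
          by_cases e : i = x
          · rw [e]
          · have := hm i hi e; omega
        have b' : (M.c x : ℚ) ≤ M.c i := by exact_mod_cast b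
        simp only [Function.comp, mu]
        rw [← mul_div_assoc, div_le_iff₀ (c0'.trans_le b'), mul_comm]
        exact mul_le_mul_of_nonneg_left b' (by positivity)
      have b2 : (M.c x : ℚ) * (1 / M.n) ≤ 1 := by
        rw [mul_one_div, div_le_one p4]
        exact_mod_cast Nat.le_of_dvd M.n_pos (M.c_dvd_n hxm)
      have : (M.c x : ℚ) * a ≤ (T + 1) * lc := by
        rw [h.ha]; nlinarith
      exact_mod_cast this

end Mod

end H56.K
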